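import Cfsg.Agent.ThreeChar.NormalBlock
import Cfsg.Agent.BlockCover.Quotient
import Cfsg.Agent.CharDeg.Basic
import Cfsg.Agent.S4607
import Cfsg.Agent.S4964
import Cfsg.Agent.PGroup.Frattini

/-!
# Three characters and the count of height zero characters of the correspondent
-/

set_option autoImplicit false
set_option linter.style.haveILetI false
set_option linter.unusedSectionVars false

noncomputable section

namespace Cfsg.Agent.ThreeChar

open Cfsg Cfsg.Agent.Block
open scoped Classical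

universe u

variable {p : ℕ} [hp : Fact p.Prime] {M : Ideal AlgInt}

/-- In a `p`-group a derived quotient of prime order is the whole group. -/
theorem commutator_eq_bot_of_prime {H : Type u} [Group H] [Finite H] {D : Subgroup H}
    [D.Normal] (hD : IsPGroup p D)
    (hq : (Nat.card (D.map (QuotientGroup.mk' ⁅D, D⁆))).Prime) : ⁅D, D⁆ = ⊥ := by
  obtain ⟨⟨_, x, hx, rfl⟩, hne⟩ : ∃ q : D.map (QuotientGroup.mk' ⁅D, D⁆), q ≠ 1 := by
    haveI := Finite.one_lt_card_iff_nontrivial.1 hq.one_lt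
    exact exists_ne 1
  let π : D →* D.map (QuotientGroup.mk' ⁅D, D⁆) := (QuotientGroup.mk' ⁅D, D⁆).subgroupMap D
  have hgen : Subgroup.zpowers (π ⟨x, hx⟩) = ⊤ := by
    haveI : Fact (Nat.card (D.map (QuotientGroup.mk' ⁅D, D⁆))).Prime := ⟨hq⟩
    exact zpowers_eq_top_of_prime_card rfl hne
  have hΦ : Subgroup.zpowers (⟨x, hx⟩ : D) ⊔ frattini D = ⊤ := by
    refine eq_top_iff.2 fun d _ => ?_
    obtain ⟨i, hi⟩ : π d ∈ Subgroup.zpowers (π ⟨x, hx⟩) := hgen ▸ Subgroup.mem_top _
    have h1 : ((⟨x, hx⟩ : D) ^ i)⁻¹ * d ∈ frattini D := by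
      have h2 : ((x ^ i)⁻¹ * (d : H)) ∈ ⁅D, D⁆ := by
        rw [← QuotientGroup.eq_one_iff, QuotientGroup.mk_mul, QuotientGroup.mk_inv,
          QuotientGroup.mk_zpow, inv_mul_eq_one]
        exact congrArg Subtype.val hi
      obtain ⟨y, hy, hyx⟩ := S4964.map_frattini_ge hD h2
      have e : y = ((⟨x, hx⟩ : D) ^ i)⁻¹ * d := Subtype.ext (by simpa using hyx)
      exact e ▸ hy
    rw [show d = (⟨x, hx⟩ : D) ^ i * (((⟨x, hx⟩ : D) ^ i)⁻¹ * d) by group]
    exact mul_mem (Subgroup.mem_sup_left ⟨i, rfl⟩) (Subgroup.mem_sup_right h1)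
  have htop := frattini_nongenerating hΦ
  rw [eq_bot_iff, Subgroup.commutator_le]
  intro a ha b hb
  obtain ⟨i, hi⟩ : (⟨a, ha⟩ : D) ∈ Subgroup.zpowers (⟨x, hx⟩ : D) := htop ▸ Subgroup.mem_top _
  obtain ⟨j, hj⟩ : (⟨b, hb⟩ : D) ∈ Subgroup.zpowers (⟨x, hx⟩ : D) := htop ▸ Subgroup.mem_top _
  have hi' : x ^ i = a := congrArg Subtype.val hi
  have hj' : x ^ j = b := congrArg Subtype.val hj
  rw [Subgroup.mem_bot, commutatorElement_eq_one_iff_mul_comm, ← hi', ← hj', zpow_mul_comm]

/-- A block with normal defect group having at most three height zero characters. -/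
theorem card_defect_of_height_zero_le {H : Type u} [Group H] [Fintype H] (hM : IsPModular p M)
    {b : Set (IrrCharacter H)} (hb : IsPBlock M b) (D : Subgroup H) [D.Normal]
    (hD : IsDefectGroup p M b D) (hD1 : D ≠ ⊥)
    (h0 : Nat.card {χ : IrrCharacter H // χ ∈ b ∧ blockHeight p b (χ : H → ℂ) = 0} ≤ 3) :
    Nat.card D = 2 ∨ Nat.card D = 3 := by
  haveI : M.IsPrime := hM.2.1.isPrime
  have hP : IsPGroup p D := isDefectGroup_isPGroup hD
  set π := QuotientGroup.mk' ⁅D, D⁆ with hπ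
  letI := Fintype.ofFinite (H ⧸ ⁅D, D⁆)
  have hNp : IsPGroup p (⁅D, D⁆ : Subgroup H) := hP.to_le (Subgroup.commutator_le_self D)
  obtain ⟨Bb, hBb, hsub, hdef⟩ := BlockCover.exists_block_map_defectGroup ⁅D, D⁆ hM hNp hb
  set Db := D.map π with hDb'
  have hDb : IsDefectGroup p M Bb Db := (hdef _).2 ⟨D, hD, rfl⟩
  haveI : Db.Normal := Subgroup.Normal.map ‹_› _ (QuotientGroup.mk'_surjective _)
  have hab : ∀ x ∈ Db, ∀ y ∈ Db, x * y = y * x := by
    rintro _ ⟨x, hx, rfl⟩ _ ⟨y, hy, rfl⟩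
    rw [← map_mul, ← map_mul]
    refine QuotientGroup.eq.2 ?_
    have h := Subgroup.commutator_mem_commutator (inv_mem hy) (inv_mem hx)
    rw [commutatorElement_def] at h
    simpa [mul_assoc] using h
  have hidx : Db.index = D.index := by
    rw [hDb']
    refine Subgroup.index_map_eq _ (QuotientGroup.mk'_surjective _) ?_
    rw [hπ, QuotientGroup.ker_mk']
    exact Subgroup.commutator_le_self D
  -- `Bb` embeds into the height zero characters
  have hheight : ∀ χ : IrrCharacter (H ⧸ ⁅D, D⁆), χ ∈ Bb → ∀ ψ : IrrCharacter H,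
      (ψ : H → ℂ) = (χ : H ⧸ ⁅D, D⁆ → ℂ) ∘ QuotientGroup.mk → blockHeight p b (ψ : H → ℂ) = 0 := by
    intro χ hχ ψ hψ
    have hψb := hsub χ hχ ψ hψ
    have hdeq : charDegree (ψ : H → ℂ) = charDegree (χ : H ⧸ ⁅D, D⁆ → ℂ) := by
      simp only [charDegree, hψ, Function.comp_apply, QuotientGroup.mk_one]
    have hle := Nat.sInf_le (s := (fun η : IrrCharacter H =>
      (charDegree (η : H → ℂ)).factorization p) '' b) ⟨ψ, hψb, rfl⟩
    have hc := card_isDefectGroup hM hb hD
    rw [blockDefect] at hc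
    have h1 := BlockVal.factorization_degree_le p ψ
    have h2 : (Nat.card D).factorization p + D.index.factorization p =
        (Nat.card H).factorization p := by
      rw [← Finsupp.add_apply, ← Nat.factorization_mul Nat.card_pos.ne'
        Subgroup.index_ne_zero_of_finite, Subgroup.card_mul_index]
    rw [hc, hp.out.factorization_pow, Finsupp.single_eq_same] at h2
    have h3 : (charDegree (χ : H ⧸ ⁅D, D⁆ → ℂ)).factorization p ≤ D.index.factorization p := by
      rw [← hidx]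
      exact (Nat.factorization_le_iff_dvd (BlockVal.irr_one_eq_charDegree χ).2
        Subgroup.index_ne_zero_of_finite).2 (CharDeg.charDegree_dvd_index Db hab χ) p
    rw [blockHeight, hdeq]
    simp only [] at hle
    rw [hdeq] at hle h1
    omega
  have hk : Nat.card Bb ≤ 3 := by
    refine le_trans ?_ h0
    let f : Bb → {χ : IrrCharacter H // χ ∈ b ∧ blockHeight p b (χ : H → ℂ) = 0} := fun χ =>
      ⟨⟨(χ.1 : H ⧸ ⁅D, D⁆ → ℂ) ∘ QuotientGroup.mk,
        Char.isIrrCharacter_comp χ.1.2 π (QuotientGroup.mk'_surjective _)⟩,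
        hsub χ.1 χ.2 _ rfl, hheight χ.1 χ.2 _ rfl⟩
    refine Nat.card_le_card_of_injective f fun χ χ' h => Subtype.ext (Subtype.ext (funext fun q => ?_))
    obtain ⟨g, rfl⟩ := QuotientGroup.mk_surjective q
    exact congrFun (congrArg (fun z : {χ : IrrCharacter H // χ ∈ b ∧
      blockHeight p b (χ : H → ℂ) = 0} => (z.1 : H → ℂ)) h :) g
  have hDb1 : Db ≠ ⊥ := by
    intro h
    rw [hDb', Subgroup.map_eq_bot_iff, hπ, QuotientGroup.ker_mk'] at h
    haveI : Group.IsNilpotent D := hP.isNilpotent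
    haveI : Nontrivial D := (Subgroup.nontrivial_iff_ne_bot D).2 hD1
    have h1 : frattini D = ⊤ := eq_top_iff.2 fun d _ => by
      obtain ⟨y, hy, hyd⟩ := S4964.map_frattini_ge hP (h d.2)
      rwa [← Subtype.ext hyd]
    have h2 : (⊥ : Subgroup D) = ⊤ := frattini_nongenerating (by rw [h1, sup_top_eq])
    exact bot_ne_top h2
  have hd : blockDefect p Bb ≠ 0 := fun h => hDb1 (Subgroup.eq_bot_of_card_eq _ (by
    rw [card_isDefectGroup hM hBb hDb, h, pow_zero]))
  have h1 := S4607.one_lt_card_of_defect_pos hM hBb hd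
  have hcard : Nat.card Db = 2 ∨ Nat.card Db = 3 := by
    rcases (show Nat.card Bb = 2 ∨ Nat.card Bb = 3 by omega) with h | h
    · exact Or.inl ((S4607.result p M hM Bb hBb Db hDb).1 h)
    · exact Or.inr (card_eq_three_of_normal _ (H ⧸ ⁅D, D⁆) rfl hM Bb Db hBb hDb hDb1 hab h)
  have hbot := commutator_eq_bot_of_prime hP (show (Nat.card Db).Prime by
    rcases hcard with h | h <;> rw [h] <;> norm_num)
  have hinj : Function.Injective (π.comp D.subtype) := by
    rw [injective_iff_map_eq_one]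
    intro d hd'
    have h2 : (d : H) ∈ ⁅D, D⁆ := (QuotientGroup.eq_one_iff (d : H)).1 hd'
    rw [hbot, Subgroup.mem_bot] at h2
    exact Subtype.ext h2
  have e : Nat.card D = Nat.card Db := by
    rw [Nat.card_congr (MonoidHom.ofInjective hinj).toEquiv, MonoidHom.range_comp, Subgroup.range_subtype]
  rwa [e]

end Cfsg.Agent.ThreeChar
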