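import Mathlib

/-!
# Arithmetic for blocks with three characters

`(p^d - 1) (a² + b²)` is a square for coprime `a`, `b`.
-/

set_option autoImplicit false
set_option linter.style.haveILetI false
set_option maxHeartbeats 1000000

namespace Cfsg.Agent.ThreeChar

/-- Coprime factors of a square are squares. -/
theorem isSquare_factors {a b : ℕ} (h : Nat.Coprime a b) (hs : IsSquare (a * b)) :
    IsSquare a ∧ IsSquare b := by
  obtain ⟨c, hc⟩ := hs
  constructor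
  · obtain ⟨d, hd⟩ := exists_eq_pow_of_mul_eq_pow (a := a) (b := b) (c := c) (k := 2)
      (Nat.isUnit_iff.2 h) (by rw [hc, sq])
    exact ⟨d, by rw [hd, sq]⟩
  · obtain ⟨d, hd⟩ := exists_eq_pow_of_mul_eq_pow (a := b) (b := a) (c := c) (k := 2)
      (Nat.isUnit_iff.2 (Nat.Coprime.symm h)) (by rw [mul_comm, hc, sq])
    exact ⟨d, by rw [hd, sq]⟩

theorem not_isSquare_between {n k : ℕ} (h1 : k * k < n) (h2 : n < (k + 1) * (k + 1)) :
    ¬ IsSquare n := by
  rintro ⟨c, rfl⟩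
  have a1 : k < c := Nat.mul_self_lt_mul_self_iff.1 h1
  have a2 : c < k + 1 := Nat.mul_self_lt_mul_self_iff.1 h2
  omega

theorem not_isSquare_sq_sub_one {w z : ℕ} (hw : 1 < w) : w * w - 1 ≠ z * z := by
  intro h
  have h1 : (w - 1) * (w - 1) < w * w - 1 := by
    obtain ⟨v, rfl⟩ : ∃ v, w = v + 2 := ⟨w - 2, by omega⟩
    simp only [show v + 2 - 1 = v + 1 by omega]
    have : (v + 2) * (v + 2) = (v + 1) * (v + 1) + (2 * v + 3) := by ring
    omega
  refine not_isSquare_between h1 ?_ ⟨z, h⟩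
  rw [show w - 1 + 1 = w by omega]
  have : 0 < w * w := by positivity
  omega

theorem mul_self_mod_four (c : ℕ) : c * c % 4 = 0 ∨ c * c % 4 = 1 := by
  rw [Nat.mul_mod]
  have := Nat.mod_lt c (show 4 > 0 by norm_num)
  interval_cases c % 4 <;> simp

theorem mul_self_mod_three (c : ℕ) : c * c % 3 = 0 ∨ c * c % 3 = 1 := by
  rw [Nat.mul_mod]
  have := Nat.mod_lt c (show 3 > 0 by norm_num)
  interval_cases c % 3 <;> simp

/-- An odd divisor of a sum of two coprime squares is `1` modulo `4`. -/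
theorem mod_four_of_dvd_sum_sq {a b : ℕ} (hab : Nat.Coprime a b) :
    ∀ m : ℕ, m ∣ a ^ 2 + b ^ 2 → Odd m → m % 4 = 1 := by
  intro m
  induction m using Nat.recOnMul with
  | zero => intro _ ho; simp at ho
  | one => intros; rfl
  | prime q hq =>
    intro hd ho
    haveI := Fact.mk hq
    have h1 : q % 4 ≠ 3 := ZMod.exists_sq_eq_neg_one_iff.1
      (ZMod.isSquare_neg_one_of_dvd hd (ZMod.isSquare_neg_one_of_eq_sq_add_sq_of_coprime rfl hab))
    obtain ⟨k, rfl⟩ := ho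
    omega
  | mul x y hx hy =>
    intro hd ho
    obtain ⟨hox, hoy⟩ := Nat.odd_mul.1 ho
    rw [Nat.mul_mod, hx ((Dvd.intro y rfl).trans hd) hox, hy ((Dvd.intro_left x rfl).trans hd) hoy]

theorem ordCompl_two_of_odd {o : ℕ} (k : ℕ) (ho : Odd o) : ordCompl[2] (2 ^ k * o) = o := by
  have hn : ¬ 2 ∣ o := fun h => by obtain ⟨m, rfl⟩ := ho; omega
  rw [Nat.ordCompl_mul, Nat.ordCompl_self_pow Nat.prime_two, one_mul,
    Nat.factorization_eq_zero_of_not_dvd hn, pow_zero, Nat.div_one]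

/-- No number with odd part `3` modulo `4` times a sum of coprime squares is a square. -/
theorem not_isSquare_mul_sum_sq {a b k o : ℕ} (hab : Nat.Coprime a b) (ho : o % 4 = 3)
    (hS : a ^ 2 + b ^ 2 ≠ 0) : ¬ IsSquare (2 ^ k * o * (a ^ 2 + b ^ 2)) := by
  rintro ⟨c, hc⟩
  have hoo : Odd o := Nat.odd_iff.2 (by omega)
  obtain ⟨e, m, hm, he⟩ := Nat.exists_eq_two_pow_mul_odd hS
  have hm1 := mod_four_of_dvd_sum_sq hab m ⟨2 ^ e, by rw [he]; ring⟩ hm
  have hL : ordCompl[2] (2 ^ k * o * (a ^ 2 + b ^ 2)) = o * m := by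
    rw [show 2 ^ k * o * (a ^ 2 + b ^ 2) = 2 ^ (k + e) * (o * m) by rw [he, pow_add]; ring]
    exact ordCompl_two_of_odd _ (hoo.mul hm)
  rw [hc, Nat.ordCompl_mul] at hL
  have h2 : o * m % 4 = 3 := by rw [Nat.mul_mod, ho, hm1]
  rw [← hL] at h2
  rcases mul_self_mod_four (ordCompl[2] c) with h | h <;> omega

theorem odd_sq_mod_eight {z : ℕ} (hz : Odd z) : z * z % 8 = 1 := by
  obtain ⟨k, rfl⟩ := hz
  obtain ⟨m, hm⟩ := Nat.even_mul_succ_self k
  have : (2 * k + 1) * (2 * k + 1) = 4 * (k * (k + 1)) + 1 := by ring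
  omega

/-- Splitting `(x² - 1) r`. -/
theorem split_square {r x : ℕ} (hr : r.Prime) (hr2 : r ≠ 2) (hrx : r ∣ x + 1) (hx8 : x % 8 = 1)
    (hsq : IsSquare ((x * x - 1) * r)) : ∃ s w, x = 2 * (s * s) + 1 ∧ x + 1 = 2 * (r * (w * w)) := by
  obtain ⟨e, rfl⟩ : ∃ e, x = 8 * e + 1 := ⟨x / 8, by omega⟩
  have hcop : Nat.Coprime (4 * e) ((4 * e + 1) * r) := by
    refine Nat.Coprime.mul_right (Nat.coprime_self_add_right.2 (Nat.coprime_one_right _))
      ((hr.coprime_iff_not_dvd.2 fun h => ?_).symm)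
    have h2 : r ∣ 8 * e := by
      rw [show 8 * e = 4 * e * 2 by ring]; exact h.mul_right 2
    exact hr2 ((Nat.prime_dvd_prime_iff_eq hr Nat.prime_two).1
      ((Nat.dvd_add_right h2).1 (by rwa [show 8 * e + 1 + 1 = 8 * e + 2 by ring] at hrx)))
  obtain ⟨c, hc⟩ := hsq
  have h1 : (8 * e + 1) * (8 * e + 1) - 1 = 4 * (4 * e * (4 * e + 1)) := by
    have : (8 * e + 1) * (8 * e + 1) = 4 * (4 * e * (4 * e + 1)) + 1 := by ring
    omega
  rw [h1] at hc
  obtain ⟨c', rfl⟩ : 2 ∣ c := by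
    have : 2 ∣ c * c := ⟨2 * (4 * e * (4 * e + 1)) * r, by rw [← hc]; ring⟩
    rcases (Nat.prime_two.dvd_mul).1 this with h | h <;> exact h
  obtain ⟨⟨s, hs1⟩, ⟨t, ht⟩⟩ := isSquare_factors hcop ⟨c', by nlinarith⟩
  obtain ⟨w, rfl⟩ : r ∣ t := by
    have : r ∣ t * t := ⟨4 * e + 1, by rw [← ht]; ring⟩
    rcases hr.dvd_mul.1 this with h | h <;> exact h
  have hw : 4 * e + 1 = r * (w * w) := Nat.eq_of_mul_eq_mul_right hr.pos (by rw [ht]; ring)
  exact ⟨s, w, by omega, by omega⟩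

/-- `z⁴ - 1` is not twice a square. -/
theorem fourth_power_case {z s : ℕ} (hz : Odd z) (h1 : 1 < z) :
    z * z * (z * z) ≠ 2 * (s * s) + 1 := by
  intro h
  have h8 := odd_sq_mod_eight hz
  obtain ⟨f, hf⟩ : ∃ f, z * z = 8 * f + 1 := ⟨z * z / 8, by omega⟩
  rw [hf] at h
  have hsq2 : IsSquare (8 * f * (4 * f + 1)) := ⟨s, by linarith⟩
  have hc2 : Nat.Coprime (8 * f) (4 * f + 1) := by
    rw [show 8 * f = 2 * (4 * f) by ring]
    exact Nat.Coprime.mul_left (Nat.prime_two.coprime_iff_not_dvd.2 (by omega))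
      (Nat.coprime_self_add_right.2 (Nat.coprime_one_right _))
  obtain ⟨⟨u, hu⟩, -⟩ := isSquare_factors hc2 hsq2
  exact not_isSquare_sq_sub_one (w := z) (z := u) h1 (by omega)

/-- An odd `y` with `y² - 1` twice a square. -/
theorem odd_power_case {y s : ℕ} (hy : Odd y) (h : y * y = 2 * (s * s) + 1) :
    (∃ u v, y = u * u + 1 ∧ y + 1 = 2 * (v * v)) ∨ ∃ w, y + 1 = w * w := by
  obtain ⟨a, rfl⟩ := hy
  have hsq2 : 2 * a * (a + 1) = s * s := by linarith
  rcases Nat.even_or_odd a with ⟨a', ha'⟩ | ⟨a', ha'⟩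
  · have hc2 : Nat.Coprime (2 * a) (a + 1) :=
      Nat.Coprime.mul_left (Nat.prime_two.coprime_iff_not_dvd.2 (by omega))
        (Nat.coprime_self_add_right.2 (Nat.coprime_one_right _))
    obtain ⟨⟨u, hu⟩, ⟨v, hv⟩⟩ := isSquare_factors hc2 ⟨s, hsq2⟩
    exact Or.inl ⟨u, v, by omega, by omega⟩
  · have hc2 : Nat.Coprime a (2 * (a + 1)) :=
      Nat.Coprime.mul_right (Nat.prime_two.coprime_iff_not_dvd.2 (by omega)).symm
        (Nat.coprime_self_add_right.2 (Nat.coprime_one_right _))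
    obtain ⟨-, ⟨w, hw⟩⟩ := isSquare_factors hc2 ⟨s, by rw [← hsq2]; ring⟩
    exact Or.inr ⟨w, by omega⟩

/-- A prime power which is one less than a square. -/
theorem eq_three_of_add_one_sq {p i w : ℕ} (hp : p.Prime) (hp2 : p ≠ 2)
    (h : p ^ i + 1 = w * w) : p = 3 ∧ i = 1 := by
  obtain ⟨u, rfl⟩ : ∃ u, w = u + 1 := ⟨w - 1, by rcases w with _ | w <;> simp_all⟩
  have hy : p ^ i = u * (u + 2) := by
    have : (u + 1) * (u + 1) = u * (u + 2) + 1 := by ring
    omega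
  obtain ⟨j, -, hj⟩ := (Nat.dvd_prime_pow hp).1 (Dvd.intro (u + 2) hy.symm)
  obtain ⟨l, -, hl⟩ := (Nat.dvd_prime_pow hp).1 (Dvd.intro_left u hy.symm)
  rcases Nat.eq_zero_or_pos j with rfl | hj0
  · rw [pow_zero] at hj
    subst hj
    exact (Nat.Prime.pow_eq_iff Nat.prime_three).1 hy
  · exfalso
    rcases Nat.eq_zero_or_pos l with rfl | hl0
    · rw [pow_zero] at hl; omega
    have h1 : p ∣ u := hj ▸ dvd_pow_self p hj0.ne'
    have h2 : p ∣ u + 2 := hl ▸ dvd_pow_self p hl0.ne'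
    exact hp2 ((Nat.prime_dvd_prime_iff_eq hp Nat.prime_two).1 ((Nat.dvd_add_right h1).1 h2))

/-- No odd `q ≥ 3` prime to `3` has `q³ - 1` a square and `q³ + 1` twice a square. -/
theorem cube_case {q u v : ℕ} (hq3 : 3 ≤ q) (hqo : Odd q) (h3q : ¬ 3 ∣ q)
    (hu : q * q * q = u * u + 1) (hv : q * q * q + 1 = 2 * (v * v)) : False := by
  obtain ⟨g, hg⟩ := hqo
  obtain ⟨q', rfl⟩ : ∃ q', q = q' + 3 := ⟨q - 3, by omega⟩
  rcases (show (q' + 3) % 3 = 1 ∨ (q' + 3) % 3 = 2 by omega) with h1 | h1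
  · obtain ⟨Q, hQ⟩ : ∃ Q, Q = (q' + 3) * (q' + 2) + 1 := ⟨_, rfl⟩
    have hfac : (q' + 4) * Q = 2 * (v * v) := by rw [← hv, hQ]; ring
    have hcQ : Nat.Coprime (g + 1) Q := by
      refine Nat.coprime_of_dvd fun l hl hl1 hl2 => ?_
      have hl3 : l ∣ (q' + 4) * (q' + 1) := Dvd.dvd.mul_right (hl1.trans ⟨2, by omega⟩) _
      have e : Q = (q' + 4) * (q' + 1) + 3 := by rw [hQ]; ring
      rw [e] at hl2
      obtain rfl := (Nat.prime_dvd_prime_iff_eq hl Nat.prime_three).1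
        ((Nat.dvd_add_right hl3).1 hl2)
      omega
    have hh : IsSquare ((g + 1) * Q) := ⟨v, by
      rw [show q' + 4 = 2 * (g + 1) by omega] at hfac
      linarith⟩
    refine not_isSquare_between (k := q' + 2) ?_ ?_ (isSquare_factors hcQ hh).2
    · rw [hQ]; linarith
    · rw [hQ]; linarith
  · obtain ⟨Q, hQ⟩ : ∃ Q, Q = (q' + 3) * (q' + 4) + 1 := ⟨_, rfl⟩
    have hfac : (q' + 2) * Q = u * u := by
      have e : (q' + 2) * Q + 1 = (q' + 3) * (q' + 3) * (q' + 3) := by rw [hQ]; ring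
      omega
    have hcQ : Nat.Coprime (q' + 2) Q := by
      refine Nat.coprime_of_dvd fun l hl hl1 hl2 => ?_
      have hl3 : l ∣ (q' + 2) * (q' + 5) := hl1.mul_right _
      have e : Q = (q' + 2) * (q' + 5) + 3 := by rw [hQ]; ring
      rw [e] at hl2
      obtain rfl := (Nat.prime_dvd_prime_iff_eq hl Nat.prime_three).1
        ((Nat.dvd_add_right hl3).1 hl2)
      omega
    refine not_isSquare_between (k := q' + 3) ?_ ?_ (isSquare_factors hcQ ⟨u, hfac⟩).2
    · rw [hQ]; linarith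
    · rw [hQ]; linarith

/-- The only pair with `(p^d - 1) (d + 1)` a square and `p` of order `d` modulo the prime `d + 1`
is `(3, 4)`. -/
theorem exceptional {p d : ℕ} (hp : p.Prime) (hp2 : p ≠ 2) (hr : (d + 1).Prime)
    (hr4 : (d + 1) % 4 = 1) (hord : orderOf (p : ZMod (d + 1)) = d)
    (hsq : IsSquare ((p ^ d - 1) * (d + 1))) : p = 3 ∧ d = 4 := by
  haveI := Fact.mk hr
  have hd0 : 0 < d := by have := hr.two_le; omega
  obtain ⟨i, rfl⟩ : ∃ i, d = 4 * i := ⟨d / 4, by omega⟩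
  have hi : 0 < i := by omega
  have hpodd : Odd p := hp.odd_of_ne_two hp2
  have hxy : p ^ (2 * i) = p ^ i * p ^ i := by rw [← pow_add]; congr 1; omega
  have hx2 : p ^ (2 * i) * p ^ (2 * i) = p ^ (4 * i) := by rw [← pow_add]; congr 1; omega
  have hrx : (4 * i + 1) ∣ p ^ (2 * i) + 1 := by
    rw [← ZMod.natCast_eq_zero_iff]
    have h1 : (p : ZMod (4 * i + 1)) ^ (2 * i) * (p : ZMod (4 * i + 1)) ^ (2 * i) = 1 := by
      rw [← pow_add]
      exact orderOf_dvd_iff_pow_eq_one.1 (dvd_of_eq (hord.trans (by omega)))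
    have h2 : (p : ZMod (4 * i + 1)) ^ (2 * i) ≠ 1 :=
      pow_ne_one_of_lt_orderOf (by omega) (by rw [hord]; omega)
    rw [Nat.cast_add, Nat.cast_one, Nat.cast_pow, (mul_self_eq_one_iff.1 h1).resolve_left h2]
    simp
  have hx8 : p ^ (2 * i) % 8 = 1 := hxy ▸ odd_sq_mod_eight hpodd.pow
  obtain ⟨s, w, hs, hw⟩ := split_square hr (by omega) hrx hx8 (by rwa [hx2])
  rw [hxy] at hs hw
  rcases Nat.even_or_odd i with ⟨i', rfl⟩ | hiodd
  · exfalso
    rw [pow_add] at hs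
    exact fourth_power_case hpodd.pow (one_lt_pow₀ hp.one_lt (by omega)) hs
  rcases odd_power_case hpodd.pow hs with ⟨u, v, hu, hv⟩ | ⟨w', hw'⟩
  · exfalso
    by_cases hne : p = 3
    · subst hne
      have h3 : 3 ∣ 3 ^ i := dvd_pow_self 3 hi.ne'
      rcases mul_self_mod_three u with h | h <;> omega
    have h3p : ¬ 3 ∣ p := fun h => hne ((Nat.prime_dvd_prime_iff_eq Nat.prime_three hp).1 h).symm
    have h3y : ¬ 3 ∣ p ^ i := fun h => h3p (Nat.prime_three.dvd_of_dvd_pow h)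
    have h3i : 3 ∣ i := by
      have hx3 : p ^ i * p ^ i % 3 = 1 := by
        rcases mul_self_mod_three (p ^ i) with h | h
        · exact absurd ((Nat.prime_three.dvd_mul.1 (Nat.dvd_of_mod_eq_zero h)).elim id id) h3y
        · exact h
      have h2 : (4 * i + 1) * (w * w) % 3 = 1 := by omega
      rw [Nat.mul_mod] at h2
      rcases mul_self_mod_three w with h | h <;> rw [h] at h2 <;> omega
    obtain ⟨k, rfl⟩ := h3i
    have hyq : p ^ (3 * k) = p ^ k * p ^ k * p ^ k := by rw [← pow_add, ← pow_add]; congr 1; omega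
    rw [hyq] at hu hv
    have hk0 : 0 < k := by omega
    exact cube_case ((show 3 ≤ p by have := hp.two_le; omega).trans (Nat.le_self_pow hk0.ne' p))
      hpodd.pow (fun h => h3p (Nat.prime_three.dvd_of_dvd_pow h)) hu hv
  · obtain ⟨rfl, rfl⟩ := eq_three_of_add_one_sq hp hp2 hw'
    exact ⟨rfl, rfl⟩

end Cfsg.Agent.ThreeChar
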