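import Mathlib

/-!
# Coprime linear groups with an element of primitive prime order
-/

set_option autoImplicit false
set_option linter.style.haveILetI false
set_option linter.unusedSectionVars false

namespace Cfsg.Agent.ThreeChar

universe u v

/-- The centraliser of `y` is generated by elements lying with `y` in cyclic subgroups. -/
def Good {X : Type u} [Group X] (y : X) : Prop :=
  ∀ t, Commute t y → t ∈ Subgroup.closure {t | ∃ k, t ∈ Subgroup.zpowers k ∧ y ∈ Subgroup.zpowers k}

theorem good_of_forall {X : Type u} [Group X] {y : X}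
    (h : ∀ t, Commute t y → ∃ k, t ∈ Subgroup.zpowers k ∧ y ∈ Subgroup.zpowers k) : Good y :=
  fun t ht => Subgroup.subset_closure (h t ht)

theorem good_one {X : Type u} [Group X] : Good (1 : X) :=
  good_of_forall fun t _ => ⟨t, Subgroup.mem_zpowers t, one_mem _⟩

/-- An element of prime power order fixes a number of points congruent to all. -/
theorem card_modEq_fixed {α : Type v} [Finite α] {σ : Equiv.Perm α} {q : ℕ} [Fact q.Prime]
    (hσ : σ ^ q = 1) : Nat.card {a : α // σ a = a} ≡ Nat.card α [MOD q] := by
  classical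
  haveI := Fintype.ofFinite α
  rw [Nat.card_eq_fintype_card, Nat.card_eq_fintype_card, Fintype.card_subtype]
  rw [show (Finset.univ.filter fun a => σ a = a) = σ.supportᶜ by ext a; simp]
  exact Equiv.Perm.card_compl_support_modEq (n := 1) (by rwa [pow_one])

variable {X : Type u} [Group X] {P : Type v} [CommGroup P] [Finite P] (φ : X →* MulAut P)

/-- The fixed points of `x`. -/
def fixedOf (x : X) : Subgroup P where
  carrier := {u | φ x u = u}
  one_mem' := map_one _
  mul_mem' := fun {a b} (ha : φ x a = a) (hb : φ x b = b) => by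
    show φ x (a * b) = a * b
    rw [map_mul, ha, hb]
  inv_mem' := fun {a} (ha : φ x a = a) => by
    show φ x a⁻¹ = a⁻¹
    rw [map_inv, ha]

theorem mem_fixedOf {x : X} {u : P} : u ∈ fixedOf φ x ↔ φ x u = u := Iff.rfl

theorem card_modEq_fixedOf {x : X} {q : ℕ} [Fact q.Prime] (hx : x ^ q = 1) (Q : Subgroup P)
    (hQ : ∀ u ∈ Q, φ x u ∈ Q) : Nat.card ↥(Q ⊓ fixedOf φ x) ≡ Nat.card Q [MOD q] := by
  let σ : Equiv.Perm Q := Equiv.ofBijective (fun u => ⟨φ x u, hQ u u.2⟩)
    (Finite.injective_iff_bijective.1 fun a b h =>
      Subtype.ext ((φ x).injective (congrArg Subtype.val h :)))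
  have hpow : ∀ (n : ℕ) (u : Q), ((σ ^ n) u : P) = φ (x ^ n) u := by
    intro n
    induction n with
    | zero => intro u; simp
    | succ k ih => intro u; rw [pow_succ, pow_succ, Equiv.Perm.mul_apply, ih, map_mul]; rfl
  have hσ : σ ^ q = 1 := Equiv.ext fun u => Subtype.ext (by rw [hpow, hx, map_one]; rfl)
  refine Eq.trans ?_ (card_modEq_fixed hσ)
  congr 1
  refine Nat.card_congr ?_
  exact { toFun := fun u => ⟨⟨u.1, u.2.1⟩, Subtype.ext (show φ x u.1 = u.1 from u.2.2)⟩
          invFun := fun u => ⟨u.1.1, u.1.2, (congrArg Subtype.val u.2 :)⟩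
          left_inv := fun u => rfl
          right_inv := fun u => rfl }

/-- The action on the additive version of `P`. -/
def endHom : X →* AddMonoid.End (Additive P) where
  toFun x := MonoidHom.toAdditive (φ x).toMonoidHom
  map_one' := AddMonoidHom.ext fun a => by
    show Additive.ofMul (φ 1 a.toMul) = a
    rw [map_one]; rfl
  map_mul' x y := AddMonoidHom.ext fun a => by
    show Additive.ofMul (φ (x * y) a.toMul) = Additive.ofMul (φ x (φ y a.toMul))
    rw [map_mul]; rfl

theorem endHom_apply (x : X) (u : P) :
    endHom φ x (Additive.ofMul u) = Additive.ofMul (φ x u) := rfl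

omit [Finite P] in
theorem endHom_injective (hinj : Function.Injective φ) : Function.Injective (endHom φ) :=
  fun a b h => hinj (MulEquiv.ext fun u => Additive.ofMul.injective
    (DFunLike.congr_fun h (Additive.ofMul u)))

/-- The elements of `P` killed by an endomorphism. -/
def kerOf (f : AddMonoid.End (Additive P)) : Subgroup P where
  carrier := {u | f (Additive.ofMul u) = 0}
  one_mem' := map_zero f
  mul_mem' := fun {a b} (ha : f (Additive.ofMul a) = 0) (hb : f (Additive.ofMul b) = 0) => by
    show f (Additive.ofMul (a * b)) = 0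
    rw [ofMul_mul, map_add, ha, hb, add_zero]
  inv_mem' := fun {a} (ha : f (Additive.ofMul a) = 0) => by
    show f (Additive.ofMul a⁻¹) = 0
    rw [ofMul_inv, map_neg, ha, neg_zero]

variable {p : ℕ} [hp : Fact p.Prime] {d : ℕ} (hcard : Nat.card P = p ^ d)
  (hinj : Function.Injective φ)

section Primitive

variable {r : ℕ} [hr : Fact r.Prime] (hord : orderOf (p : ZMod r) = d) {g : X} (hg : orderOf g = r)
include hcard hinj hord hg

/-- A primitive element leaves only the trivial subgroups invariant. -/
theorem invariant_eq_bot_or_top (Q : Subgroup P) (hQ : ∀ u ∈ Q, φ g u ∈ Q) : Q = ⊥ ∨ Q = ⊤ := by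
  have hgr : g ^ r = 1 := by rw [← hg, pow_orderOf_eq_one]
  have key : ∀ S : Subgroup P, (Nat.card S : ZMod r) = 1 → S = ⊥ ∨ S = ⊤ := by
    intro S hS
    obtain ⟨i, hi, hSi⟩ := (Nat.dvd_prime_pow hp.out).1 (hcard ▸ S.card_subgroup_dvd_card)
    rw [hSi, Nat.cast_pow, ← orderOf_dvd_iff_pow_eq_one, hord] at hS
    rcases Nat.eq_zero_or_pos i with rfl | hi0
    · exact Or.inl (Subgroup.eq_bot_of_card_eq _ (by rw [hSi, pow_zero]))
    · refine Or.inr (Subgroup.eq_top_of_card_eq _ ?_)
      rw [hSi, hcard, le_antisymm hi (Nat.le_of_dvd hi0 hS)]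
  have hpd : (Nat.card P : ZMod r) = 1 := by
    rw [hcard, Nat.cast_pow, ← hord, pow_orderOf_eq_one]
  have h := card_modEq_fixedOf φ hgr ⊤ fun u _ => Subgroup.mem_top _
  rw [top_inf_eq, Subgroup.card_top, ← ZMod.natCast_eq_natCast_iff, hpd] at h
  have hF : fixedOf φ g = ⊥ := by
    refine (key _ h).resolve_right fun ht => hr.out.ne_one ?_
    rw [← hg, orderOf_eq_one_iff]
    refine hinj (MulEquiv.ext fun u => ?_)
    rw [map_one]
    exact (mem_fixedOf φ).1 (ht ▸ Subgroup.mem_top u)
  refine key Q ?_
  have h2 := card_modEq_fixedOf φ hgr Q hQ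
  rw [hF, inf_bot_eq, Subgroup.card_bot, ← ZMod.natCast_eq_natCast_iff, Nat.cast_one] at h2
  exact h2.symm

theorem fixedOf_primitive : fixedOf φ g = ⊥ := by
  refine (invariant_eq_bot_or_top φ hcard hinj hord hg _ fun u hu => ?_).resolve_right fun ht =>
    hr.out.ne_one ?_
  · rw [(mem_fixedOf φ).1 hu]; exact hu
  · rw [← hg, orderOf_eq_one_iff]
    refine hinj (MulEquiv.ext fun u => ?_)
    rw [map_one]
    exact (mem_fixedOf φ).1 (ht ▸ Subgroup.mem_top u)

theorem nontrivial_of_primitive : Nontrivial P := by
  by_contra h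
  rw [not_nontrivial_iff_subsingleton] at h
  exact hr.out.ne_one
    (hg ▸ orderOf_eq_one_iff.2 (hinj (MulEquiv.ext fun u => Subsingleton.elim _ _)))

/-- An endomorphism commuting with a primitive element is zero or injective. -/
theorem eq_zero_or_injective {f : AddMonoid.End (Additive P)} (hf : Commute f (endHom φ g)) :
    f = 0 ∨ Function.Injective f := by
  have hK : ∀ u ∈ kerOf f, φ g u ∈ kerOf f := by
    intro u (hu : f (Additive.ofMul u) = 0)
    show f (endHom φ g (Additive.ofMul u)) = 0
    refine (DFunLike.congr_fun hf.eq _).trans ?_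
    show endHom φ g (f (Additive.ofMul u)) = 0
    rw [hu, map_zero]
  rcases invariant_eq_bot_or_top φ hcard hinj hord hg _ hK with h | h
  · refine Or.inr ((injective_iff_map_eq_zero f).2 fun a ha => ?_)
    have h1 : a.toMul ∈ kerOf f := ha
    rw [h, Subgroup.mem_bot] at h1
    exact Additive.toMul.injective h1
  · exact Or.inl (AddMonoidHom.ext fun a => (show a.toMul ∈ kerOf f from h ▸ Subgroup.mem_top _))

omit hcard hinj hord hg in
/-- The commutant of `g`. -/
abbrev commutant (g : X) : Subring (AddMonoid.End (Additive P)) :=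
  Subring.centralizer {endHom φ g}

omit hcard hinj hord hg in
theorem mem_commutant {f : AddMonoid.End (Additive P)} :
    f ∈ commutant φ g ↔ Commute f (endHom φ g) := by
  rw [Subring.mem_centralizer_iff]
  exact ⟨fun h => (h _ rfl).symm, fun h _ hx => by subst hx; exact h.symm⟩

theorem isDomain_commutant : IsDomain (commutant φ g) := by
  haveI := nontrivial_of_primitive φ hcard hinj hord hg
  haveI : Nontrivial (commutant φ g) := ⟨⟨0, 1, fun h => by
    obtain ⟨u, hu⟩ := exists_ne (1 : P)
    exact hu (Additive.ofMul.injective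
      (DFunLike.congr_fun (congrArg Subtype.val h) (Additive.ofMul u)).symm)⟩⟩
  haveI : NoZeroDivisors (commutant φ g) := ⟨fun {a b} hab => by
    by_contra hne
    push Not at hne
    have hinj' := (eq_zero_or_injective φ hcard hinj hord hg ((mem_commutant φ).1 a.2)).resolve_left
      fun h => hne.1 (Subtype.ext h)
    refine hne.2 (Subtype.ext (AddMonoidHom.ext fun u => hinj' ?_))
    show (a * b).1 u = a.1 0
    rw [hab, map_zero]; rfl⟩
  exact NoZeroDivisors.to_isDomain _

/-- The centraliser of a primitive element is cyclic. -/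
theorem isCyclic_centralizer : IsCyclic (Subgroup.centralizer ({g} : Set X)) := by
  haveI : Finite X := Finite.of_injective _ hinj
  haveI := isDomain_commutant φ hcard hinj hord hg
  haveI : Finite (AddMonoid.End (Additive P)) :=
    Finite.of_injective (fun f => (f : Additive P → Additive P)) DFunLike.coe_injective
  letI : CommRing (commutant φ g) := { (inferInstance : Ring (commutant φ g)) with
    mul_comm := (Finite.isDomain_to_isField (commutant φ g)).mul_comm }
  have hmem : ∀ a : Subgroup.centralizer ({g} : Set X), endHom φ a ∈ commutant φ g := fun a => by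
    rw [mem_commutant, Commute, SemiconjBy, ← map_mul, ← map_mul,
      Subgroup.mem_centralizer_singleton_iff.1 a.2]
  let ι : Subgroup.centralizer ({g} : Set X) →* commutant φ g :=
    { toFun := fun a => ⟨endHom φ a, hmem a⟩
      map_one' := Subtype.ext (map_one _)
      map_mul' := fun a b => Subtype.ext (map_mul _ (a : X) (b : X)) }
  exact isCyclic_of_injective_ringHom ι fun a b h =>
    Subtype.ext (endHom_injective φ hinj (congrArg Subtype.val h :))

/-- A primitive element has at most `d` conjugates commuting with it. -/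
theorem card_conj_le (s : Finset X) (hs : ∀ y ∈ s, ∃ x, x * g * x⁻¹ = y ∧ Commute y g) :
    s.card ≤ d := by
  classical
  haveI := isDomain_commutant φ hcard hinj hord hg
  haveI : Finite (AddMonoid.End (Additive P)) :=
    Finite.of_injective (fun f => (f : Additive P → Additive P)) DFunLike.coe_injective
  letI : CommRing (commutant φ g) := { (inferInstance : Ring (commutant φ g)) with
    mul_comm := (Finite.isDomain_to_isField (commutant φ g)).mul_comm }
  haveI := nontrivial_of_primitive φ hcard hinj hord hg
  obtain ⟨v, hv⟩ := exists_ne (1 : P)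
  -- two equal combinations of `v, g v, …, g^d v`
  let Φ : (Fin (d + 1) → Fin p) → P := fun c => ∏ k : Fin (d + 1), φ (g ^ (k : ℕ)) v ^ (c k : ℕ)
  obtain ⟨c, c', hcc, hne⟩ : ∃ c c', Φ c = Φ c' ∧ c ≠ c' := by
    by_contra h
    push Not at h
    have hle := Nat.card_le_card_of_injective Φ fun a b e => h a b e
    rw [hcard, Nat.card_fun, Nat.card_fin, Nat.card_fin] at hle
    exact absurd ((Nat.pow_le_pow_iff_right hp.out.one_lt).1 hle) (by omega)
  let z : Fin (d + 1) → ℤ := fun k => (c k : ℕ) - (c' k : ℕ)
  let E : X → AddMonoid.End (Additive P) := fun x => ∑ k : Fin (d + 1), z k • endHom φ x ^ (k : ℕ)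
  have hv0 : E g (Additive.ofMul v) = 0 := by
    have hE : E g (Additive.ofMul v) = Additive.ofMul (∏ k : Fin (d + 1), φ (g ^ (k : ℕ)) v ^ z k) := by
      rw [ofMul_prod]
      refine Eq.trans (map_sum (AddMonoidHom.eval (Additive.ofMul v)) _ _) ?_
      refine Finset.sum_congr rfl fun k _ => ?_
      rw [← map_pow]
      rfl
    rw [hE, ofMul_eq_zero]
    simp only [z, zpow_sub, zpow_natCast, Finset.prod_mul_distrib, Finset.prod_inv_distrib]
    exact mul_inv_eq_one.2 hcc
  have hEg : E g = 0 := by
    refine (eq_zero_or_injective φ hcard hinj hord hg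
      (Commute.sum_left _ _ _ fun k _ => by
        rw [zsmul_eq_mul]
        exact (Int.cast_commute _ _).mul_left ((Commute.refl _).pow_left _))).resolve_right
      fun h => hv ?_
    exact Additive.ofMul.injective (h (hv0.trans (map_zero (E g)).symm))
  have hmem : ∀ y ∈ s, endHom φ y ∈ commutant φ g := fun y hy => by
    obtain ⟨-, -, hc⟩ := hs y hy
    exact (mem_commutant φ).2 (hc.map (endHom φ))
  let f : Polynomial (commutant φ g) :=
    ∑ k : Fin (d + 1), Polynomial.monomial (k : ℕ) ((z k : ℤ) : commutant φ g)
  have hf0 : f ≠ 0 := by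
    obtain ⟨k, hk⟩ := Function.ne_iff.1 hne
    intro h0
    have h1 : (f.coeff k : commutant φ g) = (z k : ℤ) := by
      simp only [f, Polynomial.finsetSum_coeff, Polynomial.coeff_monomial]
      rw [Finset.sum_eq_single k (fun b _ hb => if_neg fun e => hb (Fin.ext e)) (by simp),
        if_pos rfl]
    rw [h0, Polynomial.coeff_zero] at h1
    obtain ⟨w, hw⟩ := exists_prime_orderOf_dvd_card' p (hcard ▸ dvd_pow_self p (by
      rintro rfl
      exact (Finite.one_lt_card (α := P)).ne' (by rw [hcard, pow_zero])))
    have h3 := DFunLike.congr_fun (congrArg Subtype.val h1.symm) (Additive.ofMul w)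
    rw [Subring.coe_intCast, AddMonoid.End.intCast_apply] at h3
    have h2 : w ^ z k = 1 := Additive.ofMul.injective h3
    rw [← orderOf_dvd_iff_zpow_eq_one, hw] at h2
    have hck := (c k).isLt
    have hck' := (c' k).isLt
    refine hk (Fin.ext ?_)
    have := Int.eq_zero_of_abs_lt_dvd h2 (abs_lt.2 ⟨by simp only [z]; omega, by simp only [z]; omega⟩)
    simp only [z] at this
    omega
  have hdeg : f.natDegree ≤ d := by
    refine Polynomial.natDegree_sum_le_of_forall_le _ _ fun k _ => ?_
    exact (Polynomial.natDegree_monomial_le _).trans (by omega)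
  let root : {y // y ∈ s} → commutant φ g := fun y => ⟨endHom φ y.1, hmem y.1 y.2⟩
  have hroot : Function.Injective root := fun a b h =>
    Subtype.ext (endHom_injective φ hinj (congrArg Subtype.val h :))
  have hr' : ∀ y : {y // y ∈ s}, f.IsRoot (root y) := by
    intro y
    obtain ⟨x, hx, -⟩ := hs y.1 y.2
    rw [Polynomial.IsRoot.def, Polynomial.eval_finsetSum]
    apply Subtype.ext
    simp only [Polynomial.eval_monomial, AddSubmonoidClass.coe_finsetSum, Subring.coe_mul,
      Subring.coe_intCast, SubmonoidClass.coe_pow, ZeroMemClass.coe_zero, root]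
    calc ∑ k : Fin (d + 1), (z k : AddMonoid.End (Additive P)) * endHom φ y.1 ^ (k : ℕ)
        = endHom φ x * E g * endHom φ x⁻¹ := by
          simp only [E, Finset.mul_sum, Finset.sum_mul]
          refine Finset.sum_congr rfl fun k _ => ?_
          rw [zsmul_eq_mul, ← mul_assoc, ← (Int.cast_commute (z k) (endHom φ x)).eq, mul_assoc,
            mul_assoc, ← map_pow, ← map_pow, ← map_mul, ← map_mul, ← mul_assoc, ← conj_pow, hx]
      _ = 0 := by rw [hEg, mul_zero, zero_mul]
  have h := Polynomial.card_le_degree_of_subset_roots (p := f)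
    (Z := Finset.univ.image root) (fun a ha => by
      obtain ⟨y, -, rfl⟩ := (Finset.mem_image (s := Finset.univ) (f := root) (b := a)).1 ha
      exact (Polynomial.mem_roots hf0).2 (hr' y))
  rw [Finset.card_image_of_injective _ hroot, Finset.card_univ, Fintype.card_coe] at h
  exact h.trans hdeg

end Primitive

include hcard in
/-- A group of exponent `p` and order `p ^ d` has at most as many automorphisms as `GL_d(p)`. -/
theorem card_dvd_GL (hexp : ∀ u : P, u ^ p = 1) [Finite X] (hinj : Function.Injective φ) :
    Nat.card X ∣ ∏ i : Fin d, (p ^ d - p ^ (i : ℕ)) := by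
  classical
  have hz : ∀ a : Additive P, p • a = 0 := fun a => by
    show Additive.ofMul (a.toMul ^ p) = 0
    rw [hexp, ofMul_one]
  letI : Module (ZMod p) (Additive P) := AddCommGroup.zmodModule (n := p) hz
  haveI : Finite (Additive P) := inferInstanceAs (Finite P)
  haveI : Module.Finite (ZMod p) (Additive P) := Module.Finite.of_finite
  have hfr : Module.finrank (ZMod p) (Additive P) = d := by
    have h := Module.natCard_eq_pow_finrank (K := ZMod p) (V := Additive P)
    rw [Nat.card_congr Additive.toMul, hcard, Nat.card_zmod] at h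
    exact (Nat.pow_right_injective hp.out.two_le h).symm
  let b := Module.finBasisOfFinrankEq (ZMod p) (Additive P) hfr
  let e : X →* Module.End (ZMod p) (Additive P) :=
    { toFun := fun x => AddMonoidHom.toZModLinearMap p (endHom φ x : Additive P →+ Additive P)
      map_one' := LinearMap.ext fun a => by
        show endHom φ 1 a = a
        rw [map_one]; rfl
      map_mul' := fun x y => LinearMap.ext fun a => by
        show endHom φ (x * y) a = endHom φ x (endHom φ y a)
        rw [map_mul]; rfl }
  let m : X →* GL (Fin d) (ZMod p) :=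
    MonoidHom.toHomUnits
      { toFun := fun x => LinearMap.toMatrixAlgEquiv b (e x)
        map_one' := (congrArg _ (map_one e)).trans (map_one _)
        map_mul' := fun x y => (congrArg _ (map_mul e x y)).trans (map_mul _ _ _) }
  have hm : Function.Injective m := by
    intro a c h
    have h1 : e a = e c := (LinearMap.toMatrixAlgEquiv b).injective (congrArg Units.val h :)
    exact hinj (MulEquiv.ext fun u => Additive.ofMul.injective
      (DFunLike.congr_fun h1 (Additive.ofMul u)))
  have h := Subgroup.card_dvd_of_injective m hm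
  rwa [Matrix.card_GL_field, ZMod.card] at h

end Cfsg.Agent.ThreeChar
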