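import Cfsg.Agent.ThreeChar.Arith
import Cfsg.Agent.ThreeChar.LinearAction
import Cfsg.Agent.Arith.Zsigmondy

/-!
# The inertial quotient of a block with three characters has order two
-/

set_option autoImplicit false
set_option linter.style.haveILetI false
set_option linter.unusedSectionVars false

namespace Cfsg.Agent.ThreeChar

universe u v

/-- An elementary abelian `2`-group of automorphisms of a group of order `3 ^ n` has order at most
`2 ^ n`. -/
theorem two_group_bound : ∀ (n : ℕ) (P : Type v) [CommGroup P] [Finite P], Nat.card P = 3 ^ n →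
    ∀ A : Subgroup (MulAut P), (∀ a ∈ A, a * a = 1) → Nat.card A ≤ 2 ^ n := by
  intro n
  induction n using Nat.strong_induction_on with
  | _ n ih =>
  intro P _ _ hP A hA
  classical
  have hodd : ∀ u : P, u * u = 1 → u = 1 := fun u hu => by
    have h1 : orderOf u ∣ 2 := orderOf_dvd_of_pow_eq_one (by rw [pow_two, hu])
    have h2 : orderOf u ∣ 3 ^ n := hP ▸ orderOf_dvd_natCard u
    exact orderOf_eq_one_iff.1
      (Nat.eq_one_of_dvd_coprimes (Nat.Coprime.pow_right n (by norm_num)) h1 h2)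
  by_cases hs : ∀ a ∈ A, (∀ u, a u = u) ∨ ∀ u, a u = u⁻¹
  · rcases Nat.eq_zero_or_pos n with rfl | hn
    · haveI : Subsingleton P := (Nat.card_eq_one_iff_unique.1 (by rw [hP, pow_zero])).1
      haveI : Subsingleton A := ⟨fun a b => Subtype.ext (MulEquiv.ext fun u => Subsingleton.elim _ _)⟩
      rw [pow_zero]
      exact Finite.card_le_one_iff_subsingleton.2 inferInstance
    · refine le_trans ?_ (Nat.pow_le_pow_right two_pos hn)
      let f : A → Bool := fun a => decide (∀ u, (a : MulAut P) u = u)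
      have hf : Function.Injective f := by
        intro a b hab
        refine Subtype.ext (MulEquiv.ext fun u => ?_)
        simp only [f, decide_eq_decide] at hab
        rcases hs a a.2 with h | h
        · rw [h u, hab.1 h u]
        · rcases hs b b.2 with h' | h'
          · rw [hab.2 h' u, h' u]
          · rw [h u, h' u]
      have := Nat.card_le_card_of_injective f hf
      simpa using this
  push Not at hs
  obtain ⟨a, ha, ⟨u₁, hu₁⟩, ⟨u₂, hu₂⟩⟩ := hs
  have haa : ∀ u, a (a u) = u := fun u => by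
    have := DFunLike.congr_fun (hA a ha) u
    simpa using this
  let Q₁ : Subgroup P :=
    { carrier := {u | a u = u}
      one_mem' := map_one _
      mul_mem' := fun {x y} (hx : a x = x) (hy : a y = y) => by
        show a (x * y) = x * y
        rw [map_mul, hx, hy]
      inv_mem' := fun {x} (hx : a x = x) => by
        show a x⁻¹ = x⁻¹
        rw [map_inv, hx] }
  let Q₂ : Subgroup P :=
    { carrier := {u | a u = u⁻¹}
      one_mem' := by show a 1 = 1⁻¹; rw [map_one, inv_one]
      mul_mem' := fun {x y} (hx : a x = x⁻¹) (hy : a y = y⁻¹) => by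
        show a (x * y) = (x * y)⁻¹
        rw [map_mul, hx, hy, mul_inv]
      inv_mem' := fun {x} (hx : a x = x⁻¹) => by
        show a x⁻¹ = x⁻¹⁻¹
        rw [map_inv, hx] }
  have hdis : ∀ u, u ∈ Q₁ → u ∈ Q₂ → u = 1 := fun u (h1 : a u = u) (h2 : a u = u⁻¹) =>
    hodd u (by
      calc u * u = u * u⁻¹ := by rw [← h2, h1]
        _ = 1 := mul_inv_cancel u)
  have hsqinj : Function.Injective (fun u : P => u * u) := fun x y h => by
    refine mul_inv_eq_one.1 (hodd _ ?_)
    rw [mul_mul_mul_comm, show x * x = y * y from h, ← mul_inv, mul_inv_cancel]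
  have hbij : Function.Bijective (fun q : Q₁ × Q₂ => (q.1 : P) * q.2) := by
    constructor
    · intro q q' h
      have h1 : (q.1 : P)⁻¹ * q'.1 = q.2 * (q'.2 : P)⁻¹ := by
        rw [inv_mul_eq_iff_eq_mul, ← mul_assoc, eq_mul_inv_iff_mul_eq]
        exact h.symm
      have h2 := hdis _ (Q₁.mul_mem (Q₁.inv_mem q.1.2) q'.1.2)
        (h1 ▸ Q₂.mul_mem q.2.2 (Q₂.inv_mem q'.2.2))
      have h3 := inv_mul_eq_one.1 h2
      exact Prod.ext (Subtype.ext h3) (Subtype.ext (mul_left_cancel (show (q.1 : P) * q.2 = q.1 * q'.2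
        by rw [show (q.1 : P) * q.2 = q'.1 * q'.2 from h, h3])))
    · intro u
      obtain ⟨v, hv⟩ := (Finite.injective_iff_surjective.1 hsqinj) u
      refine ⟨⟨⟨v * a v, ?_⟩, ⟨v * (a v)⁻¹, ?_⟩⟩, ?_⟩
      · show a (v * a v) = v * a v
        rw [map_mul, haa, mul_comm]
      · show a (v * (a v)⁻¹) = (v * (a v)⁻¹)⁻¹
        rw [map_mul, map_inv, haa, mul_inv_rev, inv_inv]
      · show v * a v * (v * (a v)⁻¹) = u
        rw [mul_mul_mul_comm, mul_inv_cancel, mul_one]
        exact hv
  have hmul : Nat.card Q₁ * Nat.card Q₂ = 3 ^ n := by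
    rw [← Nat.card_prod, ← hP]
    exact Nat.card_eq_of_bijective _ hbij
  obtain ⟨i, -, hi⟩ := (Nat.dvd_prime_pow Nat.prime_three).1 (hmul ▸ dvd_mul_right _ _)
  obtain ⟨j, -, hj⟩ := (Nat.dvd_prime_pow Nat.prime_three).1 (hmul ▸ dvd_mul_left _ _)
  have hij : i + j = n := Nat.pow_right_injective (le_refl 2 |>.trans (by norm_num : 2 ≤ 3))
    (show 3 ^ (i + j) = 3 ^ n by rw [pow_add, ← hi, ← hj, hmul])
  have hi0 : i ≠ 0 := by
    rintro rfl
    have hb := Subgroup.eq_bot_of_card_eq Q₁ (by rw [hi, pow_zero])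
    refine hu₂ ?_
    obtain ⟨⟨x, y⟩, hxy⟩ := hbij.2 u₂
    have hx : (x : P) = 1 := Subgroup.mem_bot.1 (hb ▸ x.2)
    simp only [hx, one_mul] at hxy
    rw [← hxy]
    exact y.2
  have hj0 : j ≠ 0 := by
    rintro rfl
    have hb := Subgroup.eq_bot_of_card_eq Q₂ (by rw [hj, pow_zero])
    refine hu₁ ?_
    obtain ⟨⟨x, y⟩, hxy⟩ := hbij.2 u₁
    have hy : (y : P) = 1 := Subgroup.mem_bot.1 (hb ▸ y.2)
    simp only [hy, mul_one] at hxy
    rw [← hxy]
    exact x.2
  -- restriction to the two parts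
  have hcomm : ∀ b ∈ A, ∀ u, a (b u) = b (a u) := fun b hb u => by
    have h := DFunLike.congr_fun (mul_comm_of_mem A hA ha hb) u
    simpa using h
  have hres : ∀ (Q : Subgroup P) (hQ : ∀ b ∈ A, ∀ u ∈ Q, b u ∈ Q) (b : A), ∃ c : MulAut Q,
      ∀ u : Q, (c u : P) = (b : MulAut P) u := fun Q hQ b =>
    ⟨{ toFun := fun u => ⟨(b : MulAut P) u, hQ b b.2 u u.2⟩
       invFun := fun u => ⟨(b : MulAut P)⁻¹ u, hQ _ (A.inv_mem b.2) u u.2⟩
       left_inv := fun u => Subtype.ext (by simp)
       right_inv := fun u => Subtype.ext (by simp)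
       map_mul' := fun u v => Subtype.ext (map_mul (b : MulAut P) _ _) }, fun _ => rfl⟩
  have hQ₁ : ∀ b ∈ A, ∀ u ∈ Q₁, b u ∈ Q₁ := fun b hb u (hu : a u = u) =>
    show a (b u) = b u by rw [hcomm b hb, hu]
  have hQ₂ : ∀ b ∈ A, ∀ u ∈ Q₂, b u ∈ Q₂ := fun b hb u (hu : a u = u⁻¹) =>
    show a (b u) = (b u)⁻¹ by rw [hcomm b hb, hu, map_inv]
  choose r₁ hr₁ using hres Q₁ hQ₁
  choose r₂ hr₂ using hres Q₂ hQ₂
  let R₁ : A →* MulAut Q₁ := MonoidHom.mk' r₁ fun b c => MulEquiv.ext fun u => Subtype.ext (by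
    simp only [MulAut.mul_apply, hr₁, Subgroup.coe_mul])
  let R₂ : A →* MulAut Q₂ := MonoidHom.mk' r₂ fun b c => MulEquiv.ext fun u => Subtype.ext (by
    simp only [MulAut.mul_apply, hr₂, Subgroup.coe_mul])
  have hRinj : Function.Injective (fun b => (R₁.rangeRestrict b, R₂.rangeRestrict b)) := by
    intro b c h
    refine Subtype.ext (MulEquiv.ext fun u => ?_)
    obtain ⟨⟨x, y⟩, rfl⟩ := hbij.2 u
    have h1 := DFunLike.congr_fun (congrArg Subtype.val (congrArg Prod.fst h) :) x
    have h2 := DFunLike.congr_fun (congrArg Subtype.val (congrArg Prod.snd h) :) y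
    have h1' := congrArg Subtype.val h1
    have h2' := congrArg Subtype.val h2
    simp only [MonoidHom.coe_rangeRestrict, R₁, R₂, MonoidHom.mk'_apply, hr₁, hr₂] at h1' h2'
    simp only [map_mul, h1', h2']
  have hle := Nat.card_le_card_of_injective _ hRinj
  rw [Nat.card_prod] at hle
  have h₁ := ih i (by omega) Q₁ hi R₁.range (by
    rintro _ ⟨b, rfl⟩
    rw [← map_mul, show b * b = 1 from Subtype.ext (hA b b.2), map_one])
  have h₂ := ih j (by omega) Q₂ hj R₂.range (by
    rintro _ ⟨b, rfl⟩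
    rw [← map_mul, show b * b = 1 from Subtype.ext (hA b b.2), map_one])
  calc Nat.card A ≤ _ := hle
    _ ≤ 2 ^ i * 2 ^ j := Nat.mul_le_mul h₁ h₂
    _ = 2 ^ n := by rw [← pow_add, hij]
where
  mul_comm_of_mem {G : Type v} [Group G] (A : Subgroup G) (hA : ∀ a ∈ A, a * a = 1) {a b : G}
      (ha : a ∈ A) (hb : b ∈ A) : a * b = b * a := by
    have h := fun x hx => inv_eq_of_mul_eq_one_right (hA x hx)
    rw [← h _ (A.mul_mem ha hb), mul_inv_rev, h a ha, h b hb]

variable {X : Type u} [Group X] [Finite X] {P : Type v} [CommGroup P] [Finite P]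
  (φ : X →* MulAut P) (hinj : Function.Injective φ)

include hinj in
/-- No group of order `320` acts faithfully on a group of order `81` with a self-centralising
element of order five. -/
theorem false_of_card (hcard : Nat.card P = 3 ^ 4) (hX : Nat.card X = 320) {g : X}
    (hg : orderOf g = 5) (hC : ∀ t, Commute t g → t ∈ Subgroup.zpowers g) : False := by
  classical
  haveI := Fact.mk Nat.prime_two
  haveI : Fact (Nat.Prime 5) := ⟨by norm_num⟩
  -- a normal `2`-subgroup
  let S : Sylow 2 X := default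
  have hS : Nat.card (S : Subgroup X) = 64 := by
    rw [S.card_eq_multiplicity, hX]
    have : (320 : ℕ).factorization 2 = 6 := by
      rw [show (320 : ℕ) = 2 ^ 6 * 5 by norm_num, Nat.factorization_mul (by norm_num) (by norm_num),
        Finsupp.add_apply, Nat.prime_two.factorization_pow, Finsupp.single_eq_same,
        Nat.factorization_eq_zero_of_not_dvd (show ¬ 2 ∣ 5 by norm_num)]
    rw [this]; norm_num
  have hidx : (S : Subgroup X).index = 5 := by
    have h := (S : Subgroup X).card_mul_index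
    rw [hS, hX] at h
    omega
  set O := (S : Subgroup X).normalCore with hO
  have hO2 : IsPGroup 2 O := S.2.to_le (Subgroup.normalCore_le _)
  have hO1 : O ≠ ⊥ := by
    intro h
    have hk := Subgroup.normalCore_eq_ker (S : Subgroup X)
    rw [← hO, h] at hk
    have h1 := Subgroup.card_dvd_of_injective _ ((MonoidHom.ker_eq_bot_iff _).1 hk.symm)
    rw [hX, Nat.card_perm, ← Subgroup.index_eq_card, hidx] at h1
    norm_num [Nat.factorial] at h1
  -- its elements of order two in the centre
  let Z : Subgroup X :=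
    { carrier := {z | z ∈ O ∧ (∀ o ∈ O, o * z = z * o) ∧ z * z = 1}
      one_mem' := ⟨O.one_mem, fun o _ => by simp, by simp⟩
      mul_mem' := fun {x y} hx hy => ⟨O.mul_mem hx.1 hy.1, fun o ho => by
        rw [← mul_assoc, hx.2.1 o ho, mul_assoc, hy.2.1 o ho, mul_assoc], by
        rw [mul_assoc, ← mul_assoc y, hx.2.1 y hy.1, mul_assoc, hy.2.2, mul_one, hx.2.2]⟩
      inv_mem' := fun {x} hx => by
        have : x⁻¹ = x := inv_eq_of_mul_eq_one_right hx.2.2
        rw [this]; exact hx }
  have hZn : ∀ z ∈ Z, ∀ x : X, x * z * x⁻¹ ∈ Z := by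
    intro z hz x
    have hOn : O.Normal := Subgroup.normalCore_normal _
    refine ⟨hOn.conj_mem _ hz.1 x, fun o ho => ?_, ?_⟩
    · have h := hz.2.1 _ (hOn.conj_mem' _ ho x)
      calc o * (x * z * x⁻¹) = x * (x⁻¹ * o * x * z) * x⁻¹ := by group
        _ = x * (z * (x⁻¹ * o * x)) * x⁻¹ := by rw [h]
        _ = x * z * x⁻¹ * o := by group
    · calc x * z * x⁻¹ * (x * z * x⁻¹) = x * (z * z) * x⁻¹ := by group
        _ = 1 := by rw [hz.2.2]; group
  have hZ1 : 2 ≤ Nat.card Z := by
    haveI : Nontrivial O := (Subgroup.nontrivial_iff_ne_bot O).2 hO1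
    haveI := hO2.center_nontrivial
    obtain ⟨k, hk0, hk⟩ := (hO2.to_subgroup (Subgroup.center O)).exists_card_eq.imp fun k hk =>
      (⟨fun h0 => by subst h0; exact (Finite.one_lt_card (α := Subgroup.center O)).ne' hk, hk⟩ :
        k ≠ 0 ∧ _)
    obtain ⟨w, hw⟩ := exists_prime_orderOf_dvd_card' 2 (hk ▸ dvd_pow_self 2 hk0)
    have hwZ : ((w : O) : X) ∈ Z := ⟨(w : O).2, fun o ho =>
      congrArg Subtype.val (Subgroup.mem_center_iff.1 w.2 ⟨o, ho⟩), by
        have h := pow_orderOf_eq_one w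
        rw [hw, pow_two] at h
        exact congrArg Subtype.val (congrArg Subtype.val h)⟩
    haveI : Nontrivial Z := ⟨⟨⟨_, hwZ⟩, 1, fun h => by
      have h1 : w = 1 := Subtype.ext (Subtype.ext (congrArg Subtype.val h :))
      rw [h1, orderOf_one] at hw
      omega⟩⟩
    exact Finite.one_lt_card
  have hZ16 : 16 ≤ Nat.card Z := by
    have hgz : ∀ z : Z, g * z * g⁻¹ ∈ Z := fun z => hZn _ z.2 g
    let σ : Equiv.Perm Z := Equiv.ofBijective (fun z => ⟨g * z * g⁻¹, hgz z⟩)
      (Finite.injective_iff_bijective.1 fun x y h => Subtype.ext (by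
        have h' : g * (x : X) * g⁻¹ = g * y * g⁻¹ := congrArg Subtype.val h
        simpa using h'))
    have hpow : ∀ (n : ℕ) (z : Z), ((σ ^ n) z : X) = g ^ n * z * (g ^ n)⁻¹ := by
      intro n
      induction n with
      | zero => intro z; simp
      | succ k ih =>
        intro z
        rw [pow_succ, Equiv.Perm.mul_apply, ih]
        show g ^ k * (g * z * g⁻¹) * (g ^ k)⁻¹ = _
        rw [pow_succ]; group
    have h := card_modEq_fixed (q := 5) (σ := σ) (Equiv.ext fun z => Subtype.ext (by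
      rw [hpow, ← hg, pow_orderOf_eq_one]; simp))
    have h1 : Nat.card {z : Z // σ z = z} = 1 := by
      rw [Nat.card_eq_one_iff_unique]
      refine ⟨⟨fun x y => ?_⟩, ⟨⟨1, Subtype.ext (show g * 1 * g⁻¹ = 1 by group)⟩⟩⟩
      have hone : ∀ z : {z : Z // σ z = z}, ((z : Z) : X) = 1 := by
        rintro ⟨z, hz⟩
        have h' : g * (z : X) * g⁻¹ = z := congrArg Subtype.val hz
        have hc : Commute (z : X) g := (mul_inv_eq_iff_eq_mul.1 h').symm
        have h5 : orderOf (z : X) ∣ 5 := hg ▸ orderOf_dvd_of_mem_zpowers (hC _ hc)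
        have h2 : orderOf (z : X) ∣ 2 := orderOf_dvd_of_pow_eq_one (by rw [pow_two, z.2.2.2])
        exact orderOf_eq_one_iff.1 (Nat.eq_one_of_dvd_coprimes (by norm_num) h2 h5)
      exact Subtype.ext (Subtype.ext ((hone x).trans (hone y).symm))
    rw [h1] at h
    obtain ⟨k, hk⟩ := (hO2.to_le (fun z (hz : z ∈ Z) => hz.1)).exists_card_eq
    rw [hk] at h hZ1 ⊢
    rcases k with _ | _ | _ | _ | k
    · norm_num at hZ1
    · norm_num [Nat.ModEq] at h
    · norm_num [Nat.ModEq] at h
    · norm_num [Nat.ModEq] at h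
    · calc (16 : ℕ) = 2 ^ 4 := rfl
        _ ≤ _ := Nat.pow_le_pow_right two_pos (by omega)
  -- adjoin the inversion
  let ι : MulAut P := MulEquiv.inv P
  set A := Z.map φ with hA
  have hcardA : Nat.card A = Nat.card Z := Subgroup.card_map_of_injective hinj
  have hι : ∀ a : MulAut P, ι * a = a * ι := fun a => MulEquiv.ext fun u => by
    show (a u)⁻¹ = a u⁻¹
    rw [map_inv]
  have hιι : ι * ι = 1 := MulEquiv.ext fun u => inv_inv u
  have hmem : ι ∈ A := by
    by_contra hn
    let A' : Subgroup (MulAut P) :=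
      { carrier := {b | b ∈ A ∨ b * ι ∈ A}
        one_mem' := Or.inl A.one_mem
        mul_mem' := by
          rintro x y (hx | hx) (hy | hy)
          · exact Or.inl (A.mul_mem hx hy)
          · exact Or.inr (by rw [mul_assoc]; exact A.mul_mem hx hy)
          · refine Or.inr ?_
            rw [mul_assoc, ← hι, ← mul_assoc]
            exact A.mul_mem hx hy
          · refine Or.inl ?_
            have e : x * y = x * ι * (y * ι) := by
              rw [mul_assoc, ← mul_assoc ι, hι y, mul_assoc y, hιι, mul_one]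
            rw [e]; exact A.mul_mem hx hy
        inv_mem' := by
          rintro x (hx | hx)
          · exact Or.inl (A.inv_mem hx)
          · refine Or.inr ?_
            rw [show x⁻¹ * ι = (x * ι)⁻¹ by
              rw [mul_inv_rev, inv_eq_of_mul_eq_one_right hιι, hι]]
            exact A.inv_mem hx }
    have hle : A ≤ A' := fun x hx => Or.inl hx
    have hlt : 2 * Nat.card A ≤ Nat.card A' := by
      have h2 : 2 ≤ A.relIndex A' := by
        by_contra h
        have h1 : A.relIndex A' = 1 := by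
          have h0 : A.relIndex A' ≠ 0 := Subgroup.index_ne_zero_of_finite
          omega
        exact hn (Subgroup.relIndex_eq_one.1 h1 (Or.inr (hιι ▸ A.one_mem)))
      rw [← Subgroup.relIndex_mul_relIndex _ _ _ bot_le hle |>.trans (Subgroup.relIndex_bot_left A'),
        Subgroup.relIndex_bot_left]
      rw [mul_comm (Nat.card A)]
      exact Nat.mul_le_mul_right _ h2
    have hb := two_group_bound 4 P hcard A' (by
      rintro b (hb | hb)
      · obtain ⟨z, hz, rfl⟩ := hb
        rw [← map_mul, hz.2.2, map_one]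
      · obtain ⟨z, hz, hzb⟩ := hb
        have e : b * b = (b * ι) * (b * ι) := by
          rw [mul_assoc b ι, ← mul_assoc ι, hι b, mul_assoc b ι ι, hιι, mul_one]
        rw [e, ← hzb, ← map_mul, hz.2.2, map_one])
    rw [hcardA] at hlt
    omega
  obtain ⟨z, hz, hzι⟩ := hmem
  have hzg : Commute z g := hinj (by rw [map_mul, map_mul, hzι, hι])
  have h5 : orderOf z ∣ 5 := hg ▸ orderOf_dvd_of_mem_zpowers (hC _ hzg)
  have h2 : orderOf z ∣ 2 := orderOf_dvd_of_pow_eq_one (by rw [pow_two, hz.2.2])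
  have hz1 := orderOf_eq_one_iff.1 (Nat.eq_one_of_dvd_coprimes (by norm_num) h2 h5)
  rw [hz1, map_one] at hzι
  haveI : Nontrivial P := Finite.one_lt_card_iff_nontrivial.1 (by rw [hcard]; norm_num)
  obtain ⟨u, hu⟩ := exists_ne (1 : P)
  refine hu (orderOf_eq_one_iff.1 (Nat.eq_one_of_dvd_coprimes (a := 2) (b := 3 ^ 4) (by norm_num)
    (orderOf_dvd_of_pow_eq_one ?_) (hcard ▸ orderOf_dvd_natCard u)))
  have h := DFunLike.congr_fun hzι u
  rw [pow_two]
  exact mul_eq_one_iff_eq_inv.2 h

variable {p : ℕ} [hp : Fact p.Prime] {d : ℕ} (hcard : Nat.card P = p ^ d)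
  (hexp : ∀ u : P, u ^ p = 1) (hpX : ¬ p ∣ Nat.card X)
  (hsemi : Nat.card X = p ^ d - 1 → ∀ x u, φ x u = u → u ≠ 1 → x = 1)
  (huniq : ∀ y z : X, Good y → y ≠ 1 → Good z → z ≠ 1 → IsConj y z)

include huniq in
theorem card_le_two_of_isCyclic (h : IsCyclic X) : Nat.card X ≤ 2 := by
  obtain ⟨k, hk⟩ := h.exists_generator
  have hgood : ∀ y : X, Good y := fun y => good_of_forall fun t _ => ⟨k, hk t, hk y⟩
  letI : CommGroup X := IsCyclic.commGroup
  classical
  by_contra hlt
  haveI := Fintype.ofFinite X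
  rw [Nat.card_eq_fintype_card] at hlt
  obtain ⟨y, -, z, -, hy, hz, hyz⟩ : ∃ y ∈ (Finset.univ : Finset X), ∃ z ∈ (Finset.univ : Finset X),
      y ≠ 1 ∧ z ≠ 1 ∧ y ≠ z := by
    have h1 : 1 < (Finset.univ.erase (1 : X)).card := by
      rw [Finset.card_erase_of_mem (Finset.mem_univ _), Finset.card_univ]; omega
    obtain ⟨y, hy, z, hz, hne⟩ := Finset.one_lt_card.1 h1
    exact ⟨y, Finset.mem_univ _, z, Finset.mem_univ _, (Finset.mem_erase.1 hy).1,
      (Finset.mem_erase.1 hz).1, hne⟩
  exact hyz (isConj_iff_eq.1 (huniq y z (hgood y) hy (hgood z) hz))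

include hinj hcard hexp hpX hsemi huniq in
/-- The main group-theoretic step. -/
theorem card_eq_three {a b n : ℕ} (hd : 0 < d) (hab : Nat.Coprime a b) (ha : 0 < a) (hb : 0 < b)
    (hX : Nat.card X = n ^ 2 * (a ^ 2 + b ^ 2)) (hsq : IsSquare ((p ^ d - 1) * (a ^ 2 + b ^ 2)))
    (horb : p ^ d - 1 ∣ Nat.card X)
    (hdvd : ∀ y : X, Good y → y ≠ 1 → a ^ 2 + b ^ 2 ∣ Nat.card (Subgroup.centralizer ({y} : Set X))) :
    Nat.card P = 3 := by
  classical
  have hS2 : 2 ≤ a ^ 2 + b ^ 2 := by
    have := Nat.pow_pos (n := 2) ha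
    have := Nat.pow_pos (n := 2) hb
    omega
  have hX0 : 0 < Nat.card X := Nat.card_pos
  have hX2 : 2 ≤ Nat.card X :=
    hS2.trans (Nat.le_of_dvd hX0 (hX ▸ dvd_mul_left _ _))
  rcases (show d = 1 ∨ 2 ≤ d by omega) with rfl | hd2
  · rw [pow_one] at hcard horb
    haveI : IsCyclic P := isCyclic_of_prime_card hcard
    haveI : Fact (Nat.Prime (Nat.card P)) := ⟨hcard ▸ hp.out⟩
    haveI : IsCyclic (MulAut P) :=
      isCyclic_of_surjective (IsCyclic.mulAutMulEquiv P).symm.toMonoidHom (MulEquiv.surjective _)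
    have hle := card_le_two_of_isCyclic huniq (isCyclic_of_injective φ hinj)
    rw [hcard]
    have h1 := Nat.le_of_dvd hX0 horb
    have h2 := Subgroup.card_dvd_of_injective φ hinj
    rw [Nat.card_congr (IsCyclic.mulAutMulEquiv P).toEquiv, Nat.card_units, Nat.card_zmod,
      hcard] at h2
    have := hp.out.two_le
    rcases (show p = 2 ∨ p = 3 by omega) with rfl | rfl
    · have := Nat.le_of_dvd (by norm_num) h2
      omega
    · rfl
  rcases eq_or_ne p 2 with rfl | hp2
  · exfalso
    refine not_isSquare_mul_sum_sq (k := 0) (o := 2 ^ d - 1) hab ?_ (by omega) (by simpa using hsq)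
    obtain ⟨e, rfl⟩ : ∃ e, d = e + 2 := ⟨d - 2, by omega⟩
    have : 2 ^ (e + 2) = 4 * 2 ^ e := by ring
    have := Nat.one_le_two_pow (n := e)
    omega
  by_cases h2 : d = 2 ∧ ∃ m, p + 1 = 2 ^ m
  · obtain ⟨rfl, m, hm⟩ := h2
    have hp3 : 3 ≤ p := by have := hp.out.two_le; omega
    obtain ⟨m', rfl⟩ : ∃ m', m = m' + 2 := by
      refine ⟨m - 2, ?_⟩
      rcases m with _ | _ | m <;> simp_all <;> omega
    rcases Nat.eq_zero_or_pos m' with rfl | hm'
    swap
    · exfalso
      obtain ⟨e, rfl⟩ : ∃ e, m' = e + 1 := ⟨m' - 1, by omega⟩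
      have he : 2 ^ (e + 3) = 8 * 2 ^ e := by ring
      rw [show e + 1 + 2 = e + 3 by omega] at hm
      have := Nat.one_le_two_pow (n := e)
      have hp' : p = 8 * 2 ^ e - 1 := by rw [← he]; omega
      refine not_isSquare_mul_sum_sq (k := e + 4) (o := 4 * 2 ^ e - 1) hab ?_ (by omega) ?_
      · omega
      · convert hsq using 2
        rw [pow_add, hp', show (2 : ℕ) ^ 4 = 16 by norm_num]
        obtain ⟨q, hq⟩ : ∃ q, 2 ^ e = q + 1 := ⟨2 ^ e - 1, by omega⟩
        rw [hq, show 8 * (q + 1) - 1 = 8 * q + 7 by omega,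
          show 4 * (q + 1) - 1 = 4 * q + 3 by omega]
        have : (8 * q + 7) ^ 2 = (q + 1) * 16 * (4 * q + 3) + 1 := by ring
        omega
    obtain rfl : p = 3 := by omega
    exfalso
    have hG : Nat.card X ∣ 48 := by
      have h := card_dvd_GL φ hcard hexp hinj
      simpa [Fin.prod_univ_two] using h
    have h8 : 8 ∣ Nat.card X := by simpa using horb
    have hX8 : Nat.card X = 8 := by
      have hle := Nat.le_of_dvd (by norm_num) hG
      have hge := Nat.le_of_dvd hX0 h8
      interval_cases hh : Nat.card X <;> first | rfl | omega | norm_num at hG | (exfalso; norm_num at hpX) | skip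
      -- sixteen
      obtain ⟨c, hc⟩ := hsq
      norm_num at hc
      have h128 : n * c * (n * c) = 128 := by
        calc n * c * (n * c) = n ^ 2 * (c * c) := by ring
          _ = 8 * (n ^ 2 * (a ^ 2 + b ^ 2)) := by rw [← hc]; ring
          _ = 128 := by omega
      have : n * c ≤ 11 := by nlinarith
      obtain ⟨m, hm'⟩ : ∃ m, n * c = m := ⟨_, rfl⟩
      rw [hm'] at h128 this
      interval_cases m <;> omega
    have hsr := hsemi (by rw [hX8]; norm_num)
    haveI := Fact.mk Nat.prime_two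
    obtain ⟨z, hz⟩ := exists_prime_orderOf_dvd_card' 2 (hX8 ▸ (by norm_num : 2 ∣ 8))
    have hz1 : z ≠ 1 := fun h => by rw [h, orderOf_one] at hz; omega
    have hzz : z * z = 1 := by rw [← pow_two, ← hz, pow_orderOf_eq_one]
    have hinv : ∀ w : X, w * w = 1 → w ≠ 1 → w = z := by
      have hmi : ∀ w : X, w * w = 1 → w ≠ 1 → ∀ u, φ w u = u⁻¹ := by
        intro w hw hw1 u
        refine mul_eq_one_iff_eq_inv.1 (by_contra fun hne => hw1 (hsr w _ ?_ hne))
        rw [map_mul, show φ w (φ w u) = φ (w * w) u by rw [map_mul]; rfl, hw, map_one, mul_comm]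
        rfl
      intro w hw hw1
      exact hinj (MulEquiv.ext fun u => by rw [hmi w hw hw1, hmi z hzz hz1])
    have hzc : ∀ t, Commute t z := fun t => by
      have h1 : t * z * t⁻¹ = z := hinv _
        (by calc t * z * t⁻¹ * (t * z * t⁻¹) = t * (z * z) * t⁻¹ := by group
              _ = 1 := by rw [hzz]; group)
        (fun h => hz1 (conj_eq_one_iff.1 h))
      exact mul_inv_eq_iff_eq_mul.1 h1
    have hpow8 : ∀ t : X, orderOf t ∣ 2 ^ 3 := fun t => by
      rw [show (2 : ℕ) ^ 3 = Nat.card X by rw [hX8]; norm_num]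
      exact orderOf_dvd_natCard t
    have hgz : Good z := good_of_forall fun t _ => by
      rcases eq_or_ne t 1 with rfl | ht1
      · exact ⟨z, one_mem _, Subgroup.mem_zpowers z⟩
      · obtain ⟨i, hi, hti⟩ := (Nat.dvd_prime_pow Nat.prime_two).1 (hpow8 t)
        rcases i with _ | i
        · exact absurd (orderOf_eq_one_iff.1 (by rw [hti, pow_zero])) ht1
        refine ⟨t, Subgroup.mem_zpowers t, ?_⟩
        rw [← hinv (t ^ 2 ^ i) (by
            rw [← pow_add, ← two_mul, ← pow_succ', ← hti, pow_orderOf_eq_one])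
          (fun h => by
            have h' := orderOf_dvd_of_pow_eq_one h
            rw [hti, Nat.pow_dvd_pow_iff_le_right (by norm_num)] at h'
            omega)]
        exact Subgroup.pow_mem _ (Subgroup.mem_zpowers t) _
    obtain ⟨y, hy⟩ : ∃ y : X, y * y ≠ 1 := by
      by_contra h
      push Not at h
      have h3 : Nat.card X ≤ 2 := by
        let f : Bool → X := fun t => if t then z else 1
        refine le_trans (Nat.card_le_card_of_surjective f fun w => ?_) (by simp)
        rcases eq_or_ne w 1 with rfl | hw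
        · exact ⟨false, rfl⟩
        · exact ⟨true, (hinv w (h w) hw).symm⟩
      omega
    have hy1 : y ≠ 1 := fun h => hy (by rw [h, mul_one])
    have hgy : Good y := good_of_forall fun t ht => by
      by_cases h8 : ∃ k : X, orderOf k = 8
      · obtain ⟨k, hk⟩ := h8
        have htop : Subgroup.zpowers k = ⊤ :=
          Subgroup.eq_top_of_card_eq _ (by rw [Nat.card_zpowers, hk, hX8])
        exact ⟨k, htop ▸ Subgroup.mem_top _, htop ▸ Subgroup.mem_top _⟩
      push Not at h8
      refine ⟨y, ?_, Subgroup.mem_zpowers y⟩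
      have h4 : ∀ w : X, w * w ≠ 1 → w * w = z := by
        intro w hw
        refine hinv _ ?_ hw
        obtain ⟨i, hi, hwi⟩ := (Nat.dvd_prime_pow Nat.prime_two).1 (hpow8 w)
        have h4' : orderOf w ∣ 4 := by
          rcases i with _ | _ | _ | _ | i
          · rw [hwi]; norm_num
          · rw [hwi]; norm_num
          · rw [hwi]; norm_num
          · exact absurd hwi (by rw [show (2 : ℕ) ^ 3 = 8 by norm_num]; exact h8 w)
          · omega
        rw [show w * w * (w * w) = w ^ 4 by rw [← pow_two w, ← pow_add]]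
        exact orderOf_dvd_iff_pow_eq_one.1 h4'
      have hzy : z ∈ Subgroup.zpowers y := h4 y hy ▸ mul_mem (Subgroup.mem_zpowers y) (Subgroup.mem_zpowers y)
      by_cases htt : t * t = 1
      · rcases eq_or_ne t 1 with rfl | ht1
        · exact one_mem _
        · rw [hinv t htt ht1]; exact hzy
      · have h1 : t * y⁻¹ * (t * y⁻¹) = 1 := by
          rw [(ht.inv_right.symm).mul_mul_mul_comm, ← mul_inv_rev, h4 t htt, h4 y hy, mul_inv_cancel]
        rw [show t = t * y⁻¹ * y by group]
        refine mul_mem ?_ (Subgroup.mem_zpowers y)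
        rcases eq_or_ne (t * y⁻¹) 1 with h | h
        · rw [h]; exact one_mem _
        · rw [hinv _ h1 h]; exact hzy
    obtain ⟨c, hc⟩ := isConj_iff.1 (huniq z y hgz hz1 hgy hy1)
    rw [← hc, (hzc c).eq, mul_inv_cancel_right] at hy
    exact hy hzz
  obtain ⟨r, hr, hord⟩ := Arith.exists_prime_orderOf_eq hp.out.one_lt hd2
    (fun h => hp2 h.1) h2
  haveI := Fact.mk hr
  have hrX : r ∣ Nat.card X := by
    refine dvd_trans ?_ horb
    rw [← ZMod.natCast_eq_zero_iff, Nat.cast_sub (Nat.one_le_pow _ _ hp.out.pos), Nat.cast_pow,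
      ← hord, pow_orderOf_eq_one, Nat.cast_one, sub_self]
  obtain ⟨g, hg⟩ := exists_prime_orderOf_dvd_card' r hrX
  have hg1 : g ≠ 1 := fun h => hr.ne_one (by rw [← hg, h, orderOf_one])
  haveI := isCyclic_centralizer φ hcard hinj hord hg
  obtain ⟨⟨k, hkC⟩, hk⟩ := IsCyclic.exists_generator (α := Subgroup.centralizer ({g} : Set X))
  have hC : ∀ t, Commute t g → t ∈ Subgroup.zpowers k := by
    intro t ht
    obtain ⟨i, hi⟩ := hk ⟨t, Subgroup.mem_centralizer_singleton_iff.2 ht⟩
    exact ⟨i, by simpa using congrArg Subtype.val hi⟩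
  have hgk : g ∈ Subgroup.zpowers k := hC g (Commute.refl g)
  have hgoodk : Good k := good_of_forall fun t ht => by
    obtain ⟨i, hi⟩ := hgk
    exact ⟨k, hC t (by rw [← hi]; exact ht.zpow_right i), Subgroup.mem_zpowers k⟩
  have hgoodg : Good g := good_of_forall fun t ht => ⟨k, hC t ht, hgk⟩
  have hk1 : k ≠ 1 := fun h => hg1 (by
    rw [h, Subgroup.zpowers_one_eq_bot] at hgk
    exact hgk)
  have hord_k : orderOf k = r := by
    obtain ⟨c, hc⟩ := isConj_iff.1 (huniq g k hgoodg hg1 hgoodk hk1)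
    rw [← hc, ← hg]
    exact MulEquiv.orderOf_eq (MulAut.conj c) g
  have hzg : Subgroup.zpowers g = Subgroup.zpowers k := by
    refine Subgroup.eq_of_le_of_card_ge (Subgroup.zpowers_le.2 hgk) ?_
    rw [Nat.card_zpowers, Nat.card_zpowers, hord_k, hg]
  have hC' : ∀ t, Commute t g → t ∈ Subgroup.zpowers g := fun t ht => hzg ▸ hC t ht
  have hcardC : Nat.card (Subgroup.centralizer ({g} : Set X)) = r := by
    rw [show Subgroup.centralizer ({g} : Set X) = Subgroup.zpowers g from le_antisymm
      (fun t ht => hC' t (Subgroup.mem_centralizer_singleton_iff.1 ht))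
      (Subgroup.zpowers_le.2 (Subgroup.mem_centralizer_singleton_iff.2 rfl)), Nat.card_zpowers, hg]
  -- all nontrivial powers of `g` are conjugate to it
  have hconj : ∀ j, j ∈ Finset.Ico 1 r → ∃ x, x * g * x⁻¹ = g ^ j ∧ Commute (g ^ j) g := by
    intro j hj
    rw [Finset.mem_Ico] at hj
    have hne : g ^ j ≠ 1 := pow_ne_one_of_lt_orderOf (by omega) (by omega)
    have hzj : Subgroup.zpowers (g ^ j) = Subgroup.zpowers g := by
      refine Subgroup.eq_of_le_of_card_ge (Subgroup.zpowers_le.2 (pow_mem (Subgroup.mem_zpowers g) j)) ?_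
      rw [Nat.card_zpowers, Nat.card_zpowers, hg]
      have hd' : orderOf (g ^ j) ∣ r := hg ▸ orderOf_pow_dvd j
      exact (((Nat.dvd_prime hr).1 hd').resolve_left fun h => hne (orderOf_eq_one_iff.1 h)).ge
    obtain ⟨i, hi⟩ := hzj.symm ▸ Subgroup.mem_zpowers g
    have hgood : Good (g ^ j) := good_of_forall fun t ht =>
      ⟨g, hC' t (by rw [← hi]; exact ht.zpow_right i), pow_mem (Subgroup.mem_zpowers g) j⟩
    obtain ⟨x, hx⟩ := isConj_iff.1 (huniq g (g ^ j) hgoodg hg1 hgood hne)
    exact ⟨x, hx, (Commute.refl g).pow_left j⟩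
  have hinjOn : Set.InjOn (fun j => g ^ j) ↑(Finset.Ico 1 r) := fun i hi j hj h =>
    pow_injOn_Iio_orderOf (by rw [Set.mem_Iio, hg]; exact (Finset.mem_Ico.1 hi).2)
      (by rw [Set.mem_Iio, hg]; exact (Finset.mem_Ico.1 hj).2) h
  have hrd : r - 1 ≤ d := by
    have h := card_conj_le φ hcard hinj hord hg ((Finset.Ico 1 r).image fun j => g ^ j) fun y hy => by
      obtain ⟨j, hj, rfl⟩ := Finset.mem_image.1 hy
      exact hconj j hj
    rwa [Finset.card_image_of_injOn hinjOn, Nat.card_Ico] at h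
  have hdr : d ∣ r - 1 := by
    rw [← hord]
    refine ZMod.orderOf_dvd_card_sub_one fun h0 => ?_
    rw [h0, orderOf_eq_zero_iff'.2 fun m hm => by rw [zero_pow hm.ne']; exact zero_ne_one] at hord
    omega
  have hrd' : r = d + 1 := by
    have := Nat.le_of_dvd (by have := hr.two_le; omega) hdr
    have := hr.two_le
    omega
  have hS : a ^ 2 + b ^ 2 = r :=
    ((Nat.dvd_prime hr).1 (hcardC ▸ hdvd g hgoodg hg1)).resolve_left (by omega)
  have hr2 : r ≠ 2 := by omega
  have hr4 : r % 4 = 1 := mod_four_of_dvd_sum_sq hab r (hS ▸ dvd_rfl) (hr.odd_of_ne_two hr2)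
  subst hrd'
  obtain ⟨rfl, rfl⟩ := exceptional hp.out hp2 hr hr4 hord (hS ▸ hsq)
  exfalso
  rw [hS] at hX
  have h80 : 80 ∣ Nat.card X := by simpa using horb
  have hG : Nat.card X ∣ 24261120 := by
    have h := card_dvd_GL φ hcard hexp hinj
    simpa [Fin.prod_univ_four] using h
  have hn16 : n ∣ 16 := by
    have hcop : Nat.Coprime (Nat.card X) 729 := by
      rw [show (729 : ℕ) = 3 ^ 6 by norm_num]
      exact (Nat.prime_three.coprime_iff_not_dvd.2 hpX).symm.pow_right 6
    have h1 : Nat.card X ∣ 33280 := hcop.dvd_of_dvd_mul_right (by simpa using hG)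
    have h2 : n ^ 2 ∣ 6656 := by
      have : n ^ 2 * 5 ∣ 6656 * 5 := by rw [← hX]; simpa using h1
      exact Nat.dvd_of_mul_dvd_mul_right (by norm_num) this
    have hn : n ∣ 2 ^ 9 * 13 := (dvd_pow_self n two_ne_zero).trans (by simpa using h2)
    have h13 : Nat.Coprime n 13 :=
      ((by norm_num : Nat.Prime 13).coprime_iff_not_dvd.2 fun h => by
        have := (pow_dvd_pow_of_dvd h 2).trans h2
        norm_num at this).symm
    obtain ⟨i, -, rfl⟩ := (Nat.dvd_prime_pow Nat.prime_two).1 (h13.dvd_of_dvd_mul_right hn)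
    rw [← pow_mul] at h2
    have h3 : 2 ^ (i * 2) ∣ 2 ^ 9 :=
      (Nat.Coprime.pow_left (i * 2) (by norm_num : Nat.Coprime 2 13)).dvd_of_dvd_mul_right
        (by simpa using h2)
    have := (Nat.pow_dvd_pow_iff_le_right (by norm_num)).1 h3
    rw [show 16 = 2 ^ 4 by norm_num]
    exact pow_dvd_pow 2 (by omega)
  -- the normaliser of `⟨g⟩` has order twenty
  set N := Subgroup.normalizer ((Subgroup.zpowers g : Subgroup X) : Set X) with hN
  have hNcard : Nat.card N = 20 := by
    let f := Subgroup.normalizerMonoidHom (Subgroup.zpowers g)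
    have hsurj : Function.Surjective f := by
      intro α
      obtain ⟨i, hi⟩ := Subgroup.mem_zpowers_iff.1 (α ⟨g, Subgroup.mem_zpowers g⟩).2
      have hne : ((α ⟨g, Subgroup.mem_zpowers g⟩ : Subgroup.zpowers g) : X) ≠ 1 := fun h => hg1
        (congrArg Subtype.val (α.injective (show α ⟨g, Subgroup.mem_zpowers g⟩ = α 1 by
          rw [map_one]; exact Subtype.ext h)) :)
      obtain ⟨j, hj, hji⟩ : ∃ j, j < 5 ∧ g ^ j = ((α ⟨g, Subgroup.mem_zpowers g⟩ :
          Subgroup.zpowers g) : X) := by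
        refine ⟨(i % 5).toNat, by omega, ?_⟩
        rw [← hi, ← zpow_natCast, Int.toNat_of_nonneg (Int.emod_nonneg _ (by norm_num)),
          show (5 : ℤ) = ((orderOf g : ℕ) : ℤ) by rw [hg]; norm_num, zpow_mod_orderOf]
      have hj0 : j ≠ 0 := fun h => hne (by rw [← hji, h, pow_zero])
      obtain ⟨x, hx, -⟩ := hconj j (Finset.mem_Ico.2 ⟨by omega, by omega⟩)
      have hxN : x ∈ N := by
        have hmap : (Subgroup.zpowers g).map (MulAut.conj x).toMonoidHom = Subgroup.zpowers g := by
          rw [MonoidHom.map_zpowers]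
          refine Subgroup.eq_of_le_of_card_ge (Subgroup.zpowers_le.2 ?_) ?_
          · show x * g * x⁻¹ ∈ _
            rw [hx]; exact pow_mem (Subgroup.mem_zpowers g) j
          · rw [Nat.card_zpowers, Nat.card_zpowers]
            exact (MulEquiv.orderOf_eq (MulAut.conj x) g).ge
        rw [hN, Subgroup.mem_normalizer_iff]
        intro w
        conv_rhs => rw [← hmap]
        exact (Subgroup.mem_map_iff_mem (MulAut.conj x).injective).symm
      refine ⟨⟨x, hxN⟩, MulEquiv.ext fun w => ?_⟩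
      obtain ⟨w, i', rfl⟩ := w
      have e : (⟨g ^ i', i', rfl⟩ : Subgroup.zpowers g) = ⟨g, Subgroup.mem_zpowers g⟩ ^ i' := rfl
      rw [e, map_zpow, map_zpow]
      congr 1
      exact Subtype.ext (hx.trans hji)
    have h := Subgroup.card_eq_card_quotient_mul_card_subgroup f.ker
    rw [Nat.card_congr (QuotientGroup.quotientKerEquivOfSurjective f hsurj).toEquiv] at h
    haveI : Fact (Nat.Prime (Nat.card (Subgroup.zpowers g))) := ⟨by rw [Nat.card_zpowers, hg]; norm_num⟩
    rw [Nat.card_congr (IsCyclic.mulAutMulEquiv (Subgroup.zpowers g)).toEquiv, Nat.card_units,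
      Nat.card_zmod, Nat.card_zpowers, hg] at h
    have hker : Nat.card f.ker = 5 := by
      rw [Subgroup.normalizerMonoidHom_ker,
        Nat.card_congr (Subgroup.subgroupOfEquivOfLe (Subgroup.centralizer_le_normalizer _)).toEquiv,
        show Subgroup.centralizer ((Subgroup.zpowers g : Subgroup X) : Set X) =
          Subgroup.centralizer ({g} : Set X) by
            rw [Subgroup.zpowers_eq_closure, Subgroup.centralizer_closure], hcardC]
    rw [hker] at h
    exact h
  -- Sylow
  haveI : Fact (Nat.Prime 5) := ⟨by norm_num⟩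
  have hdvd16 : n ^ 2 ∣ 256 := (pow_dvd_pow_of_dvd hn16 2).trans (by norm_num)
  have hv5 : (Nat.card X).factorization 5 = 1 := by
    rw [hX, Nat.factorization_mul (by intro h; rw [h, zero_mul] at hX; omega) (by norm_num),
      Finsupp.add_apply, Nat.factorization_eq_zero_of_not_dvd (fun h => by
        have := h.trans hdvd16; norm_num at this), Nat.Prime.factorization_self (by norm_num)]
  let S : Sylow 5 X := Sylow.ofCard (Subgroup.zpowers g) (by rw [Nat.card_zpowers, hg, hv5]; norm_num)
  have hn5 := card_sylow_modEq_one 5 X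
  rw [S.card_eq_index_normalizer] at hn5
  have hidx := N.card_mul_index
  rw [hNcard, hX] at hidx
  have hn320 : Nat.card X = 320 := by
    have hn' : n ∈ Nat.divisors 16 := Nat.mem_divisors.2 ⟨hn16, by norm_num⟩
    rw [show Nat.divisors 16 = {1, 2, 4, 8, 16} by decide] at hn'
    simp only [Finset.mem_insert, Finset.mem_singleton] at hn'
    have hn5' : N.index % 5 = 1 := hn5
    rcases hn' with rfl | rfl | rfl | rfl | rfl <;> rw [hX] at h80 <;>
      (try norm_num at h80) <;> (try norm_num at hidx) <;> omega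
  exact false_of_card φ hinj hcard hn320 hg hC'

end Cfsg.Agent.ThreeChar
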