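import Cfsg.Agent.ThreeChar.LinearAction
import Cfsg.Agent.GlauberCorr.HomMult
import Cfsg.Agent.S0886

/-!
# Good classes above an invariant character

`θ` is an invariant irreducible character of the normal subgroup `C`.  A good class of `H ⧸ C`
carries a class function of `H` in the span of the characters over `θ`.
-/

set_option autoImplicit false
set_option linter.style.haveILetI false
set_option linter.unusedSectionVars false

noncomputable section

namespace Cfsg.Agent.ThreeChar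

open Cfsg Cfsg.Agent.Char
open scoped ComplexConjugate Classical

universe u

variable {H : Type u} [Group H] [Fintype H] (C : Subgroup H) [C.Normal] [Fintype C]
  (θ : IrrCharacter C)

/-- A sum over a coset. -/
theorem sum_coset (y : H) {F : H → ℂ} (hF : ∀ g : H, (g : H ⧸ C) ≠ (y : H ⧸ C) → F g = 0) :
    ∑ g : H, F g = ∑ c : C, F ((c : H) * y) := by
  rw [← Finset.sum_filter_add_sum_filter_not Finset.univ (fun g : H => (g : H ⧸ C) = (y : H ⧸ C)),
    Finset.sum_eq_zero (s := Finset.univ.filter fun g : H => ¬ (g : H ⧸ C) = (y : H ⧸ C))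
      (fun g hg => hF g (Finset.mem_filter.1 hg).2), add_zero]
  refine (Finset.sum_bij (fun (c : C) _ => (c : H) * y) ?_ ?_ ?_ ?_).symm
  · intro c _
    refine Finset.mem_filter.2 ⟨Finset.mem_univ _, ?_⟩
    rw [QuotientGroup.mk_mul, (QuotientGroup.eq_one_iff _).2 c.2, one_mul]
  · intro a _ b _ h
    exact Subtype.ext (mul_right_cancel h)
  · intro g hg
    have h := (Finset.mem_filter.1 hg).2
    refine ⟨⟨g * y⁻¹, ?_⟩, Finset.mem_univ _, by simp⟩
    rw [← QuotientGroup.eq_one_iff, QuotientGroup.mk_mul, QuotientGroup.mk_inv, h, mul_inv_cancel]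
  · intros; rfl

/-- The data attached to a good class. -/
structure ExtData (y : H) (e : H → ℂ) : Prop where
  supp : ∀ g : H, (g : H ⧸ C) ≠ (y : H ⧸ C) → e g = 0
  inv : ∀ h g : H, Commute (h : H ⧸ C) (y : H ⧸ C) → e (h * g * h⁻¹) = e g
  norm : ∑ g : H, e g * conj (e g) = (Nat.card C : ℂ)
  integral : ∀ χ : IrrCharacter H,
    IsIntegral ℤ ((Nat.card C : ℂ)⁻¹ * ∑ g : H, (χ : H → ℂ) g * conj (e g))
  vanish : ∀ χ : IrrCharacter H, classInner (fun c : C => (χ : H → ℂ) c) (θ : C → ℂ) = 0 →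
    ∑ g : H, (χ : H → ℂ) g * conj (e g) = 0
  at_one : (y : H ⧸ C) = 1 → ∀ c : C, e c = (θ : C → ℂ) c

variable (hinv : ∀ (x : H) (c : C),
  (θ : C → ℂ) ⟨x * c * x⁻¹, (inferInstance : C.Normal).conj_mem c c.2 x⟩ = (θ : C → ℂ) c)

include hinv in
/-- An extension of `θ` to the preimage of a cyclic group. -/
theorem exists_ext_cyclic (L : Subgroup H) (hCL : C ≤ L) {k : H ⧸ C}
    (hk : ∀ l ∈ L, (l : H ⧸ C) ∈ Subgroup.zpowers k) (k0 : H) (hk0 : (k0 : H ⧸ C) = k)
    (hk0L : k0 ∈ L) :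
    ∃ χ₀ : IrrCharacter L, ∀ n : C.subgroupOf L,
      (χ₀ : L → ℂ) n = (θ : C → ℂ) ⟨((n : L) : H), Subgroup.mem_subgroupOf.1 n.2⟩ := by
  set N := C.subgroupOf L with hN
  let i : N ≃* C := Subgroup.subgroupOfEquivOfLe hCL
  have hθN : IsIrrCharacter N ((θ : C → ℂ) ∘ i) :=
    isIrrCharacter_comp θ.2 i.toMonoidHom i.surjective
  have hcyc : IsCyclic (L ⧸ N) := by
    refine ⟨⟨((⟨k0, hk0L⟩ : L) : L ⧸ N), fun q => ?_⟩⟩
    obtain ⟨l, rfl⟩ := QuotientGroup.mk_surjective q
    obtain ⟨j, hj⟩ := hk l l.2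
    refine ⟨j, ?_⟩
    show ((⟨k0, hk0L⟩ : L) : L ⧸ N) ^ j = (l : L ⧸ N)
    rw [← QuotientGroup.mk_zpow, QuotientGroup.eq, hN, Subgroup.mem_subgroupOf,
      ← QuotientGroup.eq_one_iff]
    simp only [Subgroup.coe_mul, InvMemClass.coe_inv, SubgroupClass.coe_zpow,
      QuotientGroup.mk_mul, QuotientGroup.mk_inv, QuotientGroup.mk_zpow, hk0]
    rw [inv_mul_eq_one]
    exact hj
  obtain ⟨χ, hχ, hres⟩ := S0886.result N hcyc ((θ : C → ℂ) ∘ i) hθN fun g n =>
    hinv (g : H) (i n)
  exact ⟨⟨χ, hχ⟩, hres⟩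

include hinv in
/-- A good class carries such data. -/
theorem exists_extData (y : H) (hy : Good (y : H ⧸ C)) : ∃ e, ExtData C θ y e := by
  set L := (Subgroup.zpowers (y : H ⧸ C)).comap (QuotientGroup.mk' C) with hL
  have hCL : C ≤ L := fun c hc => by
    rw [hL, Subgroup.mem_comap, QuotientGroup.mk'_apply, (QuotientGroup.eq_one_iff _).2 hc]
    exact one_mem _
  have hyL : y ∈ L := Subgroup.mem_zpowers (y : H ⧸ C)
  obtain ⟨χ₀, hext⟩ := exists_ext_cyclic C θ hinv L hCL (fun l hl => hl) y rfl hyL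
  set N := C.subgroupOf L with hN
  letI := Fintype.ofFinite L
  letI := Fintype.ofFinite N
  letI := Fintype.ofFinite (L ⧸ N)
  let i : N ≃* C := Subgroup.subgroupOfEquivOfLe hCL
  let θN : IrrCharacter N := ⟨(θ : C → ℂ) ∘ i,
    isIrrCharacter_comp θ.2 i.toMonoidHom i.surjective⟩
  have hextN : ∀ n : N, (χ₀ : L → ℂ) n = (θN : N → ℂ) n := hext
  have hres : IsIrrCharacter N fun n : N => (χ₀ : L → ℂ) n := by
    rw [show (fun n : N => (χ₀ : L → ℂ) n) = (θN : N → ℂ) from funext hextN]; exact θN.2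
  let e : H → ℂ := fun g =>
    if h : g ∈ L ∧ (g : H ⧸ C) = (y : H ⧸ C) then (χ₀ : L → ℂ) ⟨g, h.1⟩ else 0
  have he : ∀ (g : H) (hg : g ∈ L), (g : H ⧸ C) = (y : H ⧸ C) → e g = (χ₀ : L → ℂ) ⟨g, hg⟩ :=
    fun g hg h => dif_pos ⟨hg, h⟩
  have hsupp : ∀ g : H, (g : H ⧸ C) ≠ (y : H ⧸ C) → e g = 0 := fun g hg =>
    dif_neg fun h => hg h.2
  have hmemL : ∀ g : H, (g : H ⧸ C) = (y : H ⧸ C) → g ∈ L := fun g hg => by
    rw [hL, Subgroup.mem_comap, QuotientGroup.mk'_apply, hg]
    exact Subgroup.mem_zpowers _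
  have hcy : ∀ c : C, (((c : H) * y : H) : H ⧸ C) = (y : H ⧸ C) := fun c => by
    rw [QuotientGroup.mk_mul, (QuotientGroup.eq_one_iff _).2 c.2, one_mul]
  have hcardN : Nat.card N = Nat.card C := Nat.card_congr i.toEquiv
  -- sums over the coset, inside `L`
  have hsumN : ∀ Φ : L → ℂ, ∑ c : C, Φ ⟨(c : H) * y, hmemL _ (hcy c)⟩ =
      ∑ n : N, Φ ((n : L) * ⟨y, hyL⟩) := fun Φ =>
    (Fintype.sum_equiv i.toEquiv _ _ fun n => rfl).symm
  refine ⟨e, ⟨hsupp, ?_, ?_, ?_, ?_, ?_⟩⟩
  · -- invariance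
    let U : Subgroup H :=
      { carrier := {h | Commute (h : H ⧸ C) (y : H ⧸ C) ∧ ∀ g, e (h * g * h⁻¹) = e g}
        one_mem' := ⟨Commute.one_left _, fun g => by simp⟩
        mul_mem' := fun {a b} ha hb => ⟨by
          rw [QuotientGroup.mk_mul]; exact ha.1.mul_left hb.1, fun g => by
          rw [show a * b * g * (a * b)⁻¹ = a * (b * g * b⁻¹) * a⁻¹ by group, ha.2, hb.2]⟩
        inv_mem' := fun {a} ha => ⟨by rw [QuotientGroup.mk_inv]; exact ha.1.inv_left, fun g => by
          conv_rhs => rw [show g = a * (a⁻¹ * g * a⁻¹⁻¹) * a⁻¹ by group, ha.2]⟩ }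
    have hgen : ∀ t : H ⧸ C, (∃ k, t ∈ Subgroup.zpowers k ∧ (y : H ⧸ C) ∈ Subgroup.zpowers k) →
        ∀ h : H, (h : H ⧸ C) = t → h ∈ U := by
      rintro t ⟨k, ht, hyk⟩ h rfl
      obtain ⟨k0, rfl⟩ := QuotientGroup.mk_surjective k
      refine ⟨?_, ?_⟩
      · obtain ⟨i₁, hi₁⟩ := ht
        obtain ⟨i₂, hi₂⟩ := hyk
        rw [← hi₁, ← hi₂]
        exact Commute.zpow_zpow_self _ _ _
      set L' := (Subgroup.zpowers (k0 : H ⧸ C)).comap (QuotientGroup.mk' C) with hL'
      have hLL' : L ≤ L' := fun l hl => by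
        have h1 : (l : H ⧸ C) ∈ Subgroup.zpowers (y : H ⧸ C) := hl
        exact (Subgroup.zpowers_le.2 hyk) h1
      obtain ⟨ψ, hψ⟩ := exists_ext_cyclic C θ hinv L' (hCL.trans hLL') (fun l hl => hl) k0 rfl
        (Subgroup.mem_zpowers _)
      have hψN : (fun n : N => (ψ : L' → ℂ) (Subgroup.inclusion hLL' (n : L))) = (θN : N → ℂ) :=
        funext fun n => hψ ⟨Subgroup.inclusion hLL' (n : L), n.2⟩
      have hψc : IsCharacter L fun l : L => (ψ : L' → ℂ) (Subgroup.inclusion hLL' l) :=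
        CharInd.isCharacter_comp (Subgroup.inclusion hLL') (isCharacter_of_irr ψ.2)
      let ψL : IrrCharacter L := ⟨_, GlauberCorr.irr_of_restrict (N := N) hψc (hψN ▸ θN.2)⟩
      obtain ⟨β, hβ⟩ := GlauberCorr.exists_gallagher N θN χ₀ hextN ψL (by
        intro h0
        have h1 : classInner (fun n : N => (ψL : L → ℂ) (N.subtype n)) (θN : N → ℂ) =
            ((0 : ℕ) : ℂ) := by
          rw [GlauberCorr.classInner_comp_eq_homMult, h0]
        rw [show (fun n : N => (ψL : L → ℂ) (N.subtype n)) = (θN : N → ℂ) from hψN,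
          classInner_irr_self θN.2] at h1
        simp at h1)
      set lam := (β : L ⧸ N → ℂ) ((⟨y, hyL⟩ : L) : L ⧸ N) with hlam
      have hq : ∀ (g : H) (hg : g ∈ L), (g : H ⧸ C) = (y : H ⧸ C) →
          (ψ : L' → ℂ) ⟨g, hLL' hg⟩ = lam * (χ₀ : L → ℂ) ⟨g, hg⟩ := by
        intro g hg hgy
        have h1 := hβ ⟨g, hg⟩
        rw [show ((⟨g, hg⟩ : L) : L ⧸ N) = ((⟨y, hyL⟩ : L) : L ⧸ N) from
          QuotientGroup.eq.2 (Subgroup.mem_subgroupOf.2 (QuotientGroup.eq.1 hgy))] at h1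
        exact h1
      have hlam0 : lam ≠ 0 := by
        intro h0
        let Ψ : IrrCharacter L := ψL
        have h1 := congrFun (CharExt.avgN_normSq_eq_one N (Ψ : L → ℂ) Ψ.2
          (show IsIrrCharacter N fun n : N => (Ψ : L → ℂ) n from hψN ▸ θN.2)) ⟨y, hyL⟩
        rw [CharExt.avgN, Finset.sum_eq_zero, mul_zero] at h1
        · exact zero_ne_one h1
        · intro n _
          have h2 : (Ψ : L → ℂ) ((n : L) * ⟨y, hyL⟩) = 0 := by
            show (ψ : L' → ℂ) ⟨((n : L) : H) * y, _⟩ = 0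
            rw [hq _ (L.mul_mem (n : L).2 hyL) (by
              rw [QuotientGroup.mk_mul, (QuotientGroup.eq_one_iff _).2 (Subgroup.mem_subgroupOf.1 n.2),
                one_mul]), h0, zero_mul]
          rw [h2, zero_mul]
      have hhL' : h ∈ L' := ht
      intro g
      have hc : Commute (h : H ⧸ C) (y : H ⧸ C) := by
        obtain ⟨i₁, hi₁⟩ := ht
        obtain ⟨i₂, hi₂⟩ := hyk
        rw [← hi₁, ← hi₂]
        exact Commute.zpow_zpow_self _ _ _
      by_cases hg : (g : H ⧸ C) = (y : H ⧸ C)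
      · have hg' : ((h * g * h⁻¹ : H) : H ⧸ C) = (y : H ⧸ C) := by
          rw [QuotientGroup.mk_mul, QuotientGroup.mk_mul, QuotientGroup.mk_inv, hg, hc.eq,
            mul_inv_cancel_right]
        have e1 := irr_isClassFunction ψ.2 ⟨g, hLL' (hmemL g hg)⟩ ⟨h, hhL'⟩
        have e2 := hq g (hmemL g hg) hg
        have e3 := hq _ (hmemL _ hg') hg'
        rw [he _ (hmemL _ hg') hg', he _ (hmemL g hg) hg]
        refine mul_left_cancel₀ hlam0 ?_
        rw [← e2, ← e3]
        exact e1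
      · have hg' : ((h * g * h⁻¹ : H) : H ⧸ C) ≠ (y : H ⧸ C) := by
          intro h'
          apply hg
          rw [QuotientGroup.mk_mul, QuotientGroup.mk_mul, QuotientGroup.mk_inv,
            mul_inv_eq_iff_eq_mul, ← hc.eq] at h'
          exact mul_left_cancel h'
        rw [hsupp _ hg', hsupp _ hg]
    intro h g hhy
    have h1 : Subgroup.closure {t : H ⧸ C | ∃ k, t ∈ Subgroup.zpowers k ∧
        (y : H ⧸ C) ∈ Subgroup.zpowers k} ≤ U.map (QuotientGroup.mk' C) := by
      rw [Subgroup.closure_le]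
      intro t ht
      obtain ⟨t0, rfl⟩ := QuotientGroup.mk_surjective t
      exact ⟨t0, hgen _ ht t0 rfl, rfl⟩
    obtain ⟨u, hu, huh⟩ := h1 (hy _ hhy)
    have hc : u⁻¹ * h ∈ U := by
      have hmem : u⁻¹ * h ∈ C := QuotientGroup.eq.1 huh
      exact hgen 1 ⟨(y : H ⧸ C), one_mem _, Subgroup.mem_zpowers _⟩ _
        ((QuotientGroup.eq_one_iff _).2 hmem)
    have hhU : h ∈ U := by simpa using U.mul_mem hu hc
    exact hhU.2 g
  · -- norm
    rw [sum_coset C y fun g hg => by rw [hsupp g hg, zero_mul]]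
    rw [Finset.sum_congr rfl fun c (_ : c ∈ Finset.univ) => by rw [he _ (hmemL _ (hcy c)) (hcy c)],
      hsumN fun l => (χ₀ : L → ℂ) l * conj ((χ₀ : L → ℂ) l)]
    have h1 := congrFun (CharExt.avgN_normSq_eq_one N (χ₀ : L → ℂ) χ₀.2 hres) ⟨y, hyL⟩
    rw [CharExt.avgN, inv_mul_eq_iff_eq_mul₀ (Nat.cast_ne_zero.2 Nat.card_pos.ne'), mul_one,
      hcardN] at h1
    exact h1
  all_goals
    have hcomm : ∀ a b : L ⧸ N, a * b = b * a := by
      intro a b
      obtain ⟨a, rfl⟩ := QuotientGroup.mk_surjective a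
      obtain ⟨b, rfl⟩ := QuotientGroup.mk_surjective b
      obtain ⟨ja, hja⟩ : (a : H ⧸ C) ∈ Subgroup.zpowers (y : H ⧸ C) := a.2
      obtain ⟨jb, hjb⟩ : (b : H ⧸ C) ∈ Subgroup.zpowers (y : H ⧸ C) := b.2
      simp only at hja hjb
      rw [← QuotientGroup.mk_mul, ← QuotientGroup.mk_mul, QuotientGroup.eq, hN,
        Subgroup.mem_subgroupOf, ← QuotientGroup.eq_one_iff]
      simp only [Subgroup.coe_mul, InvMemClass.coe_inv, QuotientGroup.mk_mul, QuotientGroup.mk_inv]
      rw [← hja, ← hjb, mul_inv_rev, ← zpow_neg, ← zpow_neg]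
      simp only [← zpow_add]
      rw [show (-jb + -ja + (jb + ja) : ℤ) = 0 by ring, zpow_zero]
    let ξ : IrrCharacter (L ⧸ N) → IrrCharacter L := fun β =>
      ⟨_, GlauberCorr.gallagher_irr N θN χ₀ hextN β⟩
    have key : ∀ χ : IrrCharacter H, (Nat.card C : ℂ)⁻¹ * ∑ g : H, (χ : H → ℂ) g * conj (e g) =
        ∑ β : IrrCharacter (L ⧸ N), (β : L ⧸ N → ℂ) ((⟨y, hyL⟩ : L) : L ⧸ N) *
          classInner (fun l : L => (χ : H → ℂ) l) (ξ β : L → ℂ) := by
      intro χ
      have hind : ∀ l : L, conj (e l) * (Nat.card (L ⧸ N) : ℂ) =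
          ∑ β : IrrCharacter (L ⧸ N), (β : L ⧸ N → ℂ) ((⟨y, hyL⟩ : L) : L ⧸ N) *
            conj ((ξ β : L → ℂ) l) := by
        intro l
        simp only [ξ, map_mul, ← mul_assoc, ← Finset.sum_mul]
        rw [sum_irr_mul_conj]
        by_cases hl : (l : H ⧸ C) = (y : H ⧸ C)
        · rw [he _ l.2 hl, if_pos (by
            rw [show ((⟨y, hyL⟩ : L) : L ⧸ N) = (l : L ⧸ N) from
              QuotientGroup.eq.2 (Subgroup.mem_subgroupOf.2 (QuotientGroup.eq.1 hl.symm))]),
            show Subgroup.centralizer ({((⟨y, hyL⟩ : L) : L ⧸ N)} : Set (L ⧸ N)) = ⊤ from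
              eq_top_iff.2 fun w _ => Subgroup.mem_centralizer_singleton_iff.2 (hcomm _ _),
            Subgroup.card_top, mul_comm]
        · rw [hsupp _ hl, map_zero, zero_mul, if_neg fun hc => hl ?_, zero_mul]
          obtain ⟨w, hw⟩ := isConj_iff.1 hc
          rw [hcomm w, mul_inv_cancel_right, QuotientGroup.eq, hN, Subgroup.mem_subgroupOf] at hw
          exact (QuotientGroup.eq.2 hw).symm
      have hsum : ∑ g : H, (χ : H → ℂ) g * conj (e g) = ∑ l : L, (χ : H → ℂ) l * conj (e l) := by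
        rw [← Finset.sum_subtype (Finset.univ.filter fun g : H => g ∈ L) (fun g => by simp)
          (fun g : H => (χ : H → ℂ) g * conj (e g))]
        refine (Finset.sum_subset (Finset.filter_subset _ _) fun g _ hg => ?_).symm
        rw [hsupp g fun h => hg (Finset.mem_filter.2 ⟨Finset.mem_univ _, hmemL g h⟩), map_zero,
          mul_zero]
      have hn0 : (Nat.card (L ⧸ N) : ℂ) ≠ 0 := Nat.cast_ne_zero.2 Nat.card_pos.ne'
      have hC0 : (Nat.card C : ℂ) ≠ 0 := Nat.cast_ne_zero.2 Nat.card_pos.ne'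
      have hLcard : (Nat.card L : ℂ) = Nat.card (L ⧸ N) * Nat.card C := by
        rw [Subgroup.card_eq_card_quotient_mul_card_subgroup N, hcardN, Nat.cast_mul]
      rw [hsum]
      simp only [classInner, hLcard, mul_inv]
      refine mul_left_cancel₀ (mul_ne_zero hn0 hC0) ?_
      calc (Nat.card (L ⧸ N) : ℂ) * Nat.card C * ((Nat.card C : ℂ)⁻¹ *
            ∑ l : L, (χ : H → ℂ) l * conj (e l))
          = ∑ l : L, (χ : H → ℂ) l * (conj (e l) * Nat.card (L ⧸ N)) := by
            rw [mul_assoc, mul_inv_cancel_left₀ hC0, Finset.mul_sum]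
            exact Finset.sum_congr rfl fun l _ => by ring
        _ = ∑ β : IrrCharacter (L ⧸ N), (β : L ⧸ N → ℂ) ((⟨y, hyL⟩ : L) : L ⧸ N) *
            ∑ l : L, (χ : H → ℂ) l * conj ((ξ β : L → ℂ) l) := by
            simp only [hind, Finset.mul_sum]
            rw [Finset.sum_comm]
            exact Finset.sum_congr rfl fun β _ => Finset.sum_congr rfl fun l _ => by ring
        _ = _ := by
            rw [Finset.mul_sum]
            refine Finset.sum_congr rfl fun β _ => ?_
            field_simp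
  · -- integrality
    intro χ
    rw [key χ]
    refine IsIntegral.sum _ fun β _ => IsIntegral.mul
      (isCharacter_isIntegral (isCharacter_of_irr β.2) _) ?_
    obtain ⟨m, hm⟩ := isCharacter_classInner_nat
      (CharInd.isCharacter_res L (isCharacter_of_irr χ.2)) (ξ β)
    rw [hm]
    exact isIntegral_natCast m
  · -- vanishing
    intro χ hχ
    have h0 : ∀ β, classInner (fun l : L => (χ : H → ℂ) l) (ξ β : L → ℂ) = 0 := by
      intro β
      by_contra hne
      have h1 : GlauberCorr.homMult L.subtype χ (ξ β) ≠ 0 := fun h => hne (by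
        have h' := GlauberCorr.classInner_comp_eq_homMult L.subtype χ (ξ β)
        rw [h, Nat.cast_zero] at h'
        exact h')
      have h2 := GlauberCorr.homMult_comp_ne_zero h1 (GlauberCorr.gallagher_over N θN χ₀ hextN β)
      refine h2 (GlauberCorr.homMult_eq_of_classInner (n := 0) ?_)
      rw [Nat.cast_zero, ← hχ, classInner, classInner, hcardN]
      congr 1
      exact Fintype.sum_equiv i.toEquiv _ _ fun n => rfl
    have h := (key χ).trans (Finset.sum_eq_zero fun β _ => by rw [h0, mul_zero])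
    rw [mul_eq_zero] at h
    exact h.resolve_left (inv_ne_zero (Nat.cast_ne_zero.2 Nat.card_pos.ne'))
  · -- the trivial class
    intro hy1 c
    rw [he _ (hCL c.2) (by rw [(QuotientGroup.eq_one_iff _).2 c.2, hy1])]
    exact hext ⟨⟨c, hCL c.2⟩, c.2⟩

/-- The class function carried by a good class. -/
def bigF (e : H → ℂ) : H → ℂ := fun g => ∑ h : H, e (h * g * h⁻¹)

theorem bigF_isClassFunction (e : H → ℂ) : IsClassFunction H (bigF e) := fun g x =>
  Fintype.sum_equiv (Equiv.mulRight x) _ _ fun h => by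
    show e _ = e (h * x * g * (h * x)⁻¹)
    congr 1; group

theorem classInner_bigF (e : H → ℂ) {K : H → ℂ} (hK : IsClassFunction H K) :
    classInner (bigF e) K = ∑ g : H, e g * conj (K g) := by
  have hH : (Nat.card H : ℂ) ≠ 0 := Nat.cast_ne_zero.2 Nat.card_pos.ne'
  simp only [classInner, bigF, Finset.sum_mul]
  rw [Finset.sum_comm, Finset.sum_congr rfl fun h (_ : h ∈ Finset.univ) =>
    Fintype.sum_equiv (MulAut.conj h).toEquiv (fun g => e (h * g * h⁻¹) * conj (K g))
      (fun g => e g * conj (K g)) fun g => by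
        show _ = e (h * g * h⁻¹) * conj (K (h * g * h⁻¹))
        rw [hK g h]]
  rw [Finset.sum_const, Finset.card_univ, nsmul_eq_mul, ← Nat.card_eq_fintype_card,
    inv_mul_cancel_left₀ hH]

/-- The coefficient of a good class at a character. -/
def coef (e : H → ℂ) (χ : H → ℂ) : ℂ := (Nat.card C : ℂ)⁻¹ * ∑ g : H, χ g * conj (e g)

theorem classInner_bigF_irr (e : H → ℂ) (χ : IrrCharacter H) :
    classInner (bigF e) (χ : H → ℂ) = (Nat.card C : ℂ) * conj (coef C e χ) := by
  rw [classInner_bigF e (irr_isClassFunction χ.2), coef, map_mul, map_inv₀, Complex.conj_natCast,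
    mul_inv_cancel_left₀ (Nat.cast_ne_zero.2 Nat.card_pos.ne'), map_sum]
  exact Finset.sum_congr rfl fun g _ => by rw [map_mul, Complex.conj_conj, mul_comm]

theorem parseval (e e' : H → ℂ) :
    classInner (bigF e) (bigF e') = (Nat.card C : ℂ) * Nat.card C *
      ∑ χ : IrrCharacter H, conj (coef C e χ) * coef C e' χ := by
  conv_lhs => rw [eq_sum_classInner_smul (bigF_isClassFunction e')]
  rw [classInner_sum_right, Finset.mul_sum]
  refine Finset.sum_congr rfl fun χ _ => ?_
  rw [classInner_smul_right, classInner_bigF_irr C e', classInner_bigF_irr C e, map_mul,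
    Complex.conj_natCast, Complex.conj_conj]
  ring

theorem classInner_bigF_self {y : H} {e : H → ℂ} (h : ExtData C θ y e) :
    classInner (bigF e) (bigF e) = (Nat.card C : ℂ) * Nat.card C *
      Nat.card (Subgroup.centralizer ({(y : H ⧸ C)} : Set (H ⧸ C))) := by
  rw [classInner_bigF e (bigF_isClassFunction e)]
  have hval : ∀ g : H, e g * conj (bigF e g) = (Nat.card C : ℂ) *
      Nat.card (Subgroup.centralizer ({(y : H ⧸ C)} : Set (H ⧸ C))) * (e g * conj (e g)) := by
    intro g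
    by_cases hg : (g : H ⧸ C) = (y : H ⧸ C)
    swap
    · rw [h.supp g hg]; simp
    set Cy := (Subgroup.centralizer ({(y : H ⧸ C)} : Set (H ⧸ C))).comap (QuotientGroup.mk' C)
      with hCy
    have hFg : bigF e g = (Nat.card Cy : ℂ) * e g := by
      rw [bigF, ← Finset.sum_filter_add_sum_filter_not Finset.univ (fun x : H => x ∈ Cy),
        Finset.sum_eq_zero (s := Finset.univ.filter fun x : H => ¬ x ∈ Cy) (fun x hx => h.supp _
          fun hx' => (Finset.mem_filter.1 hx).2 ?_), add_zero,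
        Finset.sum_congr rfl (g := fun _ => e g) (fun x hx => h.inv x g ?_), Finset.sum_const,
        nsmul_eq_mul]
      · congr 2
        rw [Nat.card_eq_fintype_card, Fintype.card_subtype]
      · have h1 : x ∈ Cy := (Finset.mem_filter.1 hx).2
        exact Subgroup.mem_centralizer_singleton_iff.1 h1
      · rw [hCy, Subgroup.mem_comap, QuotientGroup.mk'_apply, Subgroup.mem_centralizer_singleton_iff]
        rw [QuotientGroup.mk_mul, QuotientGroup.mk_mul, QuotientGroup.mk_inv, hg,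
          mul_inv_eq_iff_eq_mul] at hx'
        exact hx'
    have hcard : Nat.card Cy =
        Nat.card C * Nat.card (Subgroup.centralizer ({(y : H ⧸ C)} : Set (H ⧸ C))) := by
      have hle : C ≤ Cy := fun c hc => by
        rw [hCy, Subgroup.mem_comap, QuotientGroup.mk'_apply, (QuotientGroup.eq_one_iff _).2 hc]
        exact one_mem _
      have h1 := Subgroup.card_mul_index (C.subgroupOf Cy)
      have h2 : C.relIndex Cy =
          Nat.card (Subgroup.centralizer ({(y : H ⧸ C)} : Set (H ⧸ C))) := by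
        conv_lhs => rw [show C = (⊥ : Subgroup (H ⧸ C)).comap (QuotientGroup.mk' C) by
          rw [MonoidHom.comap_bot, QuotientGroup.ker_mk']]
        rw [Subgroup.relIndex_comap, hCy,
          Subgroup.map_comap_eq_self_of_surjective (QuotientGroup.mk'_surjective C),
          Subgroup.relIndex_bot_left]
      rw [Nat.card_congr (Subgroup.subgroupOfEquivOfLe hle).toEquiv] at h1
      rw [← h1, ← h2]; rfl
    rw [hFg, hcard, map_mul, Complex.conj_natCast]
    push_cast
    ring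
  rw [Finset.sum_congr rfl fun g _ => hval g, ← Finset.mul_sum, h.norm]
  ring

theorem classInner_bigF_ne {y z : H} {e e' : H → ℂ} (h : ExtData C θ y e) (h' : ExtData C θ z e')
    (hne : ¬ IsConj (y : H ⧸ C) (z : H ⧸ C)) : classInner (bigF e) (bigF e') = 0 := by
  rw [classInner_bigF e (bigF_isClassFunction e')]
  refine Finset.sum_eq_zero fun g _ => ?_
  by_cases hg : (g : H ⧸ C) = (y : H ⧸ C)
  swap
  · rw [h.supp g hg, zero_mul]
  rw [show bigF e' g = 0 from Finset.sum_eq_zero fun x _ => h'.supp _ fun hx => hne ?_, map_zero,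
    mul_zero]
  rw [QuotientGroup.mk_mul, QuotientGroup.mk_mul, QuotientGroup.mk_inv, hg] at hx
  exact isConj_iff.2 ⟨_, hx⟩

include hinv in
/-- Two characters over `θ`: at most one nontrivial good class, with centraliser order divisible by
the sum of the squares of the reduced multiplicities. -/
theorem good_classes {η₁ η₂ : IrrCharacter H} (hne : η₁ ≠ η₂)
    (hover : ∀ χ : IrrCharacter H, classInner (fun c : C => (χ : H → ℂ) c) (θ : C → ℂ) ≠ 0 →
      χ = η₁ ∨ χ = η₂)
    {a b n : ℕ} (ha : 0 < a) (hb : 0 < b) (hn : 0 < n) (hab : Nat.Coprime a b)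
    (h₁ : ∀ c : C, (η₁ : H → ℂ) c = (n * a : ℕ) * (θ : C → ℂ) c)
    (h₂ : ∀ c : C, (η₂ : H → ℂ) c = (n * b : ℕ) * (θ : C → ℂ) c) :
    C.index = n ^ 2 * (a ^ 2 + b ^ 2) ∧
    (∀ y z : H ⧸ C, Good y → y ≠ 1 → Good z → z ≠ 1 → IsConj y z) ∧
    ∀ y : H ⧸ C, Good y → y ≠ 1 →
      a ^ 2 + b ^ 2 ∣ Nat.card (Subgroup.centralizer ({y} : Set (H ⧸ C))) := by
  have hC0 : (Nat.card C : ℂ) ≠ 0 := Nat.cast_ne_zero.2 Nat.card_pos.ne'
  have hsum : ∀ {y : H} {e : H → ℂ}, ExtData C θ y e → ∀ e' : H → ℂ,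
      classInner (bigF e) (bigF e') = (Nat.card C : ℂ) * Nat.card C *
        (conj (coef C e η₁) * coef C e' η₁ + conj (coef C e η₂) * coef C e' η₂) := by
    intro y e h e'
    rw [parseval C, ← Finset.sum_pair hne (f := fun χ : IrrCharacter H =>
      conj (coef C e χ) * coef C e' χ)]
    congr 1
    refine (Finset.sum_subset (Finset.subset_univ _) fun χ _ hχ => ?_).symm
    have h0 : classInner (fun c : C => (χ : H → ℂ) c) (θ : C → ℂ) = 0 := by
      by_contra hc
      rcases hover χ hc with rfl | rfl <;> simp at hχ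
    rw [coef, h.vanish χ h0, mul_zero, map_zero, zero_mul]
  obtain ⟨e₁, he₁⟩ := exists_extData C θ hinv 1 (by rw [QuotientGroup.mk_one]; exact good_one)
  have hcoef : ∀ (η : IrrCharacter H) (k : ℕ), (∀ c : C, (η : H → ℂ) c = (k : ℂ) * (θ : C → ℂ) c) →
      coef C e₁ η = k := by
    intro η k hk
    rw [coef, sum_coset C 1 fun g hg => by rw [he₁.supp g hg, map_zero, mul_zero]]
    rw [Finset.sum_congr rfl (g := fun c : C => (k : ℂ) * ((θ : C → ℂ) c * conj ((θ : C → ℂ) c)))
      (fun c _ => by rw [mul_one, hk, he₁.at_one (QuotientGroup.mk_one C), mul_assoc]),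
      ← Finset.mul_sum, sum_mul_conj_eq_card_mul_classInner, classInner_irr_self θ.2, mul_one]
    field_simp
  have hA₁ := hcoef η₁ (n * a) h₁
  have hA₂ := hcoef η₂ (n * b) h₂
  have hself : ∀ {y : H} {e : H → ℂ}, ExtData C θ y e →
      (Nat.card (Subgroup.centralizer ({(y : H ⧸ C)} : Set (H ⧸ C))) : ℂ) =
        conj (coef C e η₁) * coef C e η₁ + conj (coef C e η₂) * coef C e η₂ := fun {y e} h =>
    mul_left_cancel₀ (mul_ne_zero hC0 hC0) ((classInner_bigF_self C θ h).symm.trans (hsum h e))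
  have horth : ∀ {y z : H} {e e' : H → ℂ}, ExtData C θ y e → ExtData C θ z e' →
      ¬ IsConj (y : H ⧸ C) (z : H ⧸ C) →
        conj (coef C e η₁) * coef C e' η₁ + conj (coef C e η₂) * coef C e' η₂ = 0 :=
    fun {y z e e'} h h' hyz => by
      have h1 := (hsum h e').symm.trans (classInner_bigF_ne C θ h h' hyz)
      exact (mul_eq_zero.1 h1).resolve_left (mul_ne_zero hC0 hC0)
  have hzero : ∀ {y : H} {e : H → ℂ}, ExtData C θ y e → (y : H ⧸ C) ≠ 1 →
      (a : ℂ) * coef C e η₁ + (b : ℂ) * coef C e η₂ = 0 := fun {y e} h hy1 => by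
    have h1 := horth he₁ h (fun hc => hy1 (isConj_one_right.1 (by
      rwa [QuotientGroup.mk_one] at hc)))
    rw [hA₁, hA₂, Complex.conj_natCast, Complex.conj_natCast] at h1
    refine mul_left_cancel₀ (Nat.cast_ne_zero.2 hn.ne' : (n : ℂ) ≠ 0) ?_
    push_cast at h1
    linear_combination h1
  have ha0 : (a : ℂ) ≠ 0 := Nat.cast_ne_zero.2 ha.ne'
  have hb0 : (b : ℂ) ≠ 0 := Nat.cast_ne_zero.2 hb.ne'
  refine ⟨?_, ?_, ?_⟩
  · have h := hself he₁
    rw [show Subgroup.centralizer ({((1 : H) : H ⧸ C)} : Set (H ⧸ C)) = ⊤ by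
      rw [QuotientGroup.mk_one]
      exact eq_top_iff.2 fun w _ => Subgroup.mem_centralizer_singleton_iff.2 (by simp),
      Subgroup.card_top, hA₁, hA₂, Complex.conj_natCast, Complex.conj_natCast,
      ← Subgroup.index_eq_card] at h
    have h' : ((C.index : ℕ) : ℂ) = ((n ^ 2 * (a ^ 2 + b ^ 2) : ℕ) : ℂ) := by
      rw [h]; push_cast; ring
    exact_mod_cast h'
  · intro y z hy hy1 hz hz1
    obtain ⟨y, rfl⟩ := QuotientGroup.mk_surjective y
    obtain ⟨z, rfl⟩ := QuotientGroup.mk_surjective z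
    by_contra hyz
    obtain ⟨e, he⟩ := exists_extData C θ hinv y hy
    obtain ⟨e', he'⟩ := exists_extData C θ hinv z hz
    have r1 := hzero he hy1
    have r2 := hzero he' hz1
    have r3 := horth he he' hyz
    set A := coef C e η₁ with hA
    set A' := coef C e' η₁ with hA'
    have e2 : coef C e η₂ = -(a : ℂ) / b * A := by field_simp; linear_combination r1
    have e2' : coef C e' η₂ = -(a : ℂ) / b * A' := by field_simp; linear_combination r2
    rw [e2, e2', map_mul, map_div₀, map_neg, Complex.conj_natCast, Complex.conj_natCast] at r3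
    have r4 : conj A * A' * ((a : ℂ) ^ 2 + (b : ℂ) ^ 2) = 0 := by
      field_simp at r3
      linear_combination r3
    have hab2 : (a : ℂ) ^ 2 + (b : ℂ) ^ 2 ≠ 0 := by
      have : ((a ^ 2 + b ^ 2 : ℕ) : ℂ) ≠ 0 := Nat.cast_ne_zero.2 (by positivity)
      exact_mod_cast this
    have hpos : ∀ {w : H} {f : H → ℂ}, ExtData C θ w f → (w : H ⧸ C) ≠ 1 → coef C f η₁ ≠ 0 := by
      intro w f hf hw h0
      have h2 := hzero hf hw
      rw [h0, mul_zero, zero_add, mul_eq_zero] at h2
      have h3 := hself hf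
      rw [h0, h2.resolve_left hb0, map_zero, zero_mul, add_zero] at h3
      exact (Nat.cast_ne_zero.2 (Nat.card_pos (α := Subgroup.centralizer
        ({(w : H ⧸ C)} : Set (H ⧸ C)))).ne') h3
    rcases mul_eq_zero.1 r4 with h | h
    · rcases mul_eq_zero.1 h with h | h
      · exact hpos he hy1 (by rwa [map_eq_zero] at h)
      · exact hpos he' hz1 h
    · exact hab2 h
  · intro y hy hy1
    obtain ⟨y, rfl⟩ := QuotientGroup.mk_surjective y
    obtain ⟨e, he⟩ := exists_extData C θ hinv y hy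
    have r1 := hzero he hy1
    obtain ⟨u, v, huv⟩ := Nat.isCoprime_iff_coprime.2 hab
    set A₁ := coef C e η₁ with hA1
    set A₂ := coef C e η₂ with hA2
    set t := (v : ℂ) * A₁ - (u : ℂ) * A₂ with ht
    have huv' : (u : ℂ) * a + (v : ℂ) * b = 1 := by exact_mod_cast huv
    have hA₁t : A₁ = (b : ℂ) * t := by rw [ht]; linear_combination (u : ℂ) * r1 - A₁ * huv'
    have hA₂t : A₂ = -((a : ℂ) * t) := by rw [ht]; linear_combination (v : ℂ) * r1 - A₂ * huv'
    have htint : IsIntegral ℤ t :=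
      ((isIntegral_algebraMap (R := ℤ) (x := v)).mul (he.integral η₁)).sub
        ((isIntegral_algebraMap (R := ℤ) (x := u)).mul (he.integral η₂))
    have h := hself he
    rw [← hA1, ← hA2, hA₁t, hA₂t] at h
    simp only [map_mul, map_neg, Complex.conj_natCast] at h
    set m := Nat.card (Subgroup.centralizer ({(y : H ⧸ C)} : Set (H ⧸ C))) with hm
    have h' : (m : ℂ) = ((a ^ 2 + b ^ 2 : ℕ) : ℂ) * (conj t * t) := by
      rw [h]; push_cast; ring
    have hS : a ^ 2 + b ^ 2 ≠ 0 := by positivity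
    have hS' : (a : ℂ) ^ 2 + (b : ℂ) ^ 2 ≠ 0 := by
      have : ((a ^ 2 + b ^ 2 : ℕ) : ℂ) ≠ 0 := Nat.cast_ne_zero.2 hS
      exact_mod_cast this
    have hq : ((((m : ℚ) / (a ^ 2 + b ^ 2 : ℕ)) : ℚ) : ℂ) = conj t * t := by
      push_cast
      rw [h']
      push_cast
      rw [mul_div_assoc, mul_comm, div_mul_eq_mul_div, mul_div_assoc, div_self hS', mul_one]
    have hint : IsIntegral ℤ (((m : ℚ) / (a ^ 2 + b ^ 2 : ℕ) : ℚ) : ℂ) := by
      rw [hq]
      exact (htint.map ((Complex.conjAe).toAlgHom.restrictScalars ℤ)).mul htint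
    obtain ⟨k, hk⟩ := IsIntegrallyClosed.algebraMap_eq_of_integral
      ((isIntegral_algHom_iff (Rat.castHom ℂ).toIntAlgHom Rat.cast_injective).1 hint)
    have hk' : ((k : ℤ) : ℚ) * (a ^ 2 + b ^ 2 : ℕ) = m := by
      rw [show ((k : ℤ) : ℚ) = algebraMap ℤ ℚ k from rfl, hk,
        div_mul_cancel₀ _ (Nat.cast_ne_zero.2 hS)]
    rw [← Int.natCast_dvd_natCast]
    refine Dvd.intro_left k ?_
    exact_mod_cast hk'

end Cfsg.Agent.ThreeChar
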