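import Cfsg.Agent.ThreeChar.Final
import Cfsg.Agent.ThreeChar.GoodClasses
import Cfsg.Agent.Brauer.CanonicalChar
import Cfsg.Agent.Brauer.WeakOrth
import Cfsg.Agent.BlockCover.Unique
import Cfsg.Agent.BlockCover.FongReynolds
import Cfsg.Agent.OddLocal.Coprime
import Cfsg.Agent.Brauer.KleinFourBlock
import Cfsg.Agent.S0934
import Cfsg.Agent.S4436
import Cfsg.Agent.S4648

/-!
# A block with normal abelian defect group and three characters has defect group of order three
-/

set_option autoImplicit false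
set_option linter.style.haveILetI false
set_option linter.unusedSectionVars false

noncomputable section

namespace Cfsg.Agent.ThreeChar

open Cfsg Cfsg.Agent.Block
open scoped ComplexConjugate Classical

universe u

variable {H : Type u} [Group H] [Fintype H] {p : ℕ} [hp : Fact p.Prime] {M : Ideal AlgInt}

/-- Regular elements in one coset of a normal abelian `p`-subgroup are conjugate. -/
theorem isConj_of_mk {P : Subgroup H} [P.Normal] (hP : IsPGroup p P)
    (hab : ∀ x ∈ P, ∀ y ∈ P, x * y = y * x) {y y' : H} (hy : ¬ p ∣ orderOf y)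
    (hy' : ¬ p ∣ orderOf y') (h : (y : H ⧸ P) = (y' : H ⧸ P)) : IsConj y y' := by
  obtain ⟨k, hk⟩ := hP.exists_card_eq
  have hu : y⁻¹ * y' ∈ P := QuotientGroup.eq.1 h
  have hco : ∀ z : H, ¬ p ∣ orderOf z → (Nat.card P).Coprime (Nat.card (Subgroup.zpowers z)) :=
    fun z hz => by
      rw [hk, Nat.card_zpowers]
      exact Nat.Coprime.pow_left k (hp.out.coprime_iff_not_dvd.2 hz)
  have hsup : P ⊔ Subgroup.zpowers y = P ⊔ Subgroup.zpowers y' := by
    refine le_antisymm (sup_le le_sup_left (Subgroup.zpowers_le.2 ?_))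
      (sup_le le_sup_left (Subgroup.zpowers_le.2 ?_))
    · rw [show y = y' * (y⁻¹ * y')⁻¹ by group]
      exact mul_mem (Subgroup.mem_sup_right (Subgroup.mem_zpowers y'))
        (Subgroup.mem_sup_left (inv_mem hu))
    · rw [show y' = y * (y⁻¹ * y') by group]
      exact mul_mem (Subgroup.mem_sup_right (Subgroup.mem_zpowers y))
        (Subgroup.mem_sup_left hu)
  obtain ⟨n, hn, hconj⟩ := OddLocal.complement_conj_abelian (N := P)
    ⟨⟨fun a b => Subtype.ext (hab _ a.2 _ b.2)⟩⟩ (hco y hy) (hco y' hy') hsup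
  refine isConj_iff.2 ⟨n, ?_⟩
  have h1 : n * y * n⁻¹ ∈ Subgroup.zpowers y' :=
    hconj ▸ OddLocal.conjBy_mem (Subgroup.mem_zpowers y)
  have h2 : n * y * n⁻¹ * y'⁻¹ ∈ P := by
    rw [← QuotientGroup.eq_one_iff, QuotientGroup.mk_mul, QuotientGroup.mk_mul, QuotientGroup.mk_mul,
      QuotientGroup.mk_inv, QuotientGroup.mk_inv, (QuotientGroup.eq_one_iff n).2 hn, h]
    group
  exact mul_inv_eq_one.1 (OddLocal.eq_one_of_mem_coprime (hco y' hy') h2
    (mul_mem h1 (inv_mem (Subgroup.mem_zpowers y'))))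

/-- The regular parts of a block are spanned by its members trivial on a normal abelian
`p`-subgroup. -/
theorem apply_regular_eq_sum (hM : IsPModular p M) {B : Set (IrrCharacter H)} (hB : IsPBlock M B)
    (P : Subgroup H) [P.Normal] (hP : IsPGroup p P) (hab : ∀ x ∈ P, ∀ y ∈ P, x * y = y * x)
    {χ : IrrCharacter H} (hχ : χ ∈ B) :
    ∃ c : IrrCharacter H → ℂ,
      (∀ ψ, c ψ ≠ 0 → ψ ∈ B ∧ ∀ u ∈ P, (ψ : H → ℂ) u = (ψ : H → ℂ) 1) ∧
      ∀ g : H, ¬ p ∣ orderOf g → (χ : H → ℂ) g = ∑ ψ, c ψ * (ψ : H → ℂ) g := by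
  haveI : M.IsPrime := hM.2.1.isPrime
  letI := Fintype.ofFinite (H ⧸ P)
  let f : H ⧸ P → ℂ := fun q =>
    if h : ∃ g : H, ¬ p ∣ orderOf g ∧ (g : H ⧸ P) = q then (χ : H → ℂ) h.choose else 0
  have hf : ∀ g : H, ¬ p ∣ orderOf g → f g = (χ : H → ℂ) g := by
    intro g hg
    have hex : ∃ g' : H, ¬ p ∣ orderOf g' ∧ (g' : H ⧸ P) = (g : H ⧸ P) := ⟨g, hg, rfl⟩
    simp only [f, dif_pos hex]
    obtain ⟨h1, h2⟩ := hex.choose_spec
    obtain ⟨c, hc⟩ := isConj_iff.1 (isConj_of_mk hP hab h1 hg h2)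
    exact ((Char.irr_isClassFunction χ.2 hex.choose c).symm).trans
      (congrArg (χ : H → ℂ) hc)
  have hfc : IsClassFunction (H ⧸ P) f := by
    intro q x
    obtain ⟨x, rfl⟩ := QuotientGroup.mk_surjective x
    by_cases hq : ∃ g : H, ¬ p ∣ orderOf g ∧ (g : H ⧸ P) = q
    · obtain ⟨g, hg, rfl⟩ := hq
      rw [← QuotientGroup.mk_inv, ← QuotientGroup.mk_mul, ← QuotientGroup.mk_mul, hf g hg,
        hf _ (by rwa [← MulAut.conj_apply, MulEquiv.orderOf_eq]), Char.irr_isClassFunction χ.2 g x]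
    · have hq' : ¬ ∃ g : H, ¬ p ∣ orderOf g ∧
          (g : H ⧸ P) = (x : H ⧸ P) * q * (x : H ⧸ P)⁻¹ := fun ⟨g, hg, hgq⟩ => hq
        ⟨x⁻¹ * g * x, by
          rwa [show x⁻¹ * g * x = MulAut.conj x⁻¹ g by simp, MulEquiv.orderOf_eq], by
          rw [QuotientGroup.mk_mul, QuotientGroup.mk_mul, QuotientGroup.mk_inv, hgq]; group⟩
      simp only [f, dif_neg hq, dif_neg hq']
  let infl : IrrCharacter (H ⧸ P) → IrrCharacter H := fun ζ =>
    ⟨(ζ : H ⧸ P → ℂ) ∘ QuotientGroup.mk' P,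
      Char.isIrrCharacter_comp ζ.2 _ (QuotientGroup.mk'_surjective P)⟩
  let a : IrrCharacter (H ⧸ P) → ℂ := fun ζ => classInner f (ζ : H ⧸ P → ℂ)
  let c : IrrCharacter H → ℂ := fun ψ =>
    if ψ ∈ B then ∑ ζ ∈ Finset.univ.filter (fun ζ => infl ζ = ψ), a ζ else 0
  have htriv : ∀ ψ, c ψ ≠ 0 → ψ ∈ B ∧ ∀ u ∈ P, (ψ : H → ℂ) u = (ψ : H → ℂ) 1 := by
    intro ψ hψ
    simp only [c] at hψ
    split_ifs at hψ with hB'
    · obtain ⟨ζ, hζ, -⟩ := Finset.exists_ne_zero_of_sum_ne_zero hψ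
      refine ⟨hB', fun u hu => ?_⟩
      rw [← (Finset.mem_filter.1 hζ).2]
      show (ζ : H ⧸ P → ℂ) (u : H ⧸ P) = (ζ : H ⧸ P → ℂ) ((1 : H) : H ⧸ P)
      rw [(QuotientGroup.eq_one_iff u).2 hu, QuotientGroup.mk_one]
    · exact absurd rfl hψ
  refine ⟨c, htriv, fun g hg => ?_⟩
  -- the part outside the block
  let c' : IrrCharacter H → ℂ := fun ψ =>
    if ψ ∈ B then 0 else ∑ ζ ∈ Finset.univ.filter (fun ζ => infl ζ = ψ), a ζ
  let d : H → ℂ := fun x => (χ : H → ℂ) x - ∑ ψ, c ψ * (ψ : H → ℂ) x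
  have hd : ∀ x : H, ¬ p ∣ orderOf x → d x = ∑ ψ, c' ψ * (ψ : H → ℂ) x := by
    intro x hx
    have h1 : (χ : H → ℂ) x = ∑ ψ, (c ψ + c' ψ) * (ψ : H → ℂ) x := by
      rw [← hf x hx]
      conv_lhs => rw [Char.eq_sum_classInner_smul hfc]
      simp only [Finset.sum_apply, Pi.smul_apply, smul_eq_mul]
      rw [← Finset.sum_fiberwise_of_maps_to (s := Finset.univ) (t := Finset.univ) (g := infl)
        (fun _ _ => Finset.mem_univ _)]
      refine Finset.sum_congr rfl fun ψ _ => ?_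
      have hcc : c ψ + c' ψ = ∑ ζ ∈ Finset.univ.filter (fun ζ => infl ζ = ψ), a ζ := by
        by_cases h : ψ ∈ B <;> simp [c, c', h]
      rw [hcc, Finset.sum_mul]
      refine Finset.sum_congr rfl fun ζ hζ => ?_
      rw [← (Finset.mem_filter.1 hζ).2]
      rfl
    simp only [d, h1, add_mul, Finset.sum_add_distrib]
    ring
  have hint := blockCoeff_memLocalRing hB
  have horth : ∀ φ ∈ B, ∀ ψ : IrrCharacter H, Brauer.regSum p (φ : H → ℂ) (ψ : H → ℂ) * conj (c' ψ) = 0 := by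
    intro φ hφ ψ
    by_cases h : ψ ∈ B
    · simp [c', h]
    · rw [Brauer.regSum_eq_zero_of_integral hM B hint hφ h, zero_mul]
  have hzero : ∑ x ∈ Finset.univ.filter (fun x : H => ¬ p ∣ orderOf x), d x * conj (d x) = 0 := by
    have h1 : ∀ φ ∈ B, ∑ x ∈ Finset.univ.filter (fun x : H => ¬ p ∣ orderOf x),
        (φ : H → ℂ) x * conj (d x) = 0 := by
      intro φ hφ
      rw [Finset.sum_congr rfl fun x hx => by rw [hd x (Finset.mem_filter.1 hx).2, map_sum,
        Finset.mul_sum], Finset.sum_comm]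
      refine Finset.sum_eq_zero fun ψ _ => ?_
      rw [← horth φ hφ ψ, Brauer.regSum, Finset.sum_mul]
      exact Finset.sum_congr rfl fun x _ => by rw [map_mul]; ring
    calc ∑ x ∈ Finset.univ.filter (fun x : H => ¬ p ∣ orderOf x), d x * conj (d x)
        = ∑ x ∈ Finset.univ.filter (fun x : H => ¬ p ∣ orderOf x), ((χ : H → ℂ) x * conj (d x) -
            ∑ ψ, c ψ * ((ψ : H → ℂ) x * conj (d x))) := by
          refine Finset.sum_congr rfl fun x _ => ?_
          simp only [d, sub_mul, Finset.sum_mul]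
          congr 1
          exact Finset.sum_congr rfl fun ψ _ => by ring
      _ = 0 := by
          rw [Finset.sum_sub_distrib, h1 χ hχ, Finset.sum_comm, Finset.sum_eq_zero, sub_zero]
          intro ψ _
          rw [← Finset.mul_sum]
          by_cases hc : c ψ = 0
          · rw [hc, zero_mul]
          · rw [h1 ψ (htriv ψ hc).1, mul_zero]
  have h3 : ∑ x ∈ Finset.univ.filter (fun x : H => ¬ p ∣ orderOf x), Complex.normSq (d x) = 0 := by
    have : ((∑ x ∈ Finset.univ.filter (fun x : H => ¬ p ∣ orderOf x),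
        Complex.normSq (d x) : ℝ) : ℂ) = 0 := by
      rw [Complex.ofReal_sum, ← hzero]
      exact Finset.sum_congr rfl fun x _ => (Complex.mul_conj (d x)).symm
    exact_mod_cast this
  have h4 := (Finset.sum_eq_zero_iff_of_nonneg fun x _ => Complex.normSq_nonneg (d x)).1 h3 g
    (Finset.mem_filter.2 ⟨Finset.mem_univ g, hg⟩)
  exact sub_eq_zero.1 (Complex.normSq_eq_zero.1 h4)

/-- The common regular part forces rank one. -/
theorem blockRank_eq_one_of_prop [M.IsPrime] {B : Set (IrrCharacter H)} (hB : IsPBlock M B)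
    (η : IrrCharacter H)
    (h : ∀ χ ∈ B, ∃ c : ℂ, ∀ g : H, ¬ p ∣ orderOf g → (χ : H → ℂ) g = c * (η : H → ℂ) g) :
    blockRank p B = 1 := by
  refine le_antisymm ?_ (Brauer.KleinBlock.blockRank_pos hB)
  have hle : Submodule.span ℂ ((fun χ : IrrCharacter H => pRegularPart p (χ : H → ℂ)) '' B) ≤
      Submodule.span ℂ {pRegularPart p (η : H → ℂ)} := by
    rw [Submodule.span_le]
    rintro _ ⟨χ, hχ, rfl⟩
    obtain ⟨c, hc⟩ := h χ hχ
    refine Submodule.mem_span_singleton.2 ⟨c, funext fun g => ?_⟩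
    by_cases hg : p ∣ orderOf g
    · simp [pRegularPart, IsPRegular, hg]
    · simp [pRegularPart, IsPRegular, hg, hc g hg]
  refine (Submodule.finrank_mono hle).trans ?_
  exact (finrank_span_le_card {pRegularPart p (η : H → ℂ)}).trans (by simp)

/-- An abelian group has an irreducible character trivial on a proper subgroup and not trivial. -/
theorem exists_irr_trivial_on {A : Type u} [Group A] [Fintype A] (hab : ∀ a b : A, a * b = b * a)
    (Q : Subgroup A) (hQ : Q ≠ ⊤) : ∃ l : IrrCharacter A,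
      (∀ a b : A, a⁻¹ * b ∈ Q → (l : A → ℂ) a = (l : A → ℂ) b) ∧ ∃ a : A, (l : A → ℂ) a ≠ 1 := by
  haveI : Q.Normal := ⟨fun n hn g => by rwa [hab g n, mul_inv_cancel_right]⟩
  letI := Fintype.ofFinite (A ⧸ Q)
  obtain ⟨w, hw⟩ : ∃ w : A, w ∉ Q := by
    by_contra h
    push Not at h
    exact hQ (eq_top_iff.2 fun a _ => h a)
  have hne : (w : A ⧸ Q) ≠ 1 := fun h => hw ((QuotientGroup.eq_one_iff w).1 h)
  obtain ⟨ζ, hζ⟩ : ∃ ζ : IrrCharacter (A ⧸ Q), (ζ : A ⧸ Q → ℂ) (w : A ⧸ Q) ≠ 1 := by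
    by_contra h
    push Not at h
    have hc : ∀ a b : A ⧸ Q, a * b = b * a := by
      intro a b
      obtain ⟨a, rfl⟩ := QuotientGroup.mk_surjective a
      obtain ⟨b, rfl⟩ := QuotientGroup.mk_surjective b
      rw [← QuotientGroup.mk_mul, hab, QuotientGroup.mk_mul]
    have h1 := Char.sum_irr_mul_conj (G := A ⧸ Q) (w : A ⧸ Q) 1
    rw [if_neg (fun hc' => hne (isConj_one_left.1 hc'))] at h1
    rw [Finset.sum_eq_card_nsmul (b := (1 : ℂ)) (fun ζ _ => by
      rw [h, Char.irr_degree_one_of_comm hc ζ.2, map_one, mul_one]), nsmul_eq_mul, mul_one] at h1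
    have h2 : (Finset.univ : Finset (IrrCharacter (A ⧸ Q))).card = (0 : ℕ) := by exact_mod_cast h1
    rw [Finset.card_univ] at h2
    haveI : Nonempty (IrrCharacter (A ⧸ Q)) := ⟨Char.trivialIrr (A ⧸ Q)⟩
    exact Fintype.card_ne_zero h2
  refine ⟨⟨(ζ : A ⧸ Q → ℂ) ∘ QuotientGroup.mk' Q,
    Char.isIrrCharacter_comp ζ.2 _ (QuotientGroup.mk'_surjective Q)⟩, fun a b hab' => ?_, w, hζ⟩
  show (ζ : A ⧸ Q → ℂ) (a : A ⧸ Q) = (ζ : A ⧸ Q → ℂ) (b : A ⧸ Q)
  rw [QuotientGroup.eq.2 hab']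

/-- The case of an invariant canonical character. -/
theorem card_eq_three_of_invariant (hM : IsPModular p M) {B : Set (IrrCharacter H)}
    (hB : IsPBlock M B) (P : Subgroup H) [P.Normal] (hP : IsDefectGroup p M B P) (hP1 : P ≠ ⊥)
    (hab : ∀ x ∈ P, ∀ y ∈ P, x * y = y * x) (hk : Nat.card B = 3)
    (C : Subgroup H) [C.Normal] [Fintype C] (hC : C = Subgroup.centralizer (P : Set H))
    {e : Set (IrrCharacter C)} (R : Brauer.RootData M p (P.subgroupOf C) e)
    (hind : IsInducedBlock M C e B) {θ : IrrCharacter C} (hθ : θ ∈ e)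
    (hθP : ∀ x ∈ P.subgroupOf C, (θ : C → ℂ) x = (θ : C → ℂ) 1)
    (hinv : ∀ x : H, CharInd.conjChar C x (θ : C → ℂ) = (θ : C → ℂ))
    (hpX : ¬ p ∣ C.index) : Nat.card P = 3 := by
  haveI : M.IsPrime := hM.2.1.isPrime
  have hPC : P ≤ C := hC ▸ fun x hx => Subgroup.mem_centralizer_iff.2 fun y hy => hab y hy x hx
  set P' := P.subgroupOf C with hP'
  have hPp : IsPGroup p P := isDefectGroup_isPGroup hP
  letI := Fintype.ofFinite P'
  have hab' : ∀ a b : P', a * b = b * a := fun a b =>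
    Subtype.ext (Subtype.ext (hab _ (Subgroup.mem_subgroupOf.1 a.2) _ (Subgroup.mem_subgroupOf.1 b.2)))
  have hcardP' : Nat.card P' = Nat.card P := Nat.card_congr (Subgroup.subgroupOfEquivOfLe hPC).toEquiv
  obtain ⟨d, hd, hθ1⟩ := Char.irr_one_pos θ.2
  have hd0 : (d : ℂ) ≠ 0 := Nat.cast_ne_zero.2 hd.ne'
  haveI hfinI : Finite (IrrCharacter C) := CharInd.finite_irrCharacter
  letI := Fintype.ofFinite e
  letI := Fintype.ofFinite B
  -- `e` and the characters of `P`
  let F : e → IrrCharacter P' := fun η => ⟨_, R.isIrrCharacter_onDefect hθ hθP η.2⟩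
  have hF : ∀ (η : e) (u : P'), (η.1 : C → ℂ) u = d * (F η : P' → ℂ) u := fun η u => by
    show (η.1 : C → ℂ) u = d * ((η.1 : C → ℂ) u / (θ : C → ℂ) 1)
    rw [hθ1]; field_simp
  have hFinj : Function.Injective F := by
    intro η η' h
    by_contra hne
    have h1 := R.sum_onDefect hθ hθP η.2 η'.2
    have e1 : Brauer.RootData.onDefect P' (θ : C → ℂ) (η.1 : C → ℂ) =
        Brauer.RootData.onDefect P' (θ : C → ℂ) (η'.1 : C → ℂ) := congrArg Subtype.val h
    rw [if_neg (fun hh => hne (Subtype.ext hh)), e1, R.sum_onDefect hθ hθP η'.2 η'.2, if_pos rfl] at h1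
    exact one_ne_zero h1
  have hFsurj : Function.Surjective F := fun l => by
    obtain ⟨η, hη, h⟩ := R.exists_onDefect_eq hθ hθP l
    exact ⟨⟨η, hη⟩, Subtype.ext h⟩
  have hη1 : ∀ η : e, (η.1 : C → ℂ) 1 = d := fun η => by
    have := hF η 1
    rwa [Char.irr_degree_one_of_comm hab' (F η).2, mul_one, OneMemClass.coe_one] at this
  have hsum : ∀ u : P', ∑ η : e, (η.1 : C → ℂ) u = if u = 1 then (d : ℂ) * Nat.card P else 0 := by
    intro u
    rw [Finset.sum_congr rfl (g := fun η : e => (d : ℂ) * (F η : P' → ℂ) u) (fun η _ => hF η u),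
      ← Finset.mul_sum, Fintype.sum_equiv (Equiv.ofBijective F ⟨hFinj, hFsurj⟩)
        (fun η => (F η : P' → ℂ) u) (fun l => (l : P' → ℂ) u) (fun _ => rfl)]
    have h := Char.sum_irr_mul_conj (G := P') u 1
    simp only [Char.irr_degree_one_of_comm hab' (Subtype.prop _), map_one, mul_one] at h
    rw [h]
    by_cases hu : u = 1
    · rw [if_pos hu, if_pos (hu ▸ IsConj.refl _)]
      rw [show Subgroup.centralizer ({u} : Set P') = ⊤ from
        eq_top_iff.2 fun w _ => Subgroup.mem_centralizer_singleton_iff.2 (hab' _ _),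
        Subgroup.card_top, hcardP']
    · rw [if_neg hu, if_neg (fun h' => hu (isConj_one_left.1 h')), mul_zero]
  have hecard : Nat.card e = Nat.card P := by
    have h := hsum 1
    rw [if_pos rfl, Finset.sum_congr rfl (fun η _ => by rw [OneMemClass.coe_one, hη1 η]),
      Finset.sum_const, Finset.card_univ, ← Nat.card_eq_fintype_card, nsmul_eq_mul, mul_comm] at h
    exact_mod_cast mul_left_cancel₀ hd0 h
  have hP2 : 1 < Nat.card P := (Subgroup.one_lt_card_iff_ne_bot P).2 hP1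
  -- stability of `e`
  have hstab : ∀ (x : H), ∀ η ∈ e, Brauer.conjIrr C x η ∈ e := by
    intro x η hη
    have h1 := Brauer.sameBlock_conjChar C (pBlock_sameBlock R.hB hθ hη) x
    rw [hinv x] at h1
    rw [pBlock_eq R.hB hθ]
    exact h1
  have hfix : ∀ (x : H) (η : IrrCharacter C), Brauer.conjIrr C x η = θ → η = θ := by
    intro x η h
    have h1 : CharInd.conjChar C x (η : C → ℂ) = (θ : C → ℂ) := congrArg Subtype.val h
    refine Subtype.ext ?_
    have h2 := congrArg (CharInd.conjChar C x⁻¹) h1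
    first
      | rwa [← CharInd.conjChar_mul, inv_mul_cancel, CharInd.conjChar_one, hinv] at h2
      | rwa [← CharInd.conjChar_mul, mul_inv_cancel, CharInd.conjChar_one, hinv] at h2
  -- coverage
  have hcovers : ∀ η ∈ e, ∃ χ ∈ B, classInner (fun c : C => (χ : H → ℂ) c) (η : C → ℂ) ≠ 0 :=
    fun η hη => S0934.result p M hM C e B hind η hη
  have hcov : ∃ χ ∈ B, ∃ η ∈ e, classInner (fun c : C => (χ : H → ℂ) c) (η : C → ℂ) ≠ 0 := by
    obtain ⟨χ, hχ, h⟩ := hcovers θ hθ
    exact ⟨χ, hχ, θ, hθ, h⟩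
  have hallB : ∀ χ : IrrCharacter H,
      classInner (fun c : C => (χ : H → ℂ) c) (θ : C → ℂ) ≠ 0 → χ ∈ B := by
    intro χ h
    rw [BlockCover.covering_unique C hM R.hB hPC R.hD (le_of_eq hC.symm) hB (isPBlock_blockOf χ)
      hcov ⟨χ, mem_blockOf_self χ, θ, hθ, h⟩]
    exact mem_blockOf_self χ
  have horbit : CharInd.conjClass C (θ : C → ℂ) = {(θ : C → ℂ)} := by
    ext f
    rw [CharInd.mem_conjClass, Finset.mem_singleton]
    exact ⟨fun ⟨x, hx⟩ => hx.trans (hinv x), fun h => ⟨1, h.trans (hinv 1).symm⟩⟩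
  have hresθ : ∀ χ : IrrCharacter H, classInner (fun c : C => (χ : H → ℂ) c) (θ : C → ℂ) ≠ 0 →
      ∃ k : ℕ, 0 < k ∧ ∀ c : C, (χ : H → ℂ) c = (k : ℂ) * (θ : C → ℂ) c := by
    intro χ h
    obtain ⟨k, hk'⟩ := Char.isCharacter_classInner_nat
      (CharInd.isCharacter_res C (Char.isCharacter_of_irr χ.2)) θ
    refine ⟨k, Nat.pos_of_ne_zero fun h0 => h (by rw [hk', h0, Nat.cast_zero]), fun c => ?_⟩
    have h1 := congrFun (CharInd.clifford C χ.2 θ.2 h) c
    rwa [hk', horbit, Finset.sum_singleton, Pi.smul_apply, smul_eq_mul] at h1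
  have hresP : ∀ χ : IrrCharacter H, classInner (fun c : C => (χ : H → ℂ) c) (θ : C → ℂ) ≠ 0 →
      ∀ u ∈ P, (χ : H → ℂ) u = (χ : H → ℂ) 1 := by
    intro χ h u hu
    obtain ⟨k, -, hk'⟩ := hresθ χ h
    have h1 := hk' ⟨u, hPC hu⟩
    have h2 := hk' 1
    simp only [OneMemClass.coe_one] at h1 h2
    rw [h1, h2, hθP _ (Subgroup.mem_subgroupOf.2 hu)]
  -- a character of `e` other than `θ`, and above it one not over `θ`
  obtain ⟨η₀, hη₀, hη₀θ, hη₀p⟩ : ∃ η₀, ∃ h : η₀ ∈ e, η₀ ≠ θ ∧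
      ∀ u : P', (η₀ : C → ℂ) ((u ^ p : P') : C) = d := by
    let Q : Subgroup P' :=
      { carrier := {u | ∃ v, v ^ p = u}
        one_mem' := ⟨1, one_pow p⟩
        mul_mem' := fun {a b} ⟨v, hv⟩ ⟨w, hw⟩ => ⟨v * w, by
          rw [Commute.mul_pow (hab' v w), hv, hw]⟩
        inv_mem' := fun {a} ⟨v, hv⟩ => ⟨v⁻¹, by rw [inv_pow, hv]⟩ }
    have hQ : Q ≠ ⊤ := by
      intro hT
      have hs : Function.Surjective (fun v : P' => v ^ p) := fun u => show u ∈ Q by
        rw [hT]; exact Subgroup.mem_top u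
      obtain ⟨k, hk'⟩ := hPp.exists_card_eq
      obtain ⟨w, hw⟩ := exists_prime_orderOf_dvd_card' p (G := P') (by
        rw [hcardP', hk']
        exact dvd_pow_self p (by rintro rfl; rw [hk', pow_zero] at hP2; omega))
      have := Finite.injective_iff_surjective.2 hs (show w ^ p = (1 : P') ^ p by
        rw [one_pow, ← hw, pow_orderOf_eq_one])
      rw [this, orderOf_one] at hw
      exact hp.out.ne_one hw.symm
    obtain ⟨l, hl, w, hw⟩ := exists_irr_trivial_on hab' Q hQ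
    obtain ⟨⟨η, hη⟩, hη'⟩ := hFsurj l
    refine ⟨η, hη, fun h => hw ?_, fun u => ?_⟩
    · have h1 : (η : C → ℂ) w = d * (l : P' → ℂ) w := by rw [← hη']; exact hF ⟨η, hη⟩ w
      rw [h, hθP _ w.2, hθ1] at h1
      exact (mul_eq_left₀ hd0).1 h1.symm
    · rw [hF ⟨η, hη⟩, hη', ← hl 1 (u ^ p) (by simp only [inv_one, one_mul]; exact ⟨u, rfl⟩),
        Char.irr_degree_one_of_comm hab' l.2, mul_one]
  obtain ⟨χ₃, hχ₃B, hχ₃⟩ := hcovers η₀ hη₀
  have hnotover : ∀ (χ : IrrCharacter H) (η : IrrCharacter C), η ≠ θ →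
      classInner (fun c : C => (χ : H → ℂ) c) (η : C → ℂ) ≠ 0 →
      classInner (fun c : C => (χ : H → ℂ) c) (θ : C → ℂ) = 0 := by
    intro χ η hne h
    by_contra h'
    obtain ⟨k, -, hk'⟩ := hresθ χ h'
    apply h
    rw [show (fun c : C => (χ : H → ℂ) c) = (k : ℂ) • (θ : C → ℂ) from funext fun c => hk' c,
      Char.classInner_smul_left,
      Char.classInner_irr_ne θ.2 η.2 (fun hh => hne (Subtype.ext hh).symm), mul_zero]
  have hχ₃θ := hnotover χ₃ η₀ hη₀θ hχ₃
  obtain ⟨η₁, hη₁B, hη₁⟩ := hcovers θ hθ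
  have h13 : η₁ ≠ χ₃ := fun h => hη₁ (h ▸ hχ₃θ)
  let S0 := Finset.univ.filter fun χ : IrrCharacter H =>
    classInner (fun c : C => (χ : H → ℂ) c) (θ : C → ℂ) ≠ 0
  have hS0B : S0 ⊆ Finset.univ.filter (· ∈ B) := fun χ hχ =>
    Finset.mem_filter.2 ⟨Finset.mem_univ _, hallB χ (Finset.mem_filter.1 hχ).2⟩
  have hBcard : (Finset.univ.filter (· ∈ B) : Finset (IrrCharacter H)).card = 3 := by
    rw [← hk, Nat.card_eq_fintype_card]
    exact (Fintype.card_subtype _).symm
  have hS0lt : S0.card < 3 := hBcard ▸ Finset.card_lt_card (Finset.ssubset_iff_of_subset hS0B |>.2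
    ⟨χ₃, Finset.mem_filter.2 ⟨Finset.mem_univ _, hχ₃B⟩, fun h => (Finset.mem_filter.1 h).2 hχ₃θ⟩)
  have hη₁S : η₁ ∈ S0 := Finset.mem_filter.2 ⟨Finset.mem_univ _, hη₁⟩
  by_cases hone : S0.card = 1
  · -- one character trivial on `P`: rank one
    have hS0 : S0 = {η₁} := by
      obtain ⟨a, ha⟩ := Finset.card_eq_one.1 hone
      rw [ha, Finset.mem_singleton] at hη₁S
      rw [ha, hη₁S]
    have hrank : blockRank p B = 1 := by
      refine blockRank_eq_one_of_prop hB η₁ fun χ hχ => ?_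
      obtain ⟨c, hc, hsumc⟩ := apply_regular_eq_sum hM hB P hPp hab hχ
      refine ⟨c η₁, fun g hg => ?_⟩
      rw [hsumc g hg, Finset.sum_eq_single η₁ (fun ψ _ hψ => ?_) (by simp)]
      by_cases hcψ : c ψ = 0
      · rw [hcψ, zero_mul]
      exfalso
      obtain ⟨hψB, hψP⟩ := hc ψ hcψ
      obtain ⟨η, hη, hψη⟩ := BlockCover.exists_over_of_covers C hM R.hB hB hcov hψB
      have hηθ : η = θ := by
        refine R.trivialOn_unique hη hθ ?_ hθP
        by_contra hnt
        haveI : P'.Normal := R.normal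
        have h1 : ∑ u : P', (ψ : H → ℂ) ((u : C) : H) = 0 := by
          have hcl := CharInd.clifford C ψ.2 η.2 hψη
          refine (Finset.sum_congr rfl fun u (_ : u ∈ Finset.univ) => congrFun hcl ((u : P') : C)).trans ?_
          simp only [Pi.smul_apply, smul_eq_mul, Finset.sum_apply, ← Finset.mul_sum]
          rw [Finset.sum_comm, Finset.sum_eq_zero, mul_zero]
          intro ζ hζ
          obtain ⟨x, rfl⟩ := (CharInd.mem_conjClass C).1 hζ
          have h := Brauer.sum_coset_eq_zero_of_not_trivialOn P'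
            (⟨_, CharInd.conjChar_irr C x η.2⟩ : IrrCharacter C) (fun htr => hnt fun v hv => ?_) 1
          · simpa using h
          · have hmem : (⟨x⁻¹ * (v : H) * x, hPC (by
                simpa using (inferInstance : P.Normal).conj_mem _ (Subgroup.mem_subgroupOf.1 hv) x⁻¹)⟩ : C)
                ∈ P' := Subgroup.mem_subgroupOf.2 (by
                simpa using (inferInstance : P.Normal).conj_mem _ (Subgroup.mem_subgroupOf.1 hv) x⁻¹)
            have h2 : CharInd.conjChar C x (η : C → ℂ) _ = CharInd.conjChar C x (η : C → ℂ) 1 :=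
              htr _ hmem
            rw [CharInd.conjChar_apply, CharInd.conjChar_apply] at h2
            simp [mul_assoc] at h2
            exact h2
        rw [Finset.sum_congr rfl fun u (_ : u ∈ Finset.univ) =>
          hψP _ (Subgroup.mem_subgroupOf.1 u.2), Finset.sum_const, Finset.card_univ,
          nsmul_eq_mul, mul_eq_zero] at h1
        exact h1.elim (Nat.cast_ne_zero.2 Fintype.card_ne_zero) (Char.irr_one_ne_zero ψ.2)
      have : ψ ∈ S0 := Finset.mem_filter.2 ⟨Finset.mem_univ _, hηθ ▸ hψη⟩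
      rw [hS0, Finset.mem_singleton] at this
      exact hψ this
    obtain ⟨-, hD, -⟩ := S4648.result p M hM B hB P hP hP1 hrank (by omega)
    rw [hD, hk]
  -- two characters trivial on `P`
  have htwo : S0.card = 2 := by
    have := Finset.card_pos.2 ⟨η₁, hη₁S⟩
    omega
  obtain ⟨a₁, a₂, ha12, hS0⟩ := Finset.card_eq_two.1 htwo
  have hBeq : Finset.univ.filter (· ∈ B) = ({a₁, a₂, χ₃} : Finset (IrrCharacter H)) := by
    refine (Finset.eq_of_subset_of_card_le ?_ ?_).symm
    · intro χ hχ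
      simp only [Finset.mem_insert, Finset.mem_singleton] at hχ
      rcases hχ with rfl | rfl | rfl
      · exact hS0B (by simp [hS0])
      · exact hS0B (by simp [hS0])
      · exact Finset.mem_filter.2 ⟨Finset.mem_univ _, hχ₃B⟩
    · have h1 : χ₃ ∉ S0 := fun h => (Finset.mem_filter.1 h).2 hχ₃θ
      rw [hS0, Finset.mem_insert, Finset.mem_singleton] at h1
      push Not at h1
      rw [hBcard, Finset.card_insert_of_notMem (by simp [ha12, h1.1.symm]),
        Finset.card_insert_of_notMem (by simp [h1.2.symm]), Finset.card_singleton]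
  have hover : ∀ χ : IrrCharacter H, classInner (fun c : C => (χ : H → ℂ) c) (θ : C → ℂ) ≠ 0 →
      χ = a₁ ∨ χ = a₂ := fun χ h => by
    have : χ ∈ S0 := Finset.mem_filter.2 ⟨Finset.mem_univ _, h⟩
    simpa [hS0] using this
  have ha₁ : classInner (fun c : C => (a₁ : H → ℂ) c) (θ : C → ℂ) ≠ 0 :=
    (Finset.mem_filter.1 (show a₁ ∈ S0 by simp [hS0])).2
  have ha₂ : classInner (fun c : C => (a₂ : H → ℂ) c) (θ : C → ℂ) ≠ 0 :=
    (Finset.mem_filter.1 (show a₂ ∈ S0 by simp [hS0])).2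
  obtain ⟨k₁, hk₁, hres₁⟩ := hresθ a₁ ha₁
  obtain ⟨k₂, hk₂, hres₂⟩ := hresθ a₂ ha₂
  -- `H` is transitive on `e` without `θ`
  obtain ⟨k₃, hk₃'⟩ := Char.isCharacter_classInner_nat
    (CharInd.isCharacter_res C (Char.isCharacter_of_irr χ₃.2)) η₀
  have hk₃ : k₃ ≠ 0 := fun h0 => hχ₃ (by rw [hk₃', h0, Nat.cast_zero])
  have horb : ∀ η : IrrCharacter C,
      (η : C → ℂ) ∈ CharInd.conjClass C (η₀ : C → ℂ) ↔ η ∈ e ∧ η ≠ θ := by
    intro η
    rw [CharInd.mem_conjClass]
    constructor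
    · rintro ⟨x, hx⟩
      have h : η = Brauer.conjIrr C x η₀ := Subtype.ext hx
      exact ⟨h ▸ hstab x η₀ hη₀, fun hθ' => hη₀θ (hfix x η₀ (h ▸ hθ'))⟩
    · rintro ⟨hη, hηθ⟩
      obtain ⟨χ, hχB, hχ⟩ := hcovers η hη
      have hχmem : χ ∈ Finset.univ.filter (· ∈ B) := Finset.mem_filter.2 ⟨Finset.mem_univ _, hχB⟩
      have h0 := hnotover χ η hηθ hχ
      simp only [hBeq, Finset.mem_insert, Finset.mem_singleton] at hχmem
      rcases hχmem with rfl | rfl | rfl
      · exact absurd h0 ha₁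
      · exact absurd h0 ha₂
      rw [← CharInd.mem_conjClass]
      by_contra hn
      apply hχ
      rw [CharInd.clifford C χ.2 η₀.2 hχ₃, Char.classInner_smul_left, Char.classInner_sum_left,
        Finset.sum_eq_zero fun ψ hψ => ?_, mul_zero]
      obtain ⟨y, rfl⟩ := (CharInd.mem_conjClass C).1 hψ
      exact Char.classInner_irr_ne (CharInd.conjChar_irr C y η₀.2) η.2 fun h => hn (h ▸ hψ)
  have horbset : CharInd.conjClass C (η₀ : C → ℂ) =
      ((Finset.univ.filter fun η : IrrCharacter C => η ∈ e ∧ η ≠ θ).image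
        (fun η : IrrCharacter C => (η : C → ℂ))) := by
    ext f
    constructor
    · intro hf
      obtain ⟨x, rfl⟩ := (CharInd.mem_conjClass C).1 hf
      exact Finset.mem_image.2 ⟨⟨_, CharInd.conjChar_irr C x η₀.2⟩,
        Finset.mem_filter.2 ⟨Finset.mem_univ _, (horb ⟨_, CharInd.conjChar_irr C x η₀.2⟩).1 hf⟩, rfl⟩
    · intro hf
      obtain ⟨η, hη, rfl⟩ := Finset.mem_image.1 hf
      exact (horb η).2 (Finset.mem_filter.1 hη).2
  have hsetE : (Finset.univ.filter fun η : IrrCharacter C => η ∈ e ∧ η ≠ θ) =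
      (Finset.univ.filter (· ∈ e)).erase θ := by
    ext η; simp [and_comm]
  have horbcard : (CharInd.conjClass C (η₀ : C → ℂ)).card = Nat.card P - 1 := by
    rw [horbset, Finset.card_image_of_injective _ Subtype.val_injective, hsetE,
      Finset.card_erase_of_mem (by simp [hθ]), ← hecard, Nat.card_eq_fintype_card]
    congr 1
    exact (Fintype.card_subtype _).symm
  have hχ₃val : ∀ u : P', (χ₃ : H → ℂ) ((u : C) : H) =
      (k₃ : ℂ) * (∑ η : e, (η.1 : C → ℂ) u - d) := by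
    intro u
    have h1 := congrFun (CharInd.clifford C χ₃.2 η₀.2 hχ₃) (u : C)
    simp only [Pi.smul_apply, smul_eq_mul, Finset.sum_apply] at h1
    rw [h1, hk₃', horbset, Finset.sum_image (fun a _ b _ h => Subtype.ext h), hsetE]
    congr 1
    rw [eq_sub_iff_add_eq, ← hθ1, ← hθP _ u.2,
      Finset.sum_erase_add _ _ (by simp [hθ] : θ ∈ Finset.univ.filter (· ∈ e))]
    exact Finset.sum_subtype _ (fun x => by simp) (fun η : IrrCharacter C => (η : C → ℂ) u)
  -- exponent `p`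
  have hexp : ∀ u : P', u ^ p = 1 := by
    intro u
    by_contra hne
    have h := hsum (u ^ p)
    rw [if_neg hne] at h
    have hall : ∀ η : e, (η.1 : C → ℂ) ((u ^ p : P') : C) = d := by
      intro η
      by_cases hηθ : η.1 = θ
      · rw [hηθ, hθP _ (u ^ p).2, hθ1]
      · obtain ⟨x, hx⟩ := (CharInd.mem_conjClass C).1 ((horb η.1).2 ⟨η.2, hηθ⟩)
        have hxu : (⟨x * (u : C) * x⁻¹, (inferInstance : C.Normal).conj_mem _ (u : C).2 x⟩ : C) ∈ P' :=
          Subgroup.mem_subgroupOf.2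
            ((inferInstance : P.Normal).conj_mem _ (Subgroup.mem_subgroupOf.1 u.2) x)
        rw [hx, CharInd.conjChar_apply]
        have h1 := hη₀p ⟨_, hxu⟩
        convert h1 using 2
        apply Subtype.ext
        simp only [SubmonoidClass.coe_pow]
        exact (conj_pow).symm
    rw [Finset.sum_congr rfl (fun η _ => hall η), Finset.sum_const, Finset.card_univ,
      nsmul_eq_mul, ← Nat.card_eq_fintype_card, hecard] at h
    rcases mul_eq_zero.1 h with h | h
    · exact (Nat.cast_ne_zero.2 (show Nat.card P ≠ 0 by omega)) h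
    · exact hd0 h
  have hexpP : ∀ u : P, u ^ p = 1 := fun u => by
    have h := hexp ⟨⟨u, hPC u.2⟩, Subgroup.mem_subgroupOf.2 u.2⟩
    exact Subtype.ext (congrArg (fun z : P' => ((z : C) : H)) h :)
  -- degrees
  obtain ⟨w, hwP, hw1⟩ : ∃ w ∈ P, w ≠ 1 := by
    by_contra h
    push Not at h
    exact hP1 (eq_bot_iff.2 fun x hx => Subgroup.mem_bot.2 (h x hx))
  set w' : P' := ⟨⟨w, hPC hwP⟩, Subgroup.mem_subgroupOf.2 hwP⟩ with hw'
  have hw'1 : w' ≠ 1 := fun h => hw1 (congrArg (fun z : P' => ((z : C) : H)) h :)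
  have hweak := Brauer.weakOrth_of_integral hM B (blockCoeff_memLocalRing hB)
    (x := (1 : H)) (y := w) (by rw [orderOf_one]; exact hp.out.not_dvd_one) (by
      have h1 : orderOf w = p := orderOf_eq_prime
        (congrArg Subtype.val (hexpP ⟨w, hwP⟩)) hw1
      rw [h1])
  rw [finsum_mem_eq_finite_toFinset_sum _ (Set.toFinite B),
    show (Set.toFinite B).toFinset = Finset.univ.filter (· ∈ B) from by ext; simp, hBeq] at hweak
  have h1n : χ₃ ≠ a₁ := fun h => ha₁ (h ▸ hχ₃θ)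
  have h2n : χ₃ ≠ a₂ := fun h => ha₂ (h ▸ hχ₃θ)
  rw [Finset.sum_insert (by simp [ha12, h1n.symm]), Finset.sum_pair h2n.symm] at hweak
  have hv : ∀ (χ : IrrCharacter H) (k : ℕ), (∀ c : C, (χ : H → ℂ) c = (k : ℂ) * (θ : C → ℂ) c) →
      (χ : H → ℂ) 1 = (k : ℂ) * d ∧ (χ : H → ℂ) w = (k : ℂ) * d := by
    intro χ k h
    have e1 := h 1
    have e2 := h ⟨w, hPC hwP⟩
    rw [hθP _ (Subgroup.mem_subgroupOf.2 hwP), hθ1] at e2
    rw [hθ1, OneMemClass.coe_one] at e1
    exact ⟨e1, e2⟩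
  obtain ⟨e11, e1w⟩ := hv a₁ k₁ hres₁
  obtain ⟨e21, e2w⟩ := hv a₂ k₂ hres₂
  obtain ⟨q, hq⟩ : ∃ q, Nat.card P = q + 1 := ⟨Nat.card P - 1, by omega⟩
  have e31 : (χ₃ : H → ℂ) 1 = (k₃ : ℂ) * d * q := by
    have h := hχ₃val 1
    rw [hsum, if_pos rfl, OneMemClass.coe_one, OneMemClass.coe_one, hq] at h
    rw [h]; push_cast; ring
  have e3w : (χ₃ : H → ℂ) w = -((k₃ : ℂ) * d) := by
    have h := hχ₃val w'
    rw [hsum, if_neg hw'1] at h
    rw [show (χ₃ : H → ℂ) w = (χ₃ : H → ℂ) ((w' : C) : H) from rfl, h]; ring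
  rw [e11, e1w, e21, e2w, e31, e3w] at hweak
  have hdeg : k₁ ^ 2 + k₂ ^ 2 = q * k₃ ^ 2 := by
    simp only [map_mul, map_neg, Complex.conj_natCast] at hweak
    have h2 : ((k₁ ^ 2 + k₂ ^ 2 : ℕ) : ℂ) = ((q * k₃ ^ 2 : ℕ) : ℂ) := by
      push_cast
      refine mul_left_cancel₀ (mul_ne_zero hd0 hd0) ?_
      linear_combination hweak
    exact_mod_cast h2
  obtain ⟨g, a, b, hg, hab2, rfl, rfl⟩ := Nat.exists_coprime' (Nat.gcd_pos_of_pos_left k₂ hk₁)
  have ha : 0 < a := Nat.pos_of_ne_zero fun h => by subst h; simp at hk₁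
  have hb : 0 < b := Nat.pos_of_ne_zero fun h => by subst h; simp at hk₂
  obtain ⟨hidx, huniq, hdvd⟩ := good_classes C θ (fun x c => by
      have h := congrFun (hinv x) c
      rwa [CharInd.conjChar_apply] at h)
    ha12 hover ha hb hg hab2
    (fun c => by rw [hres₁, mul_comm g a]) (fun c => by rw [hres₂, mul_comm g b])
  -- the action
  letI : CommGroup P := { (inferInstance : Group P) with
    mul_comm := fun a b => Subtype.ext (hab _ a.2 _ b.2) }
  let φ : H ⧸ C →* MulAut P := QuotientGroup.lift C MulAut.conjNormal fun c hc => by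
    refine MonoidHom.mem_ker.2 (MulEquiv.ext fun u => Subtype.ext ?_)
    rw [MulAut.conjNormal_apply]
    rw [hC, Subgroup.mem_centralizer_iff] at hc
    rw [MulAut.one_apply, ← hc u u.2, mul_inv_cancel_right]
  have hφ : ∀ (h : H) (u : P), ((φ (h : H ⧸ C) u : P) : H) = h * u * h⁻¹ := fun h u =>
    MulAut.conjNormal_apply h u
  have hφinj : Function.Injective φ := by
    rw [injective_iff_map_eq_one]
    intro x hx
    obtain ⟨h, rfl⟩ := QuotientGroup.mk_surjective x
    rw [QuotientGroup.eq_one_iff, hC, Subgroup.mem_centralizer_iff]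
    intro u hu
    have h1 := hφ h ⟨u, hu⟩
    rw [hx, MulAut.one_apply] at h1
    exact (eq_mul_inv_iff_mul_eq.1 h1)
  obtain ⟨n, hn⟩ := hPp.exists_card_eq
  have hn0 : 0 < n := Nat.pos_of_ne_zero fun h => by rw [h, pow_zero] at hn; omega
  have hqn : p ^ n - 1 = q := by omega
  have horbdvd : p ^ n - 1 ∣ Nat.card (H ⧸ C) := by
    rw [← hn, ← horbcard, CharInd.card_conjClass, ← Subgroup.index_eq_card]
    exact Subgroup.index_dvd_of_le (CharInd.le_conjStab C (Char.irr_isClassFunction η₀.2))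
  refine card_eq_three φ hφinj hn hexpP (by rwa [← Subgroup.index_eq_card]) ?_ huniq hn0 hab2 ha hb
    (by rw [← Subgroup.index_eq_card, hidx]) ?_ horbdvd hdvd
  · -- semiregularity
    intro hX x u hxu hu
    obtain ⟨h, rfl⟩ := QuotientGroup.mk_surjective x
    have hconjmem : ∀ v : P', (⟨h * (v : C) * h⁻¹,
        (inferInstance : C.Normal).conj_mem _ (v : C).2 h⟩ : C) ∈ P' := fun v =>
      Subgroup.mem_subgroupOf.2
        ((inferInstance : P.Normal).conj_mem _ (Subgroup.mem_subgroupOf.1 v.2) h)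
    let δ : P' →* P' := MonoidHom.mk' (fun v => v⁻¹ * ⟨_, hconjmem v⟩) fun v v' => by
      have e1 : (⟨_, hconjmem (v * v')⟩ : P') = ⟨_, hconjmem v⟩ * ⟨_, hconjmem v'⟩ :=
        Subtype.ext (Subtype.ext (conj_mul.symm))
      rw [e1, mul_inv_rev]
      calc v'⁻¹ * v⁻¹ * (⟨_, hconjmem v⟩ * ⟨_, hconjmem v'⟩)
          = v'⁻¹ * (v⁻¹ * ⟨_, hconjmem v⟩) * ⟨_, hconjmem v'⟩ := by
            simp only [mul_assoc]
        _ = v⁻¹ * ⟨_, hconjmem v⟩ * (v'⁻¹ * ⟨_, hconjmem v'⟩) := by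
            rw [hab' v'⁻¹, mul_assoc]
    have hker : (⟨⟨u, hPC u.2⟩, Subgroup.mem_subgroupOf.2 u.2⟩ : P') ∈ δ.ker := by
      rw [MonoidHom.mem_ker]
      show _⁻¹ * _ = (1 : P')
      rw [inv_mul_eq_one]
      exact Subtype.ext (Subtype.ext ((congrArg Subtype.val hxu).symm.trans (hφ h u)))
    have hQ : δ.range ≠ ⊤ := by
      intro hT
      have hs : Function.Surjective δ := MonoidHom.range_eq_top.1 hT
      have h1 := (δ.ker_eq_bot_iff).2 (Finite.injective_iff_surjective.2 hs)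
      rw [h1, Subgroup.mem_bot] at hker
      exact hu (Subtype.ext (congrArg (fun z : P' => ((z : C) : H)) hker :))
    obtain ⟨l, hl, v, hv'⟩ := exists_irr_trivial_on hab' δ.range hQ
    obtain ⟨η, hη⟩ := hFsurj l
    have hηθ : η.1 ≠ θ := fun hh => by
      apply hv'
      have h1 := hF η v
      rw [hη, hh, hθP _ v.2, hθ1] at h1
      exact (mul_eq_left₀ hd0).1 h1.symm
    have hfixη : (⟨Brauer.conjIrr C h η.1, hstab h η.1 η.2⟩ : e) = η := by
      refine hFinj (Subtype.ext (funext fun z => mul_left_cancel₀ hd0 ?_))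
      rw [← hF, ← hF]
      show CharInd.conjChar C h (η.1 : C → ℂ) (z : C) = _
      rw [CharInd.conjChar_apply]
      refine (hF η ⟨_, hconjmem z⟩).trans ?_
      rw [hF, hη, ← hl z ⟨_, hconjmem z⟩ ⟨z, rfl⟩]
    -- the stabiliser of `η` is `C`
    have hclass : CharInd.conjClass C (η.1 : C → ℂ) = CharInd.conjClass C (η₀ : C → ℂ) := by
      obtain ⟨y, hy⟩ := (CharInd.mem_conjClass C).1 ((horb η.1).2 ⟨η.2, hηθ⟩)
      ext f
      rw [CharInd.mem_conjClass, CharInd.mem_conjClass, hy]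
      constructor
      · rintro ⟨z, rfl⟩
        exact ⟨y * z, (CharInd.conjChar_mul C _ _ _).symm⟩
      · rintro ⟨z, rfl⟩
        exact ⟨y⁻¹ * z, by rw [← CharInd.conjChar_mul, mul_inv_cancel_left]⟩
    have hidx' : (CharInd.conjStab C (η.1 : C → ℂ)).index = C.index := by
      rw [← CharInd.card_conjClass, hclass, horbcard, Subgroup.index_eq_card, hX, hn]
    have hle := CharInd.le_conjStab C (Char.irr_isClassFunction η.1.2)
    have hmem : h ∈ CharInd.conjStab C (η.1 : C → ℂ) :=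
      (CharInd.mem_conjStab C).2 (congrArg (fun z : e => (z.1 : C → ℂ)) hfixη)
    rw [QuotientGroup.eq_one_iff]
    have : C = CharInd.conjStab C (η.1 : C → ℂ) := Subgroup.eq_of_le_of_card_ge hle (by
      have h1 := C.card_mul_index
      have h2 := (CharInd.conjStab C (η.1 : C → ℂ)).card_mul_index
      rw [hidx', ← h1] at h2
      exact (Nat.eq_of_mul_eq_mul_right (Nat.pos_of_ne_zero Subgroup.index_ne_zero_of_finite) h2).le)
    rw [this]; exact hmem
  · -- the square
    have h : g ^ 2 * (q * (a ^ 2 + b ^ 2)) = (q * k₃) ^ 2 := by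
      rw [mul_pow q k₃, pow_two q, mul_assoc q q, ← hdeg]; ring
    obtain ⟨m, hm⟩ := (Nat.pow_dvd_pow_iff two_ne_zero).1 (Dvd.intro _ h)
    rw [hm, mul_pow] at h
    exact ⟨m, by rw [hqn, Nat.eq_of_mul_eq_mul_left (by positivity) h, pow_two]⟩

/-- A block with a normal abelian defect group and three characters. -/
theorem card_eq_three_of_normal : ∀ (n : ℕ) (H : Type u) [Group H] [Fintype H], Nat.card H = n →
    ∀ {p : ℕ} [Fact p.Prime] {M : Ideal AlgInt}, IsPModular p M → ∀ (B : Set (IrrCharacter H))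
      (P : Subgroup H) [P.Normal], IsPBlock M B → IsDefectGroup p M B P → P ≠ ⊥ →
      (∀ x ∈ P, ∀ y ∈ P, x * y = y * x) → Nat.card B = 3 → Nat.card P = 3 := by
  intro n
  induction n using Nat.strong_induction_on with
  | _ n ih =>
  intro H _ _ hn p _ M hM B P _ hB hP hP1 hab hk
  haveI : M.IsPrime := hM.2.1.isPrime
  set C := Subgroup.centralizer (P : Set H) with hC
  haveI : C.Normal := inferInstance
  letI := Fintype.ofFinite C
  have hPC : P ≤ C := fun x hx => Subgroup.mem_centralizer_iff.2 fun y hy => hab y hy x hx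
  have hCeq : C = P ⊔ Subgroup.centralizer (P : Set H) := (sup_eq_right.2 hPC).symm
  obtain ⟨e, R, hind, θ, hθ, hθP, horb⟩ := Brauer.exists_canonical hM hB P hP C hCeq
  set T := CharInd.conjStab C (θ : C → ℂ) with hT
  by_cases hTtop : T = ⊤
  · have hinv : ∀ x : H, CharInd.conjChar C x (θ : C → ℂ) = (θ : C → ℂ) := fun x =>
      (CharInd.mem_conjStab C).1 (show x ∈ T from hTtop ▸ Subgroup.mem_top x)
    have hpX : ¬ p ∣ C.index := fun hd => by
      rw [CharInd.card_conjClass, ← hT, hTtop, Subgroup.index_top, Nat.factorization_one] at horb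
      have := (Fact.out : p.Prime).factorization_pos_of_dvd Subgroup.index_ne_zero_of_finite hd
      simp only [Finsupp.coe_zero, Pi.zero_apply] at horb
      omega
    exact card_eq_three_of_invariant hM hB P hP hP1 hab hk C hC R hind hθ hθP hinv hpX
  · letI := Fintype.ofFinite T
    have hCT : C ≤ T := CharInd.le_conjStab C (Char.irr_isClassFunction θ.2)
    have hmem : ∀ g : H, g ∈ T ↔ ∀ η ∈ e, Brauer.conjIrr C g η ∈ e := by
      intro g
      refine ⟨fun hg η hη => ?_, fun h => ?_⟩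
      · have h1 := Brauer.sameBlock_conjChar C (pBlock_sameBlock R.hB hθ hη) g
        rw [(CharInd.mem_conjStab C).1 hg] at h1
        rw [pBlock_eq R.hB hθ]
        exact h1
      · refine (CharInd.mem_conjStab C).2 (congrArg Subtype.val
          (R.trivialOn_unique (h θ hθ) hθ (fun x hx => ?_) hθP) :)
        show CharInd.conjChar C g (θ : C → ℂ) x = CharInd.conjChar C g (θ : C → ℂ) 1
        rw [CharInd.conjChar_apply, CharInd.conjChar_apply]
        rw [hθP _ (Subgroup.mem_subgroupOf.2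
          ((inferInstance : P.Normal).conj_mem _ (Subgroup.mem_subgroupOf.1 hx) g))]
        exact congrArg _ (Subtype.ext (by simp))
    have hcov : ∃ χ ∈ B, ∃ η ∈ e, classInner (fun c : C => (χ : H → ℂ) c) (η : C → ℂ) ≠ 0 := by
      obtain ⟨χ, hχ, h⟩ := S0934.result p M hM C e B hind θ hθ
      exact ⟨χ, hχ, θ, hθ, h⟩
    obtain ⟨B', hB', hcov', hindT⟩ := BlockCover.exists_inducing_block hCT hmem hM R.hB hB hcov
    obtain ⟨B₁, hind₁, hirr, hiff⟩ := BlockCover.induced_block hCT hmem hM R.hB hB' hcov'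
    rw [← isInducedBlock_unique hindT hind₁] at hiff
    have hTm : ∀ g : H, g ∈ T ↔ ∀ η ∈ e, ∀ η' : IrrCharacter C,
        (∀ c : C, (η' : C → ℂ) c = (η : C → ℂ) ⟨g * c * g⁻¹,
          (inferInstance : C.Normal).conj_mem c c.2 g⟩) → η' ∈ e := fun g => by
      rw [hmem]
      refine ⟨fun h η hη η' hη' => ?_, fun h η hη => h η hη _ fun c => ?_⟩
      · rw [show η' = Brauer.conjIrr C g η from Subtype.ext (funext fun c => by
          rw [hη' c]; exact (CharInd.conjChar_apply C g (η : C → ℂ) c).symm)]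
        exact h η hη
      · exact CharInd.conjChar_apply C g (η : C → ℂ) c
    obtain ⟨hdef, hex⟩ := S4436.result p M hM C e R.hB T hTm hCT B' hB' hcov' B hindT
    obtain ⟨D', hD'⟩ := exists_isDefectGroup (p := p) (M := M) hB'
    obtain ⟨x, hx⟩ := isDefectGroup_exists_conj_eq hM hB (hdef D' hD') hP
    have hmap : D'.map T.subtype = P := by
      refine Subgroup.map_injective (f := (MulAut.conj x).toMonoidHom) (MulAut.conj x).injective ?_
      exact hx.trans (Subgroup.Normal.map_conj_eq (H := P) x).symm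
    have hPT : P ≤ T := hPC.trans hCT
    have hD'eq : D' = P.subgroupOf T := by
      rw [← hmap, Subgroup.subgroupOf, Subgroup.comap_map_eq_self_of_injective T.subtype_injective]
    subst hD'eq
    have hcard : Nat.card B' = 3 := by
      rw [← hk]
      let f : B' → B := fun ψ => ⟨(hex ψ.1 ψ.2).choose, (hex ψ.1 ψ.2).choose_spec.1⟩
      refine Nat.card_eq_of_bijective f ⟨fun ψ ψ' h => Subtype.ext ?_, fun χ => ?_⟩
      · refine BlockCover.indFun_injective hCT hmem R.hB
          (BlockCover.block_over hCT hM R.hB hmem hB' hcov' ψ.2)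
          (BlockCover.block_over hCT hM R.hB hmem hB' hcov' ψ'.2) ?_
        rw [← (hex ψ.1 ψ.2).choose_spec.2.1, ← (hex ψ'.1 ψ'.2).choose_spec.2.1]
        exact congrArg (fun z : B => (z.1 : H → ℂ)) h
      · obtain ⟨ψ, hψ, he⟩ := (hiff χ.1).1 χ.2
        refine ⟨⟨ψ, hψ⟩, Subtype.ext (Subtype.ext ?_)⟩
        exact (hex ψ hψ).choose_spec.2.1.trans he.symm
    have hlt : Nat.card T < n := hn ▸ lt_of_le_of_ne (Subgroup.card_le_card_group T)
      fun h => hTtop (Subgroup.eq_top_of_card_eq _ h)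
    haveI : (P.subgroupOf T).Normal := Subgroup.Normal.subgroupOf ‹P.Normal› T
    have h3 := ih _ hlt T rfl hM B' (P.subgroupOf T) hB' hD' (fun h => hP1 (by
        rw [← hmap, h, Subgroup.map_bot])) (fun a ha b hb => Subtype.ext
        (hab _ (Subgroup.mem_subgroupOf.1 ha) _ (Subgroup.mem_subgroupOf.1 hb))) hcard
    rwa [Nat.card_congr (Subgroup.subgroupOfEquivOfLe hPT).toEquiv] at h3

end Cfsg.Agent.ThreeChar
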